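import Mathlib

/-!
# S4415: basic tools for an order-three element with a cubic Jordan block over `𝔽₃`
-/

namespace Cfsg.Agent.Lib.S4415

variable {S E : Type*} [Group S] [AddCommGroup E] [Module (ZMod 3) E]

section rep
variable (ρ : Representation (ZMod 3) S E)

theorem rm (g h : S) (v : E) : ρ (g * h) v = ρ g (ρ h v) := by rw [map_mul]; rfl
theorem r1 (v : E) : ρ 1 v = v := by rw [map_one]; rfl
theorem rinvl (g : S) (v : E) : ρ g⁻¹ (ρ g v) = v := by rw [← rm, inv_mul_cancel, r1]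
theorem rinvr (g : S) (v : E) : ρ g (ρ g⁻¹ v) = v := by rw [← rm, mul_inv_cancel, r1]
theorem rconj (g x : S) (v : E) : ρ (g * x * g⁻¹) (ρ g v) = ρ g (ρ x v) := by
  rw [rm, rm, rinvl]

theorem rinj (g : S) {v w : E} (h : ρ g v = ρ g w) : v = w := by
  have := congrArg (ρ g⁻¹) h
  simpa [rinvl] using this

theorem r_zero_iff (g : S) (v : E) : ρ g v = 0 ↔ v = 0 := by
  constructor
  · intro h; apply rinj ρ g; rw [h, map_zero]
  · rintro rfl; simp

end rep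

theorem smul3 (x : E) : (3 : ZMod 3) • x = 0 := by
  have : (3 : ZMod 3) = 0 := rfl
  rw [this, zero_smul]

theorem eq_neg_self_zero {x : E} (h : x = -x) : x = 0 := by
  have h1 : (2 : ZMod 3) • x = 0 := by
    have : (2 : ZMod 3) • x = x + x := two_smul _ _
    rw [this]; nth_rewrite 1 [h]; simp
  have h2 : x = (2 : ZMod 3) • ((2 : ZMod 3) • x) := by
    rw [smul_smul]
    have : (2 * 2 : ZMod 3) = 1 := rfl
    rw [this, one_smul]
  rw [h2, h1, smul_zero]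

theorem zmod3_cases (α : ZMod 3) : α = 0 ∨ α = 1 ∨ α = -1 := by
  revert α; decide

section cube
theorem sub_one_cube (T : Module.End (ZMod 3) E) : (T - 1) ^ 3 = T ^ 3 - 1 := by
  have h3 : (3 : Module.End (ZMod 3) E) = 0 := by
    ext x
    have : ((3 : Module.End (ZMod 3) E)) x = (3 : ZMod 3) • x := by
      have h : (3 : Module.End (ZMod 3) E) = (3 : ZMod 3) • (1 : Module.End (ZMod 3) E) := by
        rw [show (3 : ZMod 3) = ((3 : ℕ) : ZMod 3) from rfl, Nat.cast_smul_eq_nsmul]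
        simp
      rw [h]; rfl
    rw [this, smul3]; rfl
  have : (T - 1) ^ 3 = T ^ 3 - 1 - 3 * (T ^ 2 - T) := by noncomm_ring
  rw [this, h3]; simp

theorem sub_one_pow9 (T : Module.End (ZMod 3) E) : (T - 1) ^ 9 = T ^ 9 - 1 := by
  have h1 : (T - 1) ^ 9 = ((T - 1) ^ 3) ^ 3 := by rw [← pow_mul]
  rw [h1, sub_one_cube, sub_one_cube, ← pow_mul]

theorem nilp5 {A : Type*} [Ring A] (a x : A) (h : x * a = 0) (ha : a ^ 3 = 0) (hx : x ^ 3 = 0) :
    (a - x) ^ 5 = 0 := by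
  have h2 : (a - x) ^ 2 = a ^ 2 - a * x + x ^ 2 := by
    have : (a - x) ^ 2 = a ^ 2 - a * x - x * a + x ^ 2 := by noncomm_ring
    rw [this, h]; abel
  have hxa2 : x * a ^ 2 = 0 := by rw [pow_two, ← mul_assoc, h, zero_mul]
  have h3 : (a - x) ^ 3 = - (a ^ 2 * x) + a * x ^ 2 := by
    have : (a - x) ^ 3 = (a - x) * (a - x) ^ 2 := by rw [pow_succ']
    rw [this, h2]
    have e : (a - x) * (a ^ 2 - a * x + x ^ 2) =
        a ^ 3 - a ^ 2 * x + a * x ^ 2 - x * a ^ 2 + (x * a) * x - x ^ 3 := by noncomm_ring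
    rw [e, ha, hx, hxa2, h]; noncomm_ring
  have h4 : (a - x) ^ 5 = (a - x) ^ 2 * (a - x) ^ 3 := by rw [← pow_add]
  rw [h4, h2, h3]
  have e : (a ^ 2 - a * x + x ^ 2) * (-(a ^ 2 * x) + a * x ^ 2) =
      - (a * a ^ 3 * x) + a ^ 3 * x ^ 2 + a * (x * a) * a * x - a * (x * a) * x ^ 2
        - x * (x * a) * a * x + x * (x * a) * x ^ 2 := by noncomm_ring
  rw [e, ha, h]; simp

variable (ρ : Representation (ZMod 3) S E) (hf : Function.Injective ρ)
include hf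

omit hf in
theorem eq_one_of_pow9' {h : S} (hc : (orderOf h).Coprime 3) (hm : h ^ 9 = 1) : h = 1 := by
  have h1 : orderOf h ∣ 3 ^ 2 := orderOf_dvd_of_pow_eq_one (by simpa using hm)
  have h2 : (orderOf h).Coprime (3 ^ 2) := hc.pow_right 2
  have h3 : orderOf h = 1 := Nat.Coprime.eq_one_of_dvd h2 h1
  exact orderOf_eq_one_iff.1 h3

theorem one_of_nilp9 {h : S} (hc : (orderOf h).Coprime 3) (hm : (ρ h - 1) ^ 9 = 0) : h = 1 := by
  apply eq_one_of_pow9' hc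
  apply hf
  rw [map_pow, map_one]
  rw [sub_one_pow9] at hm
  exact sub_eq_zero.1 hm

theorem one_of_nilp5 {h : S} (hc : (orderOf h).Coprime 3) (hm : (ρ h - 1) ^ 5 = 0) : h = 1 := by
  apply one_of_nilp9 ρ hf hc
  have : (ρ h - 1) ^ 9 = (ρ h - 1) ^ 4 * (ρ h - 1) ^ 5 := by rw [← pow_add]
  rw [this, hm, mul_zero]

/-- Elements with `(h-1)² = 0` and order prime to 3 are trivial. -/
theorem one_of_sq {h : S} (hc : (orderOf h).Coprime 3) (hm : ∀ v, ρ h (ρ h v - v) = ρ h v - v) :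
    h = 1 := by
  apply one_of_nilp5 ρ hf hc
  have h2 : (ρ h - 1) ^ 2 = 0 := by
    ext v
    have := hm v
    simp only [pow_two, Module.End.mul_apply, LinearMap.sub_apply, Module.End.one_apply,
      LinearMap.zero_apply]
    rw [map_sub]
    rw [← map_sub, this]; simp
  have : (ρ h - 1) ^ 5 = (ρ h - 1) ^ 3 * (ρ h - 1) ^ 2 := by rw [← pow_add]
  rw [this, h2, mul_zero]

/-- If `b₁` is trivial on the image of `b₂ - 1` (both of order dividing 3, with `b₁⁻¹ b₂`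
of order prime to 3) then `b₁ = b₂`. -/
theorem eq_of_nn {b₁ b₂ : S} (h₁ : b₁ ^ 3 = 1) (h₂ : b₂ ^ 3 = 1)
    (hc : (orderOf (b₁⁻¹ * b₂)).Coprime 3)
    (hn : ∀ v, ρ b₁ (ρ b₂ v - v) = ρ b₂ v - v) : b₁ = b₂ := by
  set c : Module.End (ZMod 3) E := ρ b₁⁻¹ with hc'
  set T : Module.End (ZMod 3) E := ρ b₂ with hT
  have hc3 : c ^ 3 = 1 := by
    rw [hc', ← map_pow, inv_pow, h₁, inv_one, map_one]
  have hT3 : T ^ 3 = 1 := by
    rw [hT, ← map_pow, h₂, map_one]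
  have hX : (1 - c) ^ 3 = 0 := by
    have h := sub_one_cube c
    rw [hc3, sub_self] at h
    have : (1 - c) = -(c - 1) := by abel
    rw [this, Odd.neg_pow (by decide), h, neg_zero]
  have hY : (T - 1) ^ 3 = 0 := by
    rw [sub_one_cube, hT3, sub_self]
  have hXY : (1 - c) * (T - 1) = 0 := by
    ext v
    simp only [Module.End.mul_apply, LinearMap.sub_apply, Module.End.one_apply, LinearMap.zero_apply]
    have h3 := hn v
    have h4 : c (T v - v) = T v - v := by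
      rw [hc']
      nth_rewrite 1 [← h3]
      exact rinvl ρ b₁ _
    rw [h4, sub_self]
  have hm : ρ (b₁⁻¹ * b₂) - 1 = (T - 1) - (1 - c) := by
    ext v
    simp only [LinearMap.sub_apply, Module.End.one_apply]
    rw [rm]
    have h4 : c (T v - v) = T v - v := by
      rw [hc']
      nth_rewrite 1 [← hn v]
      exact rinvl ρ b₁ _
    have h5 : ρ b₁⁻¹ (ρ b₂ v) = c (T v) := rfl
    rw [h5]
    rw [map_sub] at h4
    have h6 : c (T v) = T v - v + c v := by rw [← h4]; abel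
    rw [h6]; abel
  have := one_of_nilp5 ρ hf hc (by rw [hm]; exact nilp5 _ _ hXY hY hX)
  have h5 : b₁⁻¹ * b₂ = 1 := this
  exact (inv_mul_eq_one.1 h5)

end cube

end Cfsg.Agent.Lib.S4415

namespace Cfsg.Agent.Lib.S4415

variable {S E : Type*} [Group S] [AddCommGroup E] [Module (ZMod 3) E]

/-- The block data of `b` : `b³=1`, `[E,b]` lies in the span `U` of `u,s`,
with `(b-1)v = u`, `(b-1)u = s`, `(b-1)s = 0`, `u,s` independent. -/
structure BD (ρ : Representation (ZMod 3) S E) (b : S) (u s v : E) : Prop where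
  b3 : b ^ 3 = 1
  hn : ∀ x, ∃ α β : ZMod 3, ρ b x - x = α • u + β • s
  hv : ρ b v - v = u
  hu : ρ b u - u = s
  hs : ρ b s = s
  ind : ∀ α β : ZMod 3, α • u + β • s = 0 → α = 0 ∧ β = 0

namespace BD
variable {ρ : Representation (ZMod 3) S E} {b : S} {u s v : E}

theorem s_ne (h : BD ρ b u s v) : s ≠ 0 := by
  intro h0
  have := (h.ind 0 1 (by simp [h0])).2
  exact absurd this (by decide)

/-- Membership in `U`. -/
def InU (u s x : E) : Prop := ∃ α β : ZMod 3, x = α • u + β • s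

theorem inU_add {x y : E} (hx : InU u s x) (hy : InU u s y) : InU u s (x + y) := by
  obtain ⟨a, b, rfl⟩ := hx
  obtain ⟨c, d, rfl⟩ := hy
  exact ⟨a + c, b + d, by module⟩

theorem inU_sub {x y : E} (hx : InU u s x) (hy : InU u s y) : InU u s (x - y) := by
  obtain ⟨a, b, rfl⟩ := hx
  obtain ⟨c, d, rfl⟩ := hy
  exact ⟨a - c, b - d, by module⟩

theorem inU_n (h : BD ρ b u s v) (x : E) : InU u s (ρ b x - x) := h.hn x

theorem inU_b (h : BD ρ b u s v) {x : E} (hx : InU u s x) : InU u s (ρ b x) := by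
  have := inU_add hx (h.inU_n x)
  simpa using this

theorem inU_binv (h : BD ρ b u s v) {x : E} (hx : InU u s x) : InU u s (ρ b⁻¹ x) := by
  have hb : b⁻¹ = b * b := by
    have h3 := h.b3
    rw [pow_succ, pow_two] at h3
    exact inv_eq_of_mul_eq_one_right (by rw [← h3]; group)
  rw [hb, rm]
  exact h.inU_b (h.inU_b hx)

theorem binv_sub (h : BD ρ b u s v) (x : E) : InU u s (ρ b⁻¹ x - x) := by
  have h1 := h.inU_binv (h.inU_n x)
  rw [map_sub, rinvl] at h1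
  have h2 : ρ b⁻¹ x - x = -(x - ρ b⁻¹ x) := by abel
  obtain ⟨a, c, e⟩ := h1
  exact ⟨-a, -c, by rw [h2, e]; module⟩

variable (hf : Function.Injective ρ)
include hf

/-- L1': an element `a` of order prime to 3 with `a`, `b⁻¹ a b` trivial on `U` satisfies
`b⁻¹ a b a⁻¹ = 1`. -/
theorem comm_of_triv (h : BD ρ b u s v) {a : S}
    (hc : (orderOf (b⁻¹ * a * b * a⁻¹)).Coprime 3)
    (ha : ∀ x, InU u s x → ρ a x = x) (ha' : ∀ x, InU u s x → ρ (b⁻¹ * a * b) x = x) :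
    b⁻¹ * a * b * a⁻¹ = 1 := by
  apply one_of_sq ρ hf hc
  intro x
  have hainv : ∀ x, InU u s x → ρ a⁻¹ x = x := by
    intro x hx
    apply rinj ρ a
    rw [rinvr, ha x hx]
  have hU : ∀ w, InU u s w → ρ (b⁻¹ * a * b * a⁻¹) w = w := by
    intro w hw
    rw [rm, hainv w hw, ha' w hw]
  apply hU
  -- `h x - x ∈ U`
  set y := ρ a⁻¹ x with hy
  have hxy : ρ a y = x := rinvr ρ a x
  have h1 : ρ (b⁻¹ * a * b * a⁻¹) x = ρ b⁻¹ (ρ a (ρ b y)) := by
    rw [rm, rm, rm]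
  obtain ⟨w, hw⟩ : ∃ w, w = ρ b y - y := ⟨_, rfl⟩
  have hwU : InU u s w := hw ▸ h.inU_n y
  have h2 : ρ b y = y + w := by rw [hw]; abel
  rw [h1, h2, map_add, hxy, ha w hwU, map_add]
  have h3 : ρ b⁻¹ x + ρ b⁻¹ w - x = (ρ b⁻¹ x - x) + ρ b⁻¹ w := by abel
  rw [h3]
  exact inU_add (h.binv_sub x) (h.inU_binv hwU)

omit hf in
theorem nn_eq (h : BD ρ b u s v) (x : E) :
    ∃ c : ZMod 3, ρ b (ρ b x - x) - (ρ b x - x) = c • s ∧ ∃ β : ZMod 3, ρ b x - x = c • u + β • s := by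
  obtain ⟨α, β, e⟩ := h.hn x
  refine ⟨α, ?_, β, e⟩
  rw [e, map_add, map_smul, map_smul, h.hs]
  have : ρ b u = u + s := by rw [← h.hu]; abel
  rw [this]; module

omit hf in
/-- Dichotomy: `U` lies in one of two complementary `b`-invariant subspaces. -/
theorem dich (h : BD ρ b u s v) (A₁ A₂ : Submodule (ZMod 3) E) (hsup : A₁ ⊔ A₂ = ⊤)
    (h1 : ∀ x ∈ A₁, ρ b x ∈ A₁) (h2 : ∀ x ∈ A₂, ρ b x ∈ A₂) :
    (u ∈ A₁ ∧ s ∈ A₁) ∨ (u ∈ A₂ ∧ s ∈ A₂) := by
  have hv : v ∈ A₁ ⊔ A₂ := by rw [hsup]; trivial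
  obtain ⟨a₁, ha₁, a₂, ha₂, hva⟩ := Submodule.mem_sup.1 hv
  have key : ∀ (A : Submodule (ZMod 3) E), (∀ x ∈ A, ρ b x ∈ A) → ∀ a ∈ A, ∀ c : ZMod 3,
      (ρ b (ρ b a - a) - (ρ b a - a) = c • s) → (∃ β : ZMod 3, ρ b a - a = c • u + β • s) → c ≠ 0 →
      u ∈ A ∧ s ∈ A := by
    intro A hA a ha c hc ⟨β, hβ⟩ hc0
    have hna : ρ b a - a ∈ A := A.sub_mem (hA a ha) ha
    have hnna : ρ b (ρ b a - a) - (ρ b a - a) ∈ A := A.sub_mem (hA _ hna) hna
    have hs' : s ∈ A := by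
      rw [hc] at hnna
      have := A.smul_mem c⁻¹ hnna
      rwa [smul_smul, inv_mul_cancel₀ hc0, one_smul] at this
    refine ⟨?_, hs'⟩
    have hu' : c⁻¹ • ((ρ b a - a) - β • s) = u := by
      rw [hβ, add_sub_cancel_right, smul_smul, inv_mul_cancel₀ hc0, one_smul]
    rw [← hu']
    exact A.smul_mem _ (A.sub_mem hna (A.smul_mem _ hs'))
  obtain ⟨c₁, hc₁, hb₁⟩ := nn_eq h a₁
  obtain ⟨c₂, hc₂, hb₂⟩ := nn_eq h a₂
  by_cases h10 : c₁ = 0
  · refine Or.inr (key A₂ h2 a₂ ha₂ c₂ hc₂ hb₂ ?_)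
    intro h20
    have e1 : ρ b (ρ b v - v) - (ρ b v - v) = s := by rw [h.hv, h.hu]
    rw [← hva] at e1
    have e2 : ρ b (ρ b (a₁ + a₂) - (a₁ + a₂)) - (ρ b (a₁ + a₂) - (a₁ + a₂)) =
        (ρ b (ρ b a₁ - a₁) - (ρ b a₁ - a₁)) + (ρ b (ρ b a₂ - a₂) - (ρ b a₂ - a₂)) := by
      simp only [map_add, map_sub]; abel
    rw [e2, hc₁, hc₂, h10, h20] at e1
    simp only [zero_smul, add_zero] at e1
    exact h.s_ne e1.symm
  · exact Or.inl (key A₁ h1 a₁ ha₁ c₁ hc₁ hb₁ h10)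

end BD
end Cfsg.Agent.Lib.S4415
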