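import Cfsg.Agent.Lib.S4415.ThmX5
import Cfsg.Agent.Lib.Basic.PCore
import Cfsg.Prelude.Def_Solvable

/-!
# S4415: statements of the remaining pieces
-/

namespace Cfsg.Agent.Lib.S4415

variable {S E : Type*} [Group S] [AddCommGroup E] [Module (ZMod 3) E]

/-- The conclusion of S4415 for a subgroup `X` (playing `⁅O_{3'}(S), B⁆`). -/
def Concl (ρ : Representation (ZMod 3) S E) (X B : Subgroup S) : Prop :=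
  ((Cfsg.IsElementaryAbelian 2 X ∧ Nat.card ↥X = 4) ∨
    (Cfsg.IsExtraspecial 2 ↥X ∧ Nat.card ↥X = 32 ∧
      ∃ A : Subgroup S, A ≤ X ∧ Cfsg.IsElementaryAbelian 2 A ∧ Nat.card ↥A = 8)) ∧
  ∃ F₀ F₁ : Submodule (ZMod 3) E, F₀ ⊓ F₁ = ⊥ ∧ F₀ ⊔ F₁ = ⊤ ∧
    (∀ r ∈ X, ∀ v ∈ F₁, ρ r v = v) ∧ (∀ r ∈ X ⊔ B, ∀ v ∈ F₀, ρ r v ∈ F₀) ∧
    (∀ r ∈ X ⊔ B, (∀ v ∈ F₀, ρ r v = v) → r = 1) ∧
    (∀ N : Submodule (ZMod 3) E, N ≤ F₀ → (∀ r ∈ X ⊔ B, ∀ v ∈ N, ρ r v ∈ N) → N = ⊥ ∨ N = F₀)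

end Cfsg.Agent.Lib.S4415
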