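import Cfsg.Agent.Lib.S4415.Concl
import Cfsg.Agent.Lib.Coprime.Coset

/-!
# S4415: an element of order 13 normalizing a 2-group through the four-group
-/

namespace Cfsg.Agent.Lib.S4415

open scoped commutatorElement

variable {S E : Type*} [Group S] [AddCommGroup E] [Module (ZMod 3) E]

/-- Counting modulo a prime. -/
private theorem card_modEq_fix_aux {α : Type*} [Finite α] {l : ℕ} [Fact l.Prime] (f : α → α)
    (hf : f^[l] = id) : Nat.card α ≡ Nat.card {a // f a = a} [MOD l] := by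
  classical
  have : Fintype α := Fintype.ofFinite α
  let F : Function.End α := f
  have hF : F ^ l ^ 1 = 1 := by
    rw [pow_one]
    exact (hom_coe_pow (fun g : Function.End α ↦ (g : α → α)) rfl (fun g h ↦ rfl) F l).trans hf
  have h := Equiv.Perm.card_fixedPoints_modEq hF
  have h1 : Nat.card α = Fintype.card α := Nat.card_eq_fintype_card
  have h2 : Nat.card {a // f a = a} = Fintype.card (Function.fixedPoints F) := by
    rw [Nat.card_eq_fintype_card]
    exact Fintype.card_congr (Equiv.subtypeEquivRight (fun a => Iff.rfl))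
  rw [h1, h2]
  exact h

/-- The index of a centralizer is at most the size of a set of commutators. -/
theorem index_cent_le {G : Type*} [Group G] [Finite G] (T X : Subgroup G) (c : G)
    (h : ∀ t ∈ T, t * c * t⁻¹ * c⁻¹ ∈ X) :
    ((Subgroup.centralizer ({c} : Set G)).subgroupOf T).index ≤ Nat.card X := by
  classical
  set C := (Subgroup.centralizer ({c} : Set G)).subgroupOf T with hC
  let f : T → X := fun t => ⟨t.1 * c * t.1⁻¹ * c⁻¹, h _ t.2⟩
  have hfC : ∀ a b : T, a⁻¹ * b ∈ C ↔ f a = f b := by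
    intro a b
    rw [hC, Subgroup.mem_subgroupOf, Subgroup.mem_centralizer_iff]
    simp only [Set.mem_singleton_iff, forall_eq]
    constructor
    · intro e
      apply Subtype.ext
      show a.1 * c * a.1⁻¹ * c⁻¹ = b.1 * c * b.1⁻¹ * c⁻¹
      have e' : c * (a.1⁻¹ * b.1) = (a.1⁻¹ * b.1) * c := by simpa using e
      have e2 : a.1 * c = a.1 * c * (a.1⁻¹ * b.1) * (a.1⁻¹ * b.1)⁻¹ := by group
      calc a.1 * c * a.1⁻¹ * c⁻¹ = a.1 * (c * (a.1⁻¹ * b.1)) * (b.1⁻¹) * c⁻¹ := by group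
        _ = a.1 * ((a.1⁻¹ * b.1) * c) * (b.1⁻¹) * c⁻¹ := by rw [e']
        _ = _ := by group
    · intro e
      have e1 : a.1 * c * a.1⁻¹ * c⁻¹ = b.1 * c * b.1⁻¹ * c⁻¹ := congrArg Subtype.val e
      have e2 : a.1 * c * a.1⁻¹ = b.1 * c * b.1⁻¹ := mul_right_cancel e1
      show c * (a⁻¹ * b).1 = (a⁻¹ * b).1 * c
      simp only [Subgroup.coe_mul, Subgroup.coe_inv]
      calc c * (a.1⁻¹ * b.1) = a.1⁻¹ * (a.1 * c * a.1⁻¹) * b.1 := by group
        _ = a.1⁻¹ * (b.1 * c * b.1⁻¹) * b.1 := by rw [e2]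
        _ = _ := by group
  let F : T ⧸ C → X := Quotient.lift f (by
    intro a b hab
    exact (hfC a b).1 (QuotientGroup.leftRel_apply.1 hab))
  have hF : Function.Injective F := by
    intro x y
    induction x using QuotientGroup.induction_on with | _ a => ?_
    induction y using QuotientGroup.induction_on with | _ b => ?_
    intro hxy
    exact QuotientGroup.eq.2 ((hfC a b).2 hxy)
  exact Nat.card_le_card_of_injective F hF

theorem d_final [Finite S] [Finite E] {ρ : Representation (ZMod 3) S E} (hf : Function.Injective ρ)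
    {b : S} {u s v : E} (hB : BD ρ b u s v) {q₁ q₂ q₃ : S} {e₁ e₂ e₃ : E}
    (F : Frame ρ b q₁ q₂ q₃ e₁ e₂ e₃) (T₀ : Subgroup S) (hT : IsPGroup 2 T₀)
    (hTb : ∀ t ∈ T₀, b * t * b⁻¹ ∈ T₀) (hTq1 : ∀ t ∈ T₀, q₁ * t * q₁⁻¹ ∈ T₀)
    (hTq2 : ∀ t ∈ T₀, q₂ * t * q₂⁻¹ ∈ T₀)
    {g : S} (hg : orderOf g = 13) (hTg : ∀ t ∈ T₀, g * t * g⁻¹ ∈ T₀)
    (hgb : b * g * b⁻¹ ∈ Subgroup.zpowers g)
    (hgb' : g * b ≠ b * g) (h1 : g * q₁ * g⁻¹ * q₁⁻¹ ∈ T₀) (h2 : g * q₂ * g⁻¹ * q₂⁻¹ ∈ T₀) :
    False := by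
  classical
  have h2' : Fact (Nat.Prime 2) := ⟨Nat.prime_two⟩
  have hb3 := hB.b3
  have hV4card : Nat.card F.V4 = 4 := XD.card_V4 F
  have hV2 : IsPGroup 2 F.V4 := by
    apply IsPGroup.of_card (n := 2)
    rw [hV4card]; norm_num
  have hq3' : q₃ = q₁ * q₂ := F.m12.symm
  have hTq3 : ∀ t ∈ T₀, q₃ * t * q₃⁻¹ ∈ T₀ := by
    intro t ht
    rw [hq3']
    have := hTq1 _ (hTq2 t ht)
    convert this using 1
    group
  -- the four-group normalizes T₀
  have hVN : F.V4 ≤ Subgroup.normalizer (T₀ : Set S) := by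
    intro x hx
    apply XD.norm_of_conj
    rcases (F.mem_V4).1 hx with rfl | rfl | rfl | rfl
    · intro t ht; simpa using ht
    · exact hTq1
    · exact hTq2
    · exact hTq3
  set T₁ : Subgroup S := T₀ ⊔ F.V4 with hT₁
  have hT1p : IsPGroup 2 T₁ := IsPGroup.to_sup_of_normal_left' hT hV2 hVN
  have hVT1 : F.V4 ≤ T₁ := le_sup_right
  have hT0T1 : T₀ ≤ T₁ := le_sup_left
  have hq1T : q₁ ∈ T₁ := hVT1 (Or.inr (Or.inl rfl))
  have hq2T : q₂ ∈ T₁ := hVT1 (Or.inr (Or.inr (Or.inl rfl)))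
  have hq3T : q₃ ∈ T₁ := hVT1 (Or.inr (Or.inr (Or.inr rfl)))
  have sup_conj : ∀ c : S, (∀ t ∈ T₀, c * t * c⁻¹ ∈ T₁) → (∀ t ∈ F.V4, c * t * c⁻¹ ∈ T₁) →
      ∀ t ∈ T₁, c * t * c⁻¹ ∈ T₁ := by
    intro c a1 a2 t ht
    have : T₁ ≤ T₁.comap (MulAut.conj c).toMonoidHom :=
      sup_le (fun x hx => a1 x hx) (fun x hx => a2 x hx)
    exact this ht
  have hT1b : ∀ t ∈ T₁, b * t * b⁻¹ ∈ T₁ :=
    sup_conj b (fun t ht => hT0T1 (hTb t ht)) (fun t ht => hVT1 (F.V4_conj ht))
  have gq1 : g * q₁ * g⁻¹ ∈ T₁ := by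
    have : g * q₁ * g⁻¹ = (g * q₁ * g⁻¹ * q₁⁻¹) * q₁ := by group
    rw [this]; exact T₁.mul_mem (hT0T1 h1) hq1T
  have gq2 : g * q₂ * g⁻¹ ∈ T₁ := by
    have : g * q₂ * g⁻¹ = (g * q₂ * g⁻¹ * q₂⁻¹) * q₂ := by group
    rw [this]; exact T₁.mul_mem (hT0T1 h2) hq2T
  have hT1g : ∀ t ∈ T₁, g * t * g⁻¹ ∈ T₁ := by
    apply sup_conj g (fun t ht => hT0T1 (hTg t ht))
    intro t ht
    rcases (F.mem_V4).1 ht with rfl | rfl | rfl | rfl
    · simp [T₁.one_mem]
    · exact gq1
    · exact gq2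
    · rw [hq3']
      have : g * (q₁ * q₂) * g⁻¹ = (g * q₁ * g⁻¹) * (g * q₂ * g⁻¹) := by group
      rw [this]; exact T₁.mul_mem gq1 gq2
  have hbN : b ∈ Subgroup.normalizer (T₁ : Set S) := XD.norm_of_conj hT1b
  have hgN : g ∈ Subgroup.normalizer (T₁ : Set S) := XD.norm_of_conj hT1g
  have hT1g' : ∀ t ∈ T₁, g⁻¹ * t * g ∈ T₁ := by
    intro t ht
    have := (Subgroup.mem_normalizer_iff.1 (Subgroup.inv_mem _ hgN) t).1 ht
    simpa using this
  set A : Subgroup S := Subgroup.zpowers b with hA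
  have hAN : A ≤ Subgroup.normalizer (T₁ : Set S) := Subgroup.zpowers_le.2 hbN
  obtain ⟨n, hn⟩ := IsPGroup.iff_card.1 hT1p
  have hcop : (Nat.card A).Coprime (Nat.card T₁) := by
    rw [hn, hA, Nat.card_zpowers]
    have h3 : orderOf b ∣ 3 := orderOf_dvd_of_pow_eq_one hb3
    exact Nat.Coprime.coprime_dvd_left h3 (Nat.Coprime.pow_right n (by decide))
  have hsolv : Group.IsSolvable A ∨ Group.IsSolvable T₁ := by
    have := hT1p.isNilpotent
    exact Or.inr inferInstance
  have hXeq := Cfsg.Agent.Lib.Coprime.Coset.commutator_commutator_eq hAN hcop hsolv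
  have hXle := Cfsg.Agent.Lib.Coprime.Coset.commutator_le_left_of_le_normalizer hAN
  set X₁ : Subgroup S := ⁅T₁, A⁆ with hX₁
  have hXb : ∀ x ∈ X₁, b * x * b⁻¹ ∈ X₁ := by
    have : X₁ ≤ X₁.comap (MulAut.conj b).toMonoidHom := by
      rw [hX₁, Subgroup.commutator_le]
      intro k hk a ha
      show (MulAut.conj b).toMonoidHom ⁅k, a⁆ ∈ ⁅T₁, A⁆
      rw [map_commutatorElement]
      apply Subgroup.commutator_mem_commutator
      · exact hT1b k hk
      · obtain ⟨i, rfl⟩ := Subgroup.mem_zpowers_iff.1 ha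
        have e : (MulAut.conj b).toMonoidHom (b ^ i) = b ^ i := by
          show b * b ^ i * b⁻¹ = b ^ i
          rw [((Commute.refl b).zpow_right i).eq]
          simp
        rw [e]; exact ha
    exact fun x hx => this hx
  have hX : XD ρ b u s v X₁ := ⟨hf, hB, hT1p.to_le hXle, hXb, le_of_eq hXeq.symm⟩
  have hbA : b ∈ A := Subgroup.mem_zpowers b
  have cmm : ∀ {q q' q'' : S}, q ∈ T₁ → q * q = 1 → b * q * b⁻¹ = q' → q * q' = q'' → q'' ∈ X₁ := by
    intro q q' q'' hq hs hc hm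
    have hinv : q⁻¹ = q := inv_eq_of_mul_eq_one_left hs
    have : q'' = ⁅q, b⁆ := by
      rw [commutatorElement_def, hinv, ← hm, ← hc]; group
    rw [this]
    exact Subgroup.commutator_mem_commutator hq hbA
  have hq3X : q₃ ∈ X₁ := cmm hq1T F.sq1 F.cb1 F.m12
  have hq1X : q₁ ∈ X₁ := cmm hq2T F.sq2 F.cb2 F.m23
  have hq2X : q₂ ∈ X₁ := cmm hq3T F.sq3 F.cb3 F.m31
  have hV4X : F.V4 ≤ X₁ := by
    intro x hx
    rcases (F.mem_V4).1 hx with rfl | rfl | rfl | rfl
    · exact X₁.one_mem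
    · exact hq1X
    · exact hq2X
    · exact hq3X
  have hcardX : Nat.card X₁ ≤ 32 := by
    rcases hX.main_alt F hq1X hq2X hq3X with h | ⟨t₁, t₂, t₃, f₁, f₂, f₃, a, z, w, ht1, ht2, ht3, hz, hw, Z⟩
    · rw [h, hV4card]; norm_num
    · rw [XD.card_X hX Z (hV4X ht1) (hV4X ht2) (hV4X ht3) hz hw]
  -- index bounds
  set b' : S := g * b * g⁻¹ with hb'
  have i1 : ((Subgroup.centralizer ({b} : Set S)).subgroupOf T₁).index ≤ Nat.card X₁ :=
    index_cent_le T₁ X₁ b (fun t ht => Subgroup.commutator_mem_commutator ht hbA)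
  have i2 : ((Subgroup.centralizer ({b'} : Set S)).subgroupOf T₁).index ≤ Nat.card X₁ := by
    have hc : Nat.card (X₁.map (MulAut.conj g).toMonoidHom) = Nat.card X₁ :=
      Nat.card_congr (Subgroup.equivMapOfInjective X₁ (MulAut.conj g).toMonoidHom
        (MulAut.conj g).injective).symm.toEquiv
    rw [← hc]
    apply index_cent_le
    intro t ht
    refine ⟨⁅g⁻¹ * t * g, b⁆, Subgroup.commutator_mem_commutator (hT1g' t ht) hbA, ?_⟩
    show g * ⁅g⁻¹ * t * g, b⁆ * g⁻¹ = _
    rw [commutatorElement_def, hb']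
    group
  have i3 : ((Subgroup.centralizer ({b} : Set S)).subgroupOf T₁ ⊓
      (Subgroup.centralizer ({b'} : Set S)).subgroupOf T₁).index ≤ 32 * 32 := by
    refine (Subgroup.index_inf_le).trans ?_
    exact Nat.mul_le_mul (i1.trans hcardX) (i2.trans hcardX)
  -- the element α
  set y : S := b⁻¹ * g * b with hy
  have hbinv : b⁻¹ = b * b := by
    have h3 := hb3
    rw [pow_succ, pow_two] at h3
    exact inv_eq_of_mul_eq_one_right (by rw [← h3]; group)
  have hyZ : y ∈ Subgroup.zpowers g := by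
    obtain ⟨k, hk⟩ := Subgroup.mem_zpowers_iff.1 hgb
    have e : y = b * (b * g * b⁻¹) * b⁻¹ := by
      have e0 : (b * b)⁻¹ = b := by rw [← hbinv, inv_inv]
      calc y = (b * b) * g * (b * b)⁻¹ := by rw [hy, e0, ← hbinv]
        _ = _ := by group
    rw [e, ← hk, show b * (g ^ k) * b⁻¹ = (b * g * b⁻¹) ^ k from (conj_zpow).symm, ← hk]
    exact Subgroup.zpow_mem _ (Subgroup.zpow_mem _ (Subgroup.mem_zpowers g) k) k
  set α : S := y * g⁻¹ with hα
  have hαZ : α ∈ Subgroup.zpowers g :=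
    Subgroup.mul_mem _ hyZ (Subgroup.inv_mem _ (Subgroup.mem_zpowers g))
  have hα1 : α ≠ 1 := by
    intro h0
    apply hgb'
    have : y = g := by
      have := mul_inv_eq_one.1 h0
      exact this
    have e : b⁻¹ * g * b = g := this
    calc g * b = b * (b⁻¹ * g * b) := by group
      _ = b * g := by rw [e]
  have hgα : g ∈ Subgroup.zpowers α := by
    have hd : orderOf α ∣ 13 := by
      have := orderOf_dvd_of_mem_zpowers hαZ
      rwa [hg] at this
    have ho : orderOf α = 13 := by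
      rcases (Nat.dvd_prime (by norm_num : Nat.Prime 13)).1 hd with h0 | h0
      · exact absurd (orderOf_eq_one_iff.1 h0) hα1
      · exact h0
    have hle : Subgroup.zpowers α ≤ Subgroup.zpowers g := Subgroup.zpowers_le.2 hαZ
    have hc : Nat.card (Subgroup.zpowers g) ≤ Nat.card (Subgroup.zpowers α) := by
      rw [Nat.card_zpowers, Nat.card_zpowers, hg, ho]
    have := Subgroup.eq_of_le_of_card_ge hle hc
    rw [this]
    exact Subgroup.mem_zpowers g
  have hsub : (Subgroup.centralizer ({b} : Set S)).subgroupOf T₁ ⊓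
      (Subgroup.centralizer ({b'} : Set S)).subgroupOf T₁ ≤
      (Subgroup.centralizer ({g} : Set S)).subgroupOf T₁ := by
    intro x hx
    have hc1 := (Subgroup.mem_inf.1 hx).1
    have hc2 := (Subgroup.mem_inf.1 hx).2
    rw [Subgroup.mem_subgroupOf, Subgroup.mem_centralizer_iff] at hc1 hc2 ⊢
    set c : S := x.1 with hcdef
    simp only [Set.mem_singleton_iff, forall_eq] at hc1 hc2 ⊢
    have c1 : Commute c b := (hc1).symm
    have c2 : Commute c b' := (hc2).symm
    have eα : α = b⁻¹ * b' := by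
      rw [hα, hy, hb']; group
    have cα : Commute c α := by
      rw [eα]; exact (c1.inv_right).mul_right c2
    have : Subgroup.zpowers α ≤ Subgroup.centralizer ({c} : Set S) := by
      rw [Subgroup.zpowers_le, Subgroup.mem_centralizer_iff]
      simp only [Set.mem_singleton_iff, forall_eq]
      exact cα.eq
    have := this hgα
    rw [Subgroup.mem_centralizer_iff] at this
    simp only [Set.mem_singleton_iff, forall_eq] at this
    exact this.symm
  set Cg : Subgroup T₁ := (Subgroup.centralizer ({g} : Set S)).subgroupOf T₁ with hCg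
  have hidx : Cg.index ≤ 32 * 32 := by
    refine le_trans (Nat.le_of_dvd ?_ (Subgroup.index_dvd_of_le hsub)) i3
    exact Nat.pos_of_ne_zero Subgroup.FiniteIndex.index_ne_zero
  have hdvd : Cg.index ∣ 2 ^ n := by
    rw [← hn]; exact Subgroup.index_dvd_card Cg
  obtain ⟨k, hkn, hk⟩ := (Nat.dvd_prime_pow Nat.prime_two).1 hdvd
  have hk10 : k ≤ 10 := by
    by_contra hcon
    have h11 : 2 ^ 11 ≤ 2 ^ k := Nat.pow_le_pow_right (by norm_num) (by omega)
    rw [hk] at hidx
    norm_num at h11 hidx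
    omega
  have hcC : Nat.card Cg = 2 ^ (n - k) := by
    have := Subgroup.card_mul_index Cg
    rw [hn, hk] at this
    have e : 2 ^ n = 2 ^ (n - k) * 2 ^ k := by rw [← pow_add]; congr 1; omega
    rw [e] at this
    exact Nat.eq_of_mul_eq_mul_right (by positivity) this
  -- conjugation by g on T₁
  let f₀ : T₁ → T₁ := fun t => ⟨g * t.1 * g⁻¹, hT1g _ t.2⟩
  have hit : ∀ (m : ℕ) (t : T₁), ((f₀^[m] t : T₁) : S) = g ^ m * t.1 * (g ^ m)⁻¹ := by
    intro m t
    induction m with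
    | zero => simp
    | succ m ih =>
      rw [Function.iterate_succ_apply']
      show g * ((f₀^[m] t : T₁) : S) * g⁻¹ = _
      rw [ih, pow_succ']
      group
  have hg13 : g ^ 13 = 1 := by rw [← hg]; exact pow_orderOf_eq_one g
  have hf13 : f₀^[13] = id := by
    funext t
    apply Subtype.ext
    rw [hit, hg13]
    simp
  have : Fact (Nat.Prime 13) := ⟨by norm_num⟩
  have hmod := card_modEq_fix_aux (l := 13) f₀ hf13
  have hfix : Nat.card {a // f₀ a = a} = Nat.card Cg := by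
    apply Nat.card_congr
    refine Equiv.subtypeEquivRight (fun a => ?_)
    rw [hCg, Subgroup.mem_subgroupOf, Subgroup.mem_centralizer_iff]
    simp only [Set.mem_singleton_iff, forall_eq]
    constructor
    · intro e
      have e1 : g * a.1 * g⁻¹ = a.1 := congrArg Subtype.val e
      calc g * a.1 = g * a.1 * g⁻¹ * g := by group
        _ = a.1 * g := by rw [e1]
    · intro e
      apply Subtype.ext
      show g * a.1 * g⁻¹ = a.1
      rw [e]; group
  rw [hfix, hn, hcC] at hmod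
  have hk0 : k = 0 := by
    have e : 2 ^ n = 2 ^ (n - k) * 2 ^ k := by rw [← pow_add]; congr 1; omega
    rw [e] at hmod
    have hm2 : 2 ^ (n - k) * 2 ^ k ≡ 2 ^ (n - k) * 1 [MOD 13] := by simpa using hmod
    have hg : Nat.gcd 13 (2 ^ (n - k)) = 1 :=
      Nat.Coprime.pow_right _ (by decide)
    have h3 := Nat.ModEq.cancel_left_of_coprime hg hm2
    interval_cases k <;> first | rfl | (exfalso; revert h3; decide)
  have hCgtop : Cg = ⊤ := by
    rw [← Subgroup.index_eq_one, hk, hk0, pow_zero]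
  have hcen : ∀ t ∈ T₁, g * t = t * g := by
    intro t ht
    have : (⟨t, ht⟩ : T₁) ∈ Cg := by rw [hCgtop]; exact Subgroup.mem_top _
    rw [hCg, Subgroup.mem_subgroupOf, Subgroup.mem_centralizer_iff] at this
    simp only [Set.mem_singleton_iff, forall_eq] at this
    exact this
  obtain ⟨t, ht, -, hcomm⟩ := F.split hf (hcen _ hq1T) (hcen _ hq2T)
  have htT : t ∈ T₁ := by
    rcases ht with rfl | rfl | rfl | rfl
    · exact T₁.one_mem
    · exact hq1T
    · exact hq2T
    · exact hq3T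
  have htt : t * t = 1 := by
    rcases ht with rfl | rfl | rfl | rfl
    · simp
    · exact F.sq1
    · exact F.sq2
    · exact F.sq3
  have hgt : g * t = t * g := hcen t htT
  have hsq : (g * t) * (g * t) = g * g := by
    calc (g * t) * (g * t) = g * (t * g) * t := by group
      _ = g * (g * t) * t := by rw [hgt]
      _ = g * g * (t * t) := by group
      _ = g * g := by rw [htt, mul_one]
  have c1 : Commute (g * t) b := hcomm
  have c2 : Commute (g * g) b := by
    rw [← hsq]; exact c1.mul_left c1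
  have c3 : Commute ((g * g) ^ 7) b := c2.pow_left 7
  have e7 : (g * g) ^ 7 = g := by
    have : (g * g) ^ 7 = g ^ 13 * g := by
      rw [← pow_two, ← pow_mul, ← pow_succ]
    rw [this, hg13, one_mul]
  rw [e7] at c3
  exact hgb' c3

end Cfsg.Agent.Lib.S4415
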