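import Cfsg.Agent.Lib.S4415.Concl

/-!
# S4415: the conclusion when the commutator is the four-group of a frame
-/

namespace Cfsg.Agent.Lib.S4415

variable {S E : Type*} [Group S] [AddCommGroup E] [Module (ZMod 3) E]

namespace FinalV4
variable {ρ : Representation (ZMod 3) S E} {b q₁ q₂ q₃ : S} {e₁ e₂ e₃ : E}

/-- The span of the frame vectors, in coordinates. -/
def F0 (e₁ e₂ e₃ : E) : Submodule (ZMod 3) E where
  carrier := {x | ∃ a₁ a₂ a₃ : ZMod 3, x = a₁ • e₁ + a₂ • e₂ + a₃ • e₃}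
  add_mem' := by
    rintro x y ⟨a, c, d, rfl⟩ ⟨a', c', d', rfl⟩
    exact ⟨a + a', c + c', d + d', by module⟩
  zero_mem' := ⟨0, 0, 0, by simp⟩
  smul_mem' := by
    rintro r x ⟨a, c, d, rfl⟩
    exact ⟨r * a, r * c, r * d, by module⟩

theorem mem_F0 {x : E} : x ∈ F0 e₁ e₂ e₃ ↔ ∃ a₁ a₂ a₃ : ZMod 3, x = a₁ • e₁ + a₂ • e₂ + a₃ • e₃ :=
  Iff.rfl

theorem e1_mem : e₁ ∈ F0 e₁ e₂ e₃ := ⟨1, 0, 0, by simp⟩
theorem e2_mem : e₂ ∈ F0 e₁ e₂ e₃ := ⟨0, 1, 0, by simp⟩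
theorem e3_mem : e₃ ∈ F0 e₁ e₂ e₃ := ⟨0, 0, 1, by simp⟩

/-- The common fixed space of the four-group. -/
def F1 (ρ : Representation (ZMod 3) S E) (q₁ q₂ : S) : Submodule (ZMod 3) E where
  carrier := {y | ρ q₁ y = y ∧ ρ q₂ y = y}
  add_mem' := by
    rintro x y ⟨h1, h2⟩ ⟨h3, h4⟩
    exact ⟨by rw [map_add, h1, h3], by rw [map_add, h2, h4]⟩
  zero_mem' := ⟨map_zero _, map_zero _⟩
  smul_mem' := by
    rintro r x ⟨h1, h2⟩
    exact ⟨by rw [map_smul, h1], by rw [map_smul, h2]⟩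

theorem span_le {N : Submodule (ZMod 3) E} (h1 : e₁ ∈ N) (h2 : e₂ ∈ N) (h3 : e₃ ∈ N) :
    F0 e₁ e₂ e₃ ≤ N := by
  rintro x ⟨a, c, d, rfl⟩
  exact N.add_mem (N.add_mem (N.smul_mem _ h1) (N.smul_mem _ h2)) (N.smul_mem _ h3)

theorem pres (g : S) (h1 : ρ g e₁ ∈ F0 e₁ e₂ e₃) (h2 : ρ g e₂ ∈ F0 e₁ e₂ e₃)
    (h3 : ρ g e₃ ∈ F0 e₁ e₂ e₃) : ∀ v ∈ F0 e₁ e₂ e₃, ρ g v ∈ F0 e₁ e₂ e₃ := by
  rintro x ⟨a, c, d, rfl⟩
  simp only [map_add, map_smul]
  exact Submodule.add_mem _ (Submodule.add_mem _ (Submodule.smul_mem _ _ h1)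
    (Submodule.smul_mem _ _ h2)) (Submodule.smul_mem _ _ h3)

/-- Elements of `V4 ⊔ ⟨b⟩` have the form `t * b^i`. -/
def KK (F : Frame ρ b q₁ q₂ q₃ e₁ e₂ e₃) (hb3 : b ^ 3 = 1) : Subgroup S where
  carrier := {r | ∃ t ∈ F.V4, ∃ i : ℤ, r = t * b ^ i}
  one_mem' := ⟨1, F.V4.one_mem, 0, by simp⟩
  mul_mem' := by
    rintro _ _ ⟨t, ht, i, rfl⟩ ⟨t', ht', j, rfl⟩
    refine ⟨t * (b ^ i * t' * (b ^ i)⁻¹), F.V4.mul_mem ht (F.V4_zpow_conj hb3 ht' i), i + j, ?_⟩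
    rw [zpow_add]; group
  inv_mem' := by
    rintro _ ⟨t, ht, i, rfl⟩
    refine ⟨b ^ (-i) * t⁻¹ * (b ^ (-i))⁻¹, F.V4_zpow_conj hb3 (F.V4.inv_mem ht) (-i), -i, ?_⟩
    group

theorem sup_form (F : Frame ρ b q₁ q₂ q₃ e₁ e₂ e₃) (hb3 : b ^ 3 = 1) {r : S}
    (hr : r ∈ F.V4 ⊔ Subgroup.zpowers b) :
    ∃ t ∈ F.V4, r = t ∨ r = t * b ∨ r = t * b * b := by
  have hle : F.V4 ⊔ Subgroup.zpowers b ≤ KK F hb3 := by
    refine sup_le (fun x hx => ⟨x, hx, 0, by simp⟩) ?_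
    rintro _ ⟨i, rfl⟩
    exact ⟨1, F.V4.one_mem, i, by simp⟩
  obtain ⟨t, ht, i, rfl⟩ := hle hr
  refine ⟨t, ht, ?_⟩
  have hi : b ^ i = b ^ (i % 3) := by
    have e : i = 3 * (i / 3) + i % 3 := (Int.mul_ediv_add_emod i 3).symm
    conv_lhs => rw [e, zpow_add, zpow_mul]
    have : b ^ (3 : ℤ) = 1 := by exact_mod_cast hb3
    rw [this, one_zpow, one_mul]
  have h0 : 0 ≤ i % 3 := Int.emod_nonneg _ (by norm_num)
  have h3 : i % 3 < 3 := Int.emod_lt_of_pos _ (by norm_num)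
  rw [hi]
  generalize i % 3 = k at h0 h3
  have hk : k = 0 ∨ k = 1 ∨ k = 2 := by omega
  rcases hk with rfl | rfl | rfl
  · left; simp
  · right; left; simp
  · right; right; rw [mul_assoc, zpow_two]

/-- Signs of a four-group element on the frame vectors. -/
theorem sign1 (F : Frame ρ b q₁ q₂ q₃ e₁ e₂ e₃) {t : S} (ht : t ∈ F.V4) :
    ρ t e₁ = e₁ ∨ ρ t e₁ = -e₁ := by
  rcases (F.mem_V4).1 ht with rfl | rfl | rfl | rfl
  · left; exact r1 ρ _
  · left; exact F.q11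
  · right; exact F.q21
  · right; exact F.q31

theorem sign2 (F : Frame ρ b q₁ q₂ q₃ e₁ e₂ e₃) {t : S} (ht : t ∈ F.V4) :
    ρ t e₂ = e₂ ∨ ρ t e₂ = -e₂ := by
  rcases (F.mem_V4).1 ht with rfl | rfl | rfl | rfl
  · left; exact r1 ρ _
  · right; exact F.q12
  · left; exact F.q22
  · right; exact F.q32

theorem sign3 (F : Frame ρ b q₁ q₂ q₃ e₁ e₂ e₃) {t : S} (ht : t ∈ F.V4) :
    ρ t e₃ = e₃ ∨ ρ t e₃ = -e₃ := by
  rcases (F.mem_V4).1 ht with rfl | rfl | rfl | rfl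
  · left; exact r1 ρ _
  · right; exact F.q13
  · right; exact F.q23
  · left; exact F.q33

/-- `e₁` is not `±e₂`, `±e₃`. -/
theorem ne_of_indep (F : Frame ρ b q₁ q₂ q₃ e₁ e₂ e₃) (a₁ a₂ a₃ : ZMod 3) (h1 : a₁ ≠ 0)
    (h : a₁ • e₁ + a₂ • e₂ + a₃ • e₃ = 0) : False := by
  have := F.indep (a₁ := a₁) (a₂ := a₂) (a₃ := a₃) (y := 0) (map_zero _) (map_zero _)
    (by simpa using h)
  exact h1 this.1

end FinalV4

open FinalV4 in
theorem final_V4 [Finite S] [Finite E] {ρ : Representation (ZMod 3) S E}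
    (_hf : Function.Injective ρ)
    {b q₁ q₂ q₃ : S} {e₁ e₂ e₃ : E} (F : Frame ρ b q₁ q₂ q₃ e₁ e₂ e₃) (hb3 : b ^ 3 = 1) :
    Concl ρ F.V4 (Subgroup.zpowers b) := by
  have hsq : ∀ a ∈ F.V4, a * a = 1 := by
    intro a ha
    rcases (F.mem_V4).1 ha with rfl | rfl | rfl | rfl
    · simp
    · exact F.sq1
    · exact F.sq2
    · exact F.sq3
  have hq1 : q₁ ∈ F.V4 := (F.mem_V4).2 (Or.inr (Or.inl rfl))
  have hq2 : q₂ ∈ F.V4 := (F.mem_V4).2 (Or.inr (Or.inr (Or.inl rfl)))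
  have hq3 : q₃ ∈ F.V4 := (F.mem_V4).2 (Or.inr (Or.inr (Or.inr rfl)))
  have hbsup : b ∈ F.V4 ⊔ Subgroup.zpowers b :=
    Subgroup.mem_sup_right (Subgroup.mem_zpowers b)
  have hne1 := F.ne
  have hne2 := F.ne2
  have hne3 := F.ne3
  refine ⟨Or.inl ⟨?_, XD.card_V4 F⟩, F0 e₁ e₂ e₃, F1 ρ q₁ q₂, ?_, ?_, ?_, ?_, ?_, ?_⟩
  · -- elementary abelian
    refine ⟨⟨⟨fun a c => ?_⟩⟩, fun a ha => by rw [pow_two]; exact hsq a ha⟩
    apply Subtype.ext
    have h1 := hsq _ (F.V4.mul_mem a.2 c.2)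
    have h2 := hsq _ a.2
    have h3 := hsq _ c.2
    show (a : S) * c = c * a
    have e1 : (a : S)⁻¹ = a := inv_eq_of_mul_eq_one_left h2
    have e2 : (c : S)⁻¹ = c := inv_eq_of_mul_eq_one_left h3
    have e3 : ((a : S) * c)⁻¹ = a * c := inv_eq_of_mul_eq_one_left h1
    rw [mul_inv_rev, e1, e2] at e3
    exact e3.symm
  · -- `F₀ ⊓ F₁ = ⊥`
    rw [eq_bot_iff]
    rintro x ⟨⟨a, c, d, hx⟩, h1, h2⟩
    have hneg1 : ρ q₁ (-x) = -x := by rw [map_neg, h1]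
    have hneg2 : ρ q₂ (-x) = -x := by rw [map_neg, h2]
    have := F.indep (a₁ := a) (a₂ := c) (a₃ := d) hneg1 hneg2 (by rw [← hx]; abel)
    exact (Submodule.mem_bot _).2 (neg_eq_zero.1 this.2.2.2)
  · -- `F₀ ⊔ F₁ = ⊤`
    rw [eq_top_iff]
    intro x _
    obtain ⟨a, c, d, y, e, h1, h2⟩ := F.dec x
    rw [e]
    exact Submodule.add_mem_sup ⟨a, c, d, rfl⟩ ⟨h1, h2⟩
  · -- `V4` is trivial on `F₁`
    rintro r hr v ⟨h1, h2⟩
    rcases (F.mem_V4).1 hr with rfl | rfl | rfl | rfl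
    · exact r1 ρ _
    · exact h1
    · exact h2
    · exact F.h3 h1 h2
  · -- `V4 ⊔ ⟨b⟩` preserves `F₀`
    have hq : ∀ t ∈ F.V4, ∀ v ∈ F0 e₁ e₂ e₃, ρ t v ∈ F0 e₁ e₂ e₃ := by
      intro t ht
      apply pres
      · rcases sign1 F ht with h | h <;> rw [h]
        · exact e1_mem
        · exact Submodule.neg_mem _ e1_mem
      · rcases sign2 F ht with h | h <;> rw [h]
        · exact e2_mem
        · exact Submodule.neg_mem _ e2_mem
      · rcases sign3 F ht with h | h <;> rw [h]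
        · exact e3_mem
        · exact Submodule.neg_mem _ e3_mem
    have hb : ∀ v ∈ F0 e₁ e₂ e₃, ρ b v ∈ F0 e₁ e₂ e₃ := by
      apply pres
      · rw [F.b1]; exact e2_mem
      · rw [F.b2]; exact e3_mem
      · rw [F.b3]; exact e1_mem
    intro r hr v hv
    obtain ⟨t, ht, h⟩ := sup_form F hb3 hr
    rcases h with h | h | h <;> rw [h]
    · exact hq t ht v hv
    · rw [rm]; exact hq t ht _ (hb v hv)
    · rw [rm, rm]; exact hq t ht _ (hb _ (hb v hv))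
  · -- faithful
    intro r hr hfix
    obtain ⟨t, ht, h⟩ := sup_form F hb3 hr
    rcases h with h | h | h <;> rw [h] at hfix ⊢
    · rcases (F.mem_V4).1 ht with rfl | rfl | rfl | rfl
      · rfl
      · exfalso
        have := hfix _ e2_mem
        rw [F.q12] at this
        exact hne2 (eq_neg_self_zero this.symm)
      · exfalso
        have := hfix _ e1_mem
        rw [F.q21] at this
        exact hne1 (eq_neg_self_zero this.symm)
      · exfalso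
        have := hfix _ e1_mem
        rw [F.q31] at this
        exact hne1 (eq_neg_self_zero this.symm)
    · exfalso
      have h1 := hfix _ e1_mem
      rw [rm, F.b1] at h1
      rcases sign2 F ht with h | h <;> rw [h] at h1
      · exact ne_of_indep F 1 (-1) 0 (by decide) (by rw [h1]; simp)
      · exact ne_of_indep F 1 1 0 (by decide) (by rw [← h1]; simp)
    · exfalso
      have h1 := hfix _ e1_mem
      rw [rm, rm, F.b1, F.b2] at h1
      rcases sign3 F ht with h | h <;> rw [h] at h1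
      · exact ne_of_indep F 1 0 (-1) (by decide) (by rw [h1]; simp)
      · exact ne_of_indep F 1 0 1 (by decide) (by rw [← h1]; simp)
  · -- irreducible
    intro N hN hinv
    by_cases hbot : N = ⊥
    · exact Or.inl hbot
    right
    obtain ⟨x, hxN, hx0⟩ := (Submodule.ne_bot_iff N).1 hbot
    obtain ⟨a, c, d, hx⟩ := hN hxN
    have hsup1 : q₁ ∈ F.V4 ⊔ Subgroup.zpowers b := Subgroup.mem_sup_left hq1
    have hsup2 : q₂ ∈ F.V4 ⊔ Subgroup.zpowers b := Subgroup.mem_sup_left hq2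
    have hsup3 : q₃ ∈ F.V4 ⊔ Subgroup.zpowers b := Subgroup.mem_sup_left hq3
    have m1 : ρ q₁ x ∈ N := hinv _ hsup1 _ hxN
    have m2 : ρ q₂ x ∈ N := hinv _ hsup2 _ hxN
    have m3 : ρ q₃ x ∈ N := hinv _ hsup3 _ hxN
    have p1 : a • e₁ ∈ N := by
      rw [← F.proj1 a c d (y := 0) (map_zero _) (map_zero _) x (by rw [hx]; simp)]
      exact N.sub_mem (N.sub_mem (N.add_mem hxN m1) m2) m3
    have p2 : c • e₂ ∈ N := by
      rw [← F.rot.proj1 c d a (y := 0) (map_zero _) (map_zero _) x (by rw [hx]; abel)]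
      exact N.sub_mem (N.sub_mem (N.add_mem hxN m2) m3) m1
    have p3 : d • e₃ ∈ N := by
      rw [← F.rot.rot.proj1 d a c (y := 0) (map_zero _) (map_zero _) x (by rw [hx]; abel)]
      exact N.sub_mem (N.sub_mem (N.add_mem hxN m3) m1) m2
    have hbN : ∀ v ∈ N, ρ b v ∈ N := hinv _ hbsup
    -- some frame vector lies in `N`
    have hsome : e₁ ∈ N ∨ e₂ ∈ N ∨ e₃ ∈ N := by
      by_cases ha : a = 0
      · by_cases hc : c = 0
        · by_cases hd : d = 0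
          · exact absurd (by rw [hx, ha, hc, hd]; simp) hx0
          · right; right
            have := N.smul_mem d⁻¹ p3
            rwa [smul_smul, inv_mul_cancel₀ hd, one_smul] at this
        · right; left
          have := N.smul_mem c⁻¹ p2
          rwa [smul_smul, inv_mul_cancel₀ hc, one_smul] at this
      · left
        have := N.smul_mem a⁻¹ p1
        rwa [smul_smul, inv_mul_cancel₀ ha, one_smul] at this
    have h1 : e₁ ∈ N := by
      rcases hsome with h | h | h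
      · exact h
      · have := hbN _ (hbN _ h)
        rwa [F.b2, F.b3] at this
      · have := hbN _ h
        rwa [F.b3] at this
    have h2 : e₂ ∈ N := by
      have := hbN _ h1
      rwa [F.b1] at this
    have h3 : e₃ ∈ N := by
      have := hbN _ h2
      rwa [F.b2] at this
    exact le_antisymm hN (span_le h1 h2 h3)

end Cfsg.Agent.Lib.S4415
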