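import Cfsg.Agent.Lib.S4415.Concl

/-!
# S4415: the conclusion in the `ZF` case
-/

namespace Cfsg.Agent.Lib.S4415

variable {S E : Type*} [Group S] [AddCommGroup E] [Module (ZMod 3) E]

/-- Elements of `X ⊔ ⟨b⟩` when `b` has order dividing three and normalizes `X`. -/
theorem mem_sup_zpowers_form {X : Subgroup S} {b : S} (hb3 : b ^ 3 = 1)
    (hXb : ∀ x ∈ X, b * x * b⁻¹ ∈ X) {r : S} (hr : r ∈ X ⊔ Subgroup.zpowers b) :
    ∃ x ∈ X, r = x ∨ r = x * b ∨ r = x * b * b := by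
  have hconj : ∀ i : ℕ, ∀ y ∈ X, b ^ i * y * (b ^ i)⁻¹ ∈ X := by
    intro i
    induction i with
    | zero => intro y hy; simpa using hy
    | succ i ih =>
      intro y hy
      have e : b ^ (i + 1) * y * (b ^ (i + 1))⁻¹ = b ^ i * (b * y * b⁻¹) * (b ^ i)⁻¹ := by
        rw [pow_succ]; group
      rw [e]
      exact ih _ (hXb y hy)
  have hinvb : ∀ i : ℕ, (b ^ i)⁻¹ = b ^ (2 * i) := by
    intro i
    apply inv_eq_of_mul_eq_one_right
    rw [← pow_add, show i + 2 * i = 3 * i by ring, pow_mul, hb3, one_pow]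
  let T : Subgroup S :=
    { carrier := {r | ∃ x ∈ X, ∃ i : ℕ, r = x * b ^ i}
      one_mem' := ⟨1, X.one_mem, 0, by simp⟩
      mul_mem' := by
        rintro _ _ ⟨x, hx, i, rfl⟩ ⟨y, hy, j, rfl⟩
        refine ⟨x * (b ^ i * y * (b ^ i)⁻¹), X.mul_mem hx (hconj i y hy), i + j, ?_⟩
        rw [pow_add]; group
      inv_mem' := by
        rintro _ ⟨x, hx, i, rfl⟩
        refine ⟨b ^ (2 * i) * x⁻¹ * (b ^ (2 * i))⁻¹, hconj _ _ (X.inv_mem hx), 2 * i, ?_⟩
        rw [mul_inv_rev, hinvb i]; group }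
  have hle : X ⊔ Subgroup.zpowers b ≤ T := by
    apply sup_le
    · intro x hx
      exact ⟨x, hx, 0, by simp⟩
    · rw [Subgroup.zpowers_le]
      exact ⟨1, X.one_mem, 1, by simp⟩
  obtain ⟨x, hx, i, rfl⟩ := hle hr
  refine ⟨x, hx, ?_⟩
  have hi : b ^ i = b ^ (i % 3) := by
    conv_lhs => rw [← Nat.div_add_mod i 3, pow_add, pow_mul, hb3, one_pow, one_mul]
  have hlt : i % 3 < 3 := Nat.mod_lt _ (by norm_num)
  rw [hi]
  interval_cases (i % 3)
  · left; simp
  · right; left; simp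
  · right; right; rw [pow_two, mul_assoc]

variable [Finite S] [Finite E]

theorem final_ZF {ρ : Representation (ZMod 3) S E} {b : S} {u s v : E} {X : Subgroup S}
    (hX : XD ρ b u s v X) {q₁ q₂ q₃ z w : S} {e₁ e₂ e₃ a : E} (Z : ZF ρ b w z q₁ q₂ q₃ e₁ e₂ e₃ a)
    (hq1 : q₁ ∈ X) (hq2 : q₂ ∈ X) (hq3 : q₃ ∈ X) (hzX : z ∈ X) (hwX : w ∈ X) :
    Concl ρ X (Subgroup.zpowers b) := by
  have hf := hX.hf
  have hcen := hX.z_central Z hq1 hq2 hzX hwX
  have htriv := hX.triv_plus Z hq1 hq2 hzX hwX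
  have hzb : z * b = b * z := Z.zb hf
  have hb3 : b ^ 3 = 1 := hX.hB.b3
  have hXB : X ≤ X ⊔ Subgroup.zpowers b := le_sup_left
  have hbB : b ∈ X ⊔ Subgroup.zpowers b :=
    (le_sup_right : Subgroup.zpowers b ≤ X ⊔ Subgroup.zpowers b) (Subgroup.mem_zpowers b)
  refine ⟨Or.inr ⟨XD.extraspecial hX Z hq1 hq2 hq3 hzX hwX, XD.card_X hX Z hq1 hq2 hq3 hzX hwX,
    XD.CX X q₁ q₂, inf_le_left, XD.A_ea hX Z hq1 hq2 hq3 hzX hwX,
    XD.card_A hX Z hq1 hq2 hq3 hzX hwX⟩, ?_⟩
  -- the two eigenspaces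
  let F₁ : Submodule (ZMod 3) E := LinearMap.ker (ρ z - LinearMap.id)
  have memF₁ : ∀ {y : E}, y ∈ F₁ ↔ ρ z y = y := by
    intro y
    simp only [F₁, LinearMap.mem_ker, LinearMap.sub_apply, LinearMap.id_apply]
    exact sub_eq_zero
  have memF₀ : ∀ {y : E}, y ∈ mn ρ z ↔ ρ z y = -y := fun {y} => mem_mn
  have he1 : e₁ ∈ mn ρ z := memF₀.2 Z.z1
  have he2 : e₂ ∈ mn ρ z := memF₀.2 Z.z2
  have he3 : e₃ ∈ mn ρ z := memF₀.2 Z.z3
  have hea : a ∈ mn ρ z := memF₀.2 Z.za
  -- the group centralizes `z`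
  have hcomm : ∀ r ∈ X ⊔ Subgroup.zpowers b, r * z = z * r := by
    intro r hr
    have hle : X ⊔ Subgroup.zpowers b ≤ Subgroup.centralizer ({z} : Set S) := by
      apply sup_le
      · intro x hx
        rw [Subgroup.mem_centralizer_singleton_iff]
        exact hcen x hx
      · rw [Subgroup.zpowers_le, Subgroup.mem_centralizer_singleton_iff]
        exact hzb.symm
    exact Subgroup.mem_centralizer_singleton_iff.1 (hle hr)
  refine ⟨mn ρ z, F₁, ?_, ?_, ?_, ?_, ?_, ?_⟩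
  · -- intersection
    rw [eq_bot_iff]
    rintro y ⟨h0, h1⟩
    have h0' : ρ z y = -y := memF₀.1 h0
    have h1' : ρ z y = y := memF₁.1 h1
    rw [Submodule.mem_bot]
    apply eq_neg_self_zero
    rw [← h0', h1']
  · -- sum
    rw [eq_top_iff]
    intro x _
    obtain ⟨α₁, α₂, α₃, α₄, y, rfl, y0, -, -, -⟩ := Z.dec x
    refine Submodule.add_mem_sup ?_ (memF₁.2 y0)
    exact (mn ρ z).add_mem ((mn ρ z).add_mem ((mn ρ z).add_mem
      ((mn ρ z).smul_mem _ he1) ((mn ρ z).smul_mem _ he2)) ((mn ρ z).smul_mem _ he3))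
      ((mn ρ z).smul_mem _ hea)
  · -- trivial on the fixed space
    intro r hr y hy
    exact htriv r hr y (memF₁.1 hy)
  · -- invariance
    intro r hr y hy
    apply memF₀.2
    rw [← rm, ← hcomm r hr, rm, memF₀.1 hy, map_neg]
  · -- faithful
    intro r hr htr
    have h1 := htr e₁ he1
    have h2 := htr e₂ he2
    have h3 := htr e₃ he3
    have h4 := htr a hea
    have hne12 : e₁ ≠ e₂ := by
      intro e
      have := (Z.F.indep (a₁ := 1) (a₂ := -1) (a₃ := 0) (y := 0) (map_zero _) (map_zero _)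
        (by rw [← e]; simp)).1
      exact absurd this (by decide)
    have hne13 : e₁ ≠ e₃ := by
      intro e
      have := (Z.F.indep (a₁ := 1) (a₂ := 0) (a₃ := -1) (y := 0) (map_zero _) (map_zero _)
        (by rw [← e]; simp)).1
      exact absurd this (by decide)
    obtain ⟨x, hx, e | e | e⟩ := mem_sup_zpowers_form hb3 hX.hXb hr
    · apply Z.ext_of hf
      · rw [h1, r1]
      · rw [h2, r1]
      · rw [h3, r1]
      · rw [h4, r1]
      · intro y hy
        rw [e, htriv x hx y hy, r1]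
    · exfalso
      rw [e, rm, Z.F.b1] at h1
      rw [e, rm, Z.F.b2] at h2
      rw [e, rm, Z.F.b3] at h3
      obtain ⟨m, hm⟩ := hX.ord hx
      have hc : ρ (x ^ 3) e₁ = e₁ := by
        rw [pow_succ, pow_two, rm, rm, h3, h2, h1]
      have := fix_of_pow (ρ := ρ) x e₁ 3 m (Nat.Coprime.pow_right _ (by norm_num)) hc hm
      rw [h3] at this
      exact hne13 this.symm
    · exfalso
      rw [e, rm, rm, Z.F.b1, Z.F.b2] at h1
      rw [e, rm, rm, Z.F.b2, Z.F.b3] at h2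
      rw [e, rm, rm, Z.F.b3, Z.F.b1] at h3
      obtain ⟨m, hm⟩ := hX.ord hx
      have hc : ρ (x ^ 3) e₁ = e₁ := by
        rw [pow_succ, pow_two, rm, rm, h2, h3, h1]
      have := fix_of_pow (ρ := ρ) x e₁ 3 m (Nat.Coprime.pow_right _ (by norm_num)) hc hm
      rw [h2] at this
      exact hne12 this.symm
  · -- irreducible
    intro N hN hinv
    by_cases hbot : N = ⊥
    · exact Or.inl hbot
    right
    have hall : e₁ ∈ N → e₂ ∈ N ∧ e₃ ∈ N ∧ a ∈ N := by
      intro h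
      have h2 : e₂ ∈ N := by
        have := hinv b hbB e₁ h
        rwa [Z.F.b1] at this
      have h3 : e₃ ∈ N := by
        have := hinv b hbB e₂ h2
        rwa [Z.F.b2] at this
      refine ⟨h2, h3, ?_⟩
      have hw := hinv w (hXB hwX) e₁ h
      rcases Z.h1 with e | e
      · rw [e] at hw
        exact hw
      · -- `ρ w e₁ = -a`
        rw [e] at hw
        have := N.neg_mem hw
        rwa [neg_neg] at this
    have hall' : a ∈ N → e₁ ∈ N := by
      intro h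
      have hw := hinv w (hXB hwX) a h
      rcases Z.ha with e | e
      · rw [e] at hw
        exact hw
      · rw [e] at hw
        have := N.neg_mem hw
        rwa [neg_neg] at this
    -- projections of a nonzero vector
    obtain ⟨y, hyN, hy0⟩ := (Submodule.ne_bot_iff N).1 hbot
    obtain ⟨α₁, α₂, α₃, α₄, ey⟩ := Z.minus (memF₀.1 (hN hyN))
    have hq₁N := hinv q₁ (hXB hq1) y hyN
    have hq₂N := hinv q₂ (hXB hq2) y hyN
    have hq₃N := hinv q₃ (hXB hq3) y hyN
    have w1 : ρ q₁ (α₄ • a) = α₄ • a := by rw [map_smul, Z.a1]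
    have w2 : ρ q₂ (α₄ • a) = α₄ • a := by rw [map_smul, Z.a2]
    have w3 : ρ q₃ (α₄ • a) = α₄ • a := Z.F.h3 w1 w2
    have p1 : α₁ • e₁ ∈ N := by
      rw [← Z.F.proj1 α₁ α₂ α₃ w1 w2 y ey]
      exact N.sub_mem (N.sub_mem (N.add_mem hyN hq₁N) hq₂N) hq₃N
    have p2 : α₂ • e₂ ∈ N := by
      have ey' : y = α₂ • e₂ + α₃ • e₃ + α₁ • e₁ + α₄ • a := by rw [ey]; abel
      rw [← Z.F.rot.proj1 α₂ α₃ α₁ w2 w3 y ey']
      exact N.sub_mem (N.sub_mem (N.add_mem hyN hq₂N) hq₃N) hq₁N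
    have p3 : α₃ • e₃ ∈ N := by
      have ey' : y = α₃ • e₃ + α₁ • e₁ + α₂ • e₂ + α₄ • a := by rw [ey]; abel
      rw [← Z.F.rot.rot.proj1 α₃ α₁ α₂ w3 w1 y ey']
      exact N.sub_mem (N.sub_mem (N.add_mem hyN hq₃N) hq₁N) hq₂N
    have p4 : α₄ • a ∈ N := by
      rw [← Z.F.proj_sum α₁ α₂ α₃ w1 w2 y ey]
      exact N.add_mem (N.add_mem (N.add_mem hyN hq₁N) hq₂N) hq₃N
    have unit : ∀ (α : ZMod 3) (t : E), α ≠ 0 → α • t ∈ N → t ∈ N := by
      intro α t hα ht
      rcases zmod3_cases α with rfl | rfl | rfl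
      · exact absurd rfl hα
      · simpa using ht
      · simpa using ht
    have he₁N : e₁ ∈ N := by
      by_cases h1 : α₁ = 0
      · by_cases h2 : α₂ = 0
        · by_cases h3 : α₃ = 0
          · by_cases h4 : α₄ = 0
            · exfalso
              apply hy0
              rw [ey, h1, h2, h3, h4]
              simp
            · exact hall' (unit α₄ a h4 p4)
          · have h3' := unit α₃ e₃ h3 p3
            have := hinv b hbB e₃ h3'
            rwa [Z.F.b3] at this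
        · have h2' := unit α₂ e₂ h2 p2
          have h3' := hinv b hbB e₂ h2'
          rw [Z.F.b2] at h3'
          have := hinv b hbB e₃ h3'
          rwa [Z.F.b3] at this
      · exact unit α₁ e₁ h1 p1
    obtain ⟨h2, h3, h4⟩ := hall he₁N
    apply le_antisymm hN
    intro x hx
    obtain ⟨β₁, β₂, β₃, β₄, rfl⟩ := Z.minus (memF₀.1 hx)
    exact N.add_mem (N.add_mem (N.add_mem (N.smul_mem _ he₁N) (N.smul_mem _ h2)) (N.smul_mem _ h3))
      (N.smul_mem _ h4)

end Cfsg.Agent.Lib.S4415
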