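import Cfsg.Agent.Lib.S4415.Concl
import Cfsg.Agent.Lib.Components.Fitting
import Cfsg.Agent.Lib.Basic.PCore

namespace Cfsg.Agent.Lib.S4415

open Cfsg Cfsg.Agent.Lib.Basic.PCore

theorem fit_red {G : Type*} [Group G] [Finite G] [Group.IsSolvable G] (β : G →* G)
    (hβ : ∀ x, β (β (β x)) = x)
    (hcop : Nat.Coprime (Nat.card G) 3) (hO2 : Cfsg.pCore 2 G = ⊥) (hne : ∃ x, β x ≠ x) :
    ∃ r : ℕ, r.Prime ∧ r ≠ 2 ∧ r ≠ 3 ∧ ∃ x ∈ Cfsg.pCore r G, β x ≠ x := by
  classical
  let U : Subgroup G := MonoidHom.eqLocus β (MonoidHom.id G)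
  have memU : ∀ {x}, x ∈ U ↔ β x = x := Iff.rfl
  have hnF : (fittingSubgroup G).Normal := fittingSubgroup_normal G
  by_cases hF : fittingSubgroup G ≤ U
  · exfalso
    obtain ⟨x, hx⟩ := hne
    set t : G := x⁻¹ * β x with ht
    have hcent : t ∈ Subgroup.centralizer (fittingSubgroup G : Set G) := by
      rw [Subgroup.mem_centralizer_iff]
      intro f hf
      have h1 : β (x * f * x⁻¹) = x * f * x⁻¹ := hF (hnF.conj_mem f hf x)
      have hfix : β f = f := hF hf
      rw [map_mul, map_mul, map_inv, hfix] at h1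
      have h2 : β x * f = x * f * x⁻¹ * β x := by
        rw [← h1]; group
      show f * t = t * f
      rw [ht]
      calc f * (x⁻¹ * β x) = x⁻¹ * (x * f * x⁻¹ * β x) := by group
        _ = x⁻¹ * (β x * f) := by rw [h2]
        _ = x⁻¹ * β x * f := by group
    have hCF : Subgroup.centralizer (fittingSubgroup G : Set G) ≤ fittingSubgroup G := by
      apply Cfsg.Agent.Lib.Components.Fitting.le_fitting_of_solvable_of_le_centralizer _ le_rfl
      · exact Subgroup.le_normalizer
      · infer_instance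
    have htF : β t = t := hF (hCF hcent)
    have e1 : β x = x * t := by rw [ht]; group
    have e2 : β (β x) = x * t * t := by rw [e1, map_mul, e1, htF]
    have e3 : β (β (β x)) = x * t * t * t := by rw [e2, map_mul, map_mul, e1, htF]
    have h3 : t ^ 3 = 1 := by
      have := hβ x
      rw [e3] at this
      have h4 : x * t * t * t = x * 1 := by rw [this, mul_one]
      have h5 : t * t * t = 1 := by
        apply mul_left_cancel (a := x)
        calc x * (t * t * t) = x * t * t * t := by group
          _ = x * 1 := h4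
      rw [pow_succ, pow_two]; exact h5
    have hord : orderOf t ∣ 3 := orderOf_dvd_of_pow_eq_one h3
    have hord2 : orderOf t ∣ Nat.card G := orderOf_dvd_natCard t
    have h1 : orderOf t = 1 := Nat.eq_one_of_dvd_coprimes hcop hord2 hord
    have ht1 : t = 1 := orderOf_eq_one_iff.1 h1
    apply hx
    rw [e1, ht1, mul_one]
  · have : ¬ ∀ x ∈ fittingSubgroup G, ∀ p k : ℕ, p.Prime → orderOf x = p ^ k → x ∈ U :=
      fun h => hF (le_of_prime_power_mem h)
    push Not at this
    obtain ⟨x, hxF, p, k, hp, hord, hxU⟩ := this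
    have hx1 : x ≠ 1 := by
      rintro rfl
      exact hxU U.one_mem
    have hxp : x ∈ Cfsg.pCore p G :=
      mem_pCore_of_normal_nilpotent hnF fittingSubgroup_isNilpotent hxF hp hord
    refine ⟨p, hp, ?_, ?_, x, hxp, hxU⟩
    · rintro rfl
      rw [hO2, Subgroup.mem_bot] at hxp
      exact hx1 hxp
    · rintro rfl
      apply hx1
      have h2 : orderOf x ∣ Nat.card G := orderOf_dvd_natCard x
      have h3 : Nat.Coprime (3 ^ k) (Nat.card G) := (Nat.Coprime.pow_left k hcop.symm)
      rw [hord] at h2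
      have h4 : 3 ^ k = 1 := Nat.Coprime.eq_one_of_dvd h3 h2
      rw [← hord] at h4
      exact orderOf_eq_one_iff.1 h4

end Cfsg.Agent.Lib.S4415
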