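import Cfsg.Agent.Lib.S4415.Basic

/-!
# S4415: frames of a `b`-invariant four-group
-/

namespace Cfsg.Agent.Lib.S4415

variable {S E : Type*} [Group S] [AddCommGroup E] [Module (ZMod 3) E]

/-- A frame: three lines permuted by `b`, the joint eigenlines of a `b`-invariant four-group, with
`b` trivial on the centralizer of the four-group. -/
structure Frame (ρ : Representation (ZMod 3) S E) (b q₁ q₂ q₃ : S) (e₁ e₂ e₃ : E) : Prop where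
  b1 : ρ b e₁ = e₂
  b2 : ρ b e₂ = e₃
  b3 : ρ b e₃ = e₁
  q11 : ρ q₁ e₁ = e₁
  q12 : ρ q₁ e₂ = -e₂
  q13 : ρ q₁ e₃ = -e₃
  q21 : ρ q₂ e₁ = -e₁
  q22 : ρ q₂ e₂ = e₂
  q23 : ρ q₂ e₃ = -e₃
  q31 : ρ q₃ e₁ = -e₁
  q32 : ρ q₃ e₂ = -e₂
  q33 : ρ q₃ e₃ = e₃
  ne : e₁ ≠ 0
  sq1 : q₁ * q₁ = 1
  sq2 : q₂ * q₂ = 1
  sq3 : q₃ * q₃ = 1
  m12 : q₁ * q₂ = q₃
  m23 : q₂ * q₃ = q₁
  m31 : q₃ * q₁ = q₂
  cb1 : b * q₁ * b⁻¹ = q₂
  cb2 : b * q₂ * b⁻¹ = q₃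
  cb3 : b * q₃ * b⁻¹ = q₁
  line1 : ∀ y, ρ q₁ y = y → ρ q₂ y = -y → ∃ α : ZMod 3, y = α • e₁
  line2 : ∀ y, ρ q₂ y = y → ρ q₃ y = -y → ∃ α : ZMod 3, y = α • e₂
  line3 : ∀ y, ρ q₃ y = y → ρ q₁ y = -y → ∃ α : ZMod 3, y = α • e₃
  hH : ∀ y, ρ q₁ y = y → ρ q₂ y = y → ρ b y = y
  dec : ∀ x, ∃ (α₁ α₂ α₃ : ZMod 3) (y : E), x = α₁ • e₁ + α₂ • e₂ + α₃ • e₃ + y ∧
    ρ q₁ y = y ∧ ρ q₂ y = y

namespace Frame
variable {ρ : Representation (ZMod 3) S E} {b q₁ q₂ q₃ : S} {e₁ e₂ e₃ : E}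

theorem h3 (F : Frame ρ b q₁ q₂ q₃ e₁ e₂ e₃) {y : E} (h1 : ρ q₁ y = y) (h2 : ρ q₂ y = y) :
    ρ q₃ y = y := by
  rw [← F.m12, rm, h2, h1]

theorem h1' (F : Frame ρ b q₁ q₂ q₃ e₁ e₂ e₃) {y : E} (h2 : ρ q₂ y = y) (h3 : ρ q₃ y = y) :
    ρ q₁ y = y := by
  rw [← F.m23, rm, h3, h2]

theorem ne2 (F : Frame ρ b q₁ q₂ q₃ e₁ e₂ e₃) : e₂ ≠ 0 := by
  intro h; apply F.ne; rw [← F.b1] at h; exact (r_zero_iff ρ b e₁).1 h

theorem ne3 (F : Frame ρ b q₁ q₂ q₃ e₁ e₂ e₃) : e₃ ≠ 0 := by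
  intro h; apply F.ne2; rw [← F.b2] at h; exact (r_zero_iff ρ b e₂).1 h

/-- Rotation of a frame. -/
theorem rot (F : Frame ρ b q₁ q₂ q₃ e₁ e₂ e₃) : Frame ρ b q₂ q₃ q₁ e₂ e₃ e₁ where
  b1 := F.b2
  b2 := F.b3
  b3 := F.b1
  q11 := F.q22
  q12 := F.q23
  q13 := F.q21
  q21 := F.q32
  q22 := F.q33
  q23 := F.q31
  q31 := F.q12
  q32 := F.q13
  q33 := F.q11
  ne := F.ne2
  sq1 := F.sq2
  sq2 := F.sq3
  sq3 := F.sq1
  m12 := F.m23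
  m23 := F.m31
  m31 := F.m12
  cb1 := F.cb2
  cb2 := F.cb3
  cb3 := F.cb1
  line1 := F.line2
  line2 := F.line3
  line3 := F.line1
  hH := fun y h2 h3 => F.hH y (F.h1' h2 h3) h2
  dec := fun x => by
    obtain ⟨a, b', c, y, e, h1, h2⟩ := F.dec x
    exact ⟨b', c, a, y, by rw [e]; abel, h2, F.h3 h1 h2⟩

/-- Conjugation of a frame. -/
theorem conj (F : Frame ρ b q₁ q₂ q₃ e₁ e₂ e₃) (g : S) :
    Frame ρ (g * b * g⁻¹) (g * q₁ * g⁻¹) (g * q₂ * g⁻¹) (g * q₃ * g⁻¹)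
      (ρ g e₁) (ρ g e₂) (ρ g e₃) := by
  have hc : ∀ (x : S) {a c : E}, ρ x a = c → ρ (g * x * g⁻¹) (ρ g a) = ρ g c := by
    intro x a c h; rw [rconj, h]
  have hcn : ∀ (x : S) {a : E}, ρ x a = -a → ρ (g * x * g⁻¹) (ρ g a) = -ρ g a := by
    intro x a h; rw [rconj, h, map_neg]
  have hq : ∀ x y z : S, x * y = z → (g * x * g⁻¹) * (g * y * g⁻¹) = g * z * g⁻¹ := by
    intro x y z h; rw [← h]; group
  have hs : ∀ x : S, x * x = 1 → (g * x * g⁻¹) * (g * x * g⁻¹) = 1 := by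
    intro x h
    rw [hq x x 1 h]; group
  have hb : ∀ x y : S, b * x * b⁻¹ = y → (g * b * g⁻¹) * (g * x * g⁻¹) * (g * b * g⁻¹)⁻¹ = g * y * g⁻¹ := by
    intro x y h; rw [← h]; group
  have hback : ∀ (x : S) (y : E), ρ (g * x * g⁻¹) y = y → ρ x (ρ g⁻¹ y) = ρ g⁻¹ y := by
    intro x y h
    have := congrArg (ρ g⁻¹) h
    rwa [rm, rm, rinvl] at this
  have hbackn : ∀ (x : S) (y : E), ρ (g * x * g⁻¹) y = -y → ρ x (ρ g⁻¹ y) = -ρ g⁻¹ y := by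
    intro x y h
    have := congrArg (ρ g⁻¹) h
    rwa [rm, rm, rinvl, map_neg] at this
  have hl : ∀ (a y : E) (α : ZMod 3), ρ g⁻¹ y = α • a → y = α • ρ g a := by
    intro a y α h
    apply rinj ρ g⁻¹
    rw [h, map_smul, rinvl]
  refine ⟨hc _ F.b1, hc _ F.b2, hc _ F.b3, hc _ F.q11, hcn _ F.q12, hcn _ F.q13, hcn _ F.q21,
    hc _ F.q22, hcn _ F.q23, hcn _ F.q31, hcn _ F.q32, hc _ F.q33, ?_, hs _ F.sq1, hs _ F.sq2,
    hs _ F.sq3, hq _ _ _ F.m12, hq _ _ _ F.m23, hq _ _ _ F.m31, hb _ _ F.cb1, hb _ _ F.cb2,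
    hb _ _ F.cb3, ?_, ?_, ?_, ?_, ?_⟩
  · intro h; exact F.ne ((r_zero_iff ρ g e₁).1 h)
  · intro y h1 h2
    obtain ⟨α, e⟩ := F.line1 _ (hback _ _ h1) (hbackn _ _ h2)
    exact ⟨α, hl _ _ _ e⟩
  · intro y h1 h2
    obtain ⟨α, e⟩ := F.line2 _ (hback _ _ h1) (hbackn _ _ h2)
    exact ⟨α, hl _ _ _ e⟩
  · intro y h1 h2
    obtain ⟨α, e⟩ := F.line3 _ (hback _ _ h1) (hbackn _ _ h2)
    exact ⟨α, hl _ _ _ e⟩
  · intro y h1 h2
    have := F.hH _ (hback _ _ h1) (hback _ _ h2)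
    rw [rm, rm, this, rinvr]
  · intro x
    obtain ⟨a₁, a₂, a₃, y, e, h1, h2⟩ := F.dec (ρ g⁻¹ x)
    refine ⟨a₁, a₂, a₃, ρ g y, ?_, by rw [rconj, h1], by rw [rconj, h2]⟩
    apply rinj ρ g⁻¹
    rw [e]; simp only [map_add, map_smul, rinvl]

/-- The projector onto the first line. -/
theorem proj1 (F : Frame ρ b q₁ q₂ q₃ e₁ e₂ e₃) (a₁ a₂ a₃ : ZMod 3) {y : E}
    (h1 : ρ q₁ y = y) (h2 : ρ q₂ y = y) (x : E) (hx : x = a₁ • e₁ + a₂ • e₂ + a₃ • e₃ + y) :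
    x + ρ q₁ x - ρ q₂ x - ρ q₃ x = a₁ • e₁ := by
  subst hx
  simp only [map_add, map_smul, F.q11, F.q12, F.q13, F.q21, F.q22, F.q23, F.q31, F.q32, F.q33, h1, h2, F.h3 h1 h2]
  have := smul3 (a₁ • e₁)
  linear_combination (norm := module) this

theorem proj_sum (F : Frame ρ b q₁ q₂ q₃ e₁ e₂ e₃) (a₁ a₂ a₃ : ZMod 3) {y : E}
    (h1 : ρ q₁ y = y) (h2 : ρ q₂ y = y) (x : E) (hx : x = a₁ • e₁ + a₂ • e₂ + a₃ • e₃ + y) :
    x + ρ q₁ x + ρ q₂ x + ρ q₃ x = y := by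
  subst hx
  simp only [map_add, map_smul, F.q11, F.q12, F.q13, F.q21, F.q22, F.q23, F.q31, F.q32, F.q33, h1, h2, F.h3 h1 h2]
  have := smul3 y
  linear_combination (norm := module) this

/-- Coordinates are unique. -/
theorem coord1 (F : Frame ρ b q₁ q₂ q₃ e₁ e₂ e₃) {a₁ a₂ a₃ c₁ c₂ c₃ : ZMod 3} {y z : E}
    (h1 : ρ q₁ y = y) (h2 : ρ q₂ y = y) (h1' : ρ q₁ z = z) (h2' : ρ q₂ z = z)
    (h : a₁ • e₁ + a₂ • e₂ + a₃ • e₃ + y = c₁ • e₁ + c₂ • e₂ + c₃ • e₃ + z) : a₁ = c₁ := by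
  have p1 := F.proj1 a₁ a₂ a₃ h1 h2 _ rfl
  have p2 := F.proj1 c₁ c₂ c₃ h1' h2' _ rfl
  rw [h, p2] at p1
  by_contra hne
  have hsub : (a₁ - c₁) • e₁ = 0 := by rw [sub_smul, p1, sub_self]
  rcases smul_eq_zero.1 hsub with h0 | h0
  · exact hne (sub_eq_zero.1 h0)
  · exact F.ne h0

theorem coordy (F : Frame ρ b q₁ q₂ q₃ e₁ e₂ e₃) {a₁ a₂ a₃ c₁ c₂ c₃ : ZMod 3} {y z : E}
    (h1 : ρ q₁ y = y) (h2 : ρ q₂ y = y) (h1' : ρ q₁ z = z) (h2' : ρ q₂ z = z)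
    (h : a₁ • e₁ + a₂ • e₂ + a₃ • e₃ + y = c₁ • e₁ + c₂ • e₂ + c₃ • e₃ + z) : y = z := by
  have p1 := F.proj_sum a₁ a₂ a₃ h1 h2 _ rfl
  have p2 := F.proj_sum c₁ c₂ c₃ h1' h2' _ rfl
  rw [h, p2] at p1
  exact p1.symm

theorem coord_all (F : Frame ρ b q₁ q₂ q₃ e₁ e₂ e₃) {a₁ a₂ a₃ c₁ c₂ c₃ : ZMod 3} {y z : E}
    (h1 : ρ q₁ y = y) (h2 : ρ q₂ y = y) (h1' : ρ q₁ z = z) (h2' : ρ q₂ z = z)
    (h : a₁ • e₁ + a₂ • e₂ + a₃ • e₃ + y = c₁ • e₁ + c₂ • e₂ + c₃ • e₃ + z) :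
    a₁ = c₁ ∧ a₂ = c₂ ∧ a₃ = c₃ ∧ y = z := by
  refine ⟨F.coord1 h1 h2 h1' h2' h, ?_, ?_, F.coordy h1 h2 h1' h2' h⟩
  · refine F.rot.coord1 (a₂ := a₃) (a₃ := a₁) (c₂ := c₃) (c₃ := c₁) (y := y) (z := z) h2 (F.h3 h1 h2) h2' (F.h3 h1' h2') ?_
    linear_combination (norm := abel) h
  · refine F.rot.rot.coord1 (a₂ := a₁) (a₃ := a₂) (c₂ := c₁) (c₃ := c₂) (y := y) (z := z) (F.h3 h1 h2) h1 (F.h3 h1' h2') h1' ?_
    linear_combination (norm := abel) h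

/-- An element fixing `H`-type coordinates: zero-sum relation. -/
theorem indep (F : Frame ρ b q₁ q₂ q₃ e₁ e₂ e₃) {a₁ a₂ a₃ : ZMod 3} {y : E}
    (h1 : ρ q₁ y = y) (h2 : ρ q₂ y = y) (h : a₁ • e₁ + a₂ • e₂ + a₃ • e₃ + y = 0) :
    a₁ = 0 ∧ a₂ = 0 ∧ a₃ = 0 ∧ y = 0 := by
  refine F.coord_all h1 h2 (map_zero _) (map_zero _) ?_
  simpa using h

/-- Two linear maps agreeing on the frame and on the fixed space coincide. -/
theorem ext_of (F : Frame ρ b q₁ q₂ q₃ e₁ e₂ e₃) {g k : S} (hf : Function.Injective ρ)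
    (h1 : ρ g e₁ = ρ k e₁) (h2 : ρ g e₂ = ρ k e₂) (h3 : ρ g e₃ = ρ k e₃)
    (hy : ∀ y, ρ q₁ y = y → ρ q₂ y = y → ρ g y = ρ k y) : g = k := by
  apply hf
  ext x
  obtain ⟨a, b', c, y, rfl, hy1, hy2⟩ := F.dec x
  simp only [map_add, map_smul, h1, h2, h3, hy y hy1 hy2]

end Frame

theorem exists_frame {ρ : Representation (ZMod 3) S E} (hf : Function.Injective ρ)
    {b q₁ q₂ q₃ : S} {u s v : E} (hB : BD ρ b u s v)
    (sq1 : q₁ * q₁ = 1) (m12 : q₁ * q₂ = q₃)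
    (cb1 : b * q₁ * b⁻¹ = q₂) (cb2 : b * q₂ * b⁻¹ = q₃) (cb3 : b * q₃ * b⁻¹ = q₁) (hne : q₁ ≠ 1) :
    ∃ e₁ e₂ e₃, Frame ρ b q₁ q₂ q₃ e₁ e₂ e₃ := by
  have sq2 : q₂ * q₂ = 1 := by
    rw [← cb1]
    calc b * q₁ * b⁻¹ * (b * q₁ * b⁻¹) = b * (q₁ * q₁) * b⁻¹ := by group
      _ = 1 := by rw [sq1]; group
  have sq3 : q₃ * q₃ = 1 := by
    rw [← cb2]
    calc b * q₂ * b⁻¹ * (b * q₂ * b⁻¹) = b * (q₂ * q₂) * b⁻¹ := by group
      _ = 1 := by rw [sq2]; group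
  have m23 : q₂ * q₃ = q₁ := by
    calc q₂ * q₃ = b * (q₁ * q₂) * b⁻¹ := by
          conv_rhs => rw [show b * (q₁ * q₂) * b⁻¹ = (b * q₁ * b⁻¹) * (b * q₂ * b⁻¹) by group]
          rw [cb1, cb2]
      _ = q₁ := by rw [m12, cb3]
  have m31 : q₃ * q₁ = q₂ := by
    calc q₃ * q₁ = b * (q₂ * q₃) * b⁻¹ := by
          conv_rhs => rw [show b * (q₂ * q₃) * b⁻¹ = (b * q₂ * b⁻¹) * (b * q₃ * b⁻¹) by group]
          rw [cb2, cb3]
      _ = q₂ := by rw [m23, cb1]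
  have m13 : q₁ * q₃ = q₂ := by
    calc q₁ * q₃ = q₁ * (q₁ * q₂) := by rw [m12]
      _ = q₂ := by rw [← mul_assoc, sq1, one_mul]
  have m21 : q₂ * q₁ = q₃ := by
    calc q₂ * q₁ = (q₃ * q₁) * q₁ := by rw [m31]
      _ = q₃ := by rw [mul_assoc, sq1, mul_one]
  have m32 : q₃ * q₂ = q₁ := by
    calc q₃ * q₂ = (q₁ * q₂) * q₂ := by rw [m12]
      _ = q₁ := by rw [mul_assoc, sq2, mul_one]
  have t11 : ∀ x, ρ q₁ (ρ q₁ x) = x := fun x => by rw [← rm, sq1, r1]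
  have t22 : ∀ x, ρ q₂ (ρ q₂ x) = x := fun x => by rw [← rm, sq2, r1]
  have t33 : ∀ x, ρ q₃ (ρ q₃ x) = x := fun x => by rw [← rm, sq3, r1]
  have t12 : ∀ x, ρ q₁ (ρ q₂ x) = ρ q₃ x := fun x => by rw [← rm, m12]
  have t13 : ∀ x, ρ q₁ (ρ q₃ x) = ρ q₂ x := fun x => by rw [← rm, m13]
  have t21 : ∀ x, ρ q₂ (ρ q₁ x) = ρ q₃ x := fun x => by rw [← rm, m21]
  have t23 : ∀ x, ρ q₂ (ρ q₃ x) = ρ q₁ x := fun x => by rw [← rm, m23]
  have t31 : ∀ x, ρ q₃ (ρ q₁ x) = ρ q₂ x := fun x => by rw [← rm, m31]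
  have t32 : ∀ x, ρ q₃ (ρ q₂ x) = ρ q₁ x := fun x => by rw [← rm, m32]
  have hb3 : ∀ x, ρ b (ρ b (ρ b x)) = x := fun x => by
    rw [← rm, ← rm, show b * b * b = b ^ 3 by rw [pow_succ, pow_two], hB.b3, r1]
  -- conjugation
  have c1 : ∀ x, ρ q₂ (ρ b x) = ρ b (ρ q₁ x) := fun x => by rw [← cb1, rconj]
  have c2 : ∀ x, ρ q₃ (ρ b x) = ρ b (ρ q₂ x) := fun x => by rw [← cb2, rconj]
  have c3 : ∀ x, ρ q₁ (ρ b x) = ρ b (ρ q₃ x) := fun x => by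
    conv_lhs => rw [← cb3]
    rw [rconj]
  -- a nonzero projection
  have hP : ∃ x, x + ρ q₁ x - ρ q₂ x - ρ q₃ x ≠ 0 := by
    by_contra hcon
    push Not at hcon
    have h2 : ∀ x, x + ρ q₂ x - ρ q₃ x - ρ q₁ x = 0 := by
      intro x
      have := hcon (ρ b⁻¹ x)
      have := congrArg (ρ b) this
      simp only [map_sub, map_add, map_zero, ← c1, ← c2, ← c3, rinvr] at this
      exact this
    have h12 : ∀ x, ρ q₁ x = ρ q₂ x := by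
      intro x
      have h3 := hcon x
      have h4 := h2 x
      have h5 : (2 : ZMod 3) • (ρ q₁ x - ρ q₂ x) = 0 := by
        linear_combination (norm := module) h3 - h4
      rcases smul_eq_zero.1 h5 with h0 | h0
      · exact absurd h0 (by decide)
      · exact sub_eq_zero.1 h0
    have : q₁ = q₂ := hf (by ext x; exact h12 x)
    apply hne
    have h3 : q₃ = 1 := by rw [← m12, ← this, sq1]
    rw [← cb3, h3]; group
  obtain ⟨x₀, hx₀⟩ := hP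
  set e₁ := x₀ + ρ q₁ x₀ - ρ q₂ x₀ - ρ q₃ x₀ with he₁
  have a11 : ρ q₁ e₁ = e₁ := by
    simp only [he₁, map_add, map_sub, t11, t12, t13]; abel
  have a21 : ρ q₂ e₁ = -e₁ := by
    simp only [he₁, map_add, map_sub, t21, t22, t23]; abel
  have a31 : ρ q₃ e₁ = -e₁ := by
    simp only [he₁, map_add, map_sub, t31, t32, t33]; abel
  set e₂ := ρ b e₁ with he₂
  set e₃ := ρ b e₂ with he₃
  have b3' : ρ b e₃ = e₁ := hb3 e₁
  have a12 : ρ q₁ e₂ = -e₂ := by rw [he₂, c3, a31, map_neg]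
  have a22 : ρ q₂ e₂ = e₂ := by rw [he₂, c1, a11]
  have a32 : ρ q₃ e₂ = -e₂ := by rw [he₂, c2, a21, map_neg]
  have a13 : ρ q₁ e₃ = -e₃ := by rw [he₃, c3, a32, map_neg]
  have a23 : ρ q₂ e₃ = -e₃ := by rw [he₃, c1, a12, map_neg]
  have a33 : ρ q₃ e₃ = e₃ := by rw [he₃, c2, a22]
  have ne3 : e₃ ≠ 0 := by
    intro h; apply hx₀
    have h' : ρ b e₂ = 0 := h
    have h2 := (r_zero_iff ρ b e₂).1 h'
    exact (r_zero_iff ρ b e₁).1 h2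
  -- projections on combinations
  have P1 : ∀ (a c d : ZMod 3) (y : E), ρ q₁ y = y → ρ q₂ y = y → ρ q₃ y = y →
      let w := a • e₁ + c • e₂ + d • e₃ + y
      w + ρ q₁ w - ρ q₂ w - ρ q₃ w = a • e₁ := by
    intro a c d y h1 h2 h3
    simp only [map_add, map_smul, a11, a12, a13, a21, a22, a23, a31, a32, a33, h1, h2, h3]
    have := smul3 (a • e₁)
    linear_combination (norm := module) this
  have P3 : ∀ (a c d : ZMod 3) (y : E), ρ q₁ y = y → ρ q₂ y = y → ρ q₃ y = y →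
      let w := a • e₁ + c • e₂ + d • e₃ + y
      w + ρ q₃ w - ρ q₁ w - ρ q₂ w = d • e₃ := by
    intro a c d y h1 h2 h3
    simp only [map_add, map_smul, a11, a12, a13, a21, a22, a23, a31, a32, a33, h1, h2, h3]
    have := smul3 (d • e₃)
    linear_combination (norm := module) this
  -- independence of the differences
  set d₁ := e₂ - e₁ with hd₁
  set d₂ := e₃ - e₂ with hd₂
  have hcomb : ∀ A B : ZMod 3, A • d₁ + B • d₂ = (-A) • e₁ + (A - B) • e₂ + B • e₃ + 0 := by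
    intro A B; rw [hd₁, hd₂]; module
  have hind : ∀ A B : ZMod 3, A • d₁ + B • d₂ = 0 → A = 0 ∧ B = 0 := by
    intro A B h
    have p1 := P1 (-A) (A - B) B 0 (map_zero _) (map_zero _) (map_zero _)
    have p3 := P3 (-A) (A - B) B 0 (map_zero _) (map_zero _) (map_zero _)
    simp only at p1 p3
    rw [← hcomb, h] at p1 p3
    simp only [map_zero, add_zero, sub_zero] at p1 p3
    have hA : -A = 0 := by
      rcases smul_eq_zero.1 p1.symm with h0 | h0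
      · exact h0
      · exact absurd h0 hx₀
    have hB' : B = 0 := by
      rcases smul_eq_zero.1 p3.symm with h0 | h0
      · exact h0
      · exact absurd h0 ne3
    exact ⟨neg_eq_zero.1 hA, hB'⟩
  have hU : ∀ x, ∃ A B : ZMod 3, ρ b x - x = A • d₁ + B • d₂ := by
    obtain ⟨l₁, m₁, e1⟩ := hB.hn e₁
    obtain ⟨l₂, m₂, e2⟩ := hB.hn e₂
    rw [← he₂, ← hd₁] at e1
    rw [← he₃, ← hd₂] at e2
    set D := l₁ * m₂ - l₂ * m₁ with hD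
    have hu' : m₂ • d₁ - m₁ • d₂ = D • u := by rw [e1, e2, hD]; module
    have hs' : l₁ • d₂ - l₂ • d₁ = D • s := by rw [e1, e2, hD]; module
    have hD0 : D ≠ 0 := by
      intro h0
      rw [h0, zero_smul] at hu' hs'
      have i1 := hind m₂ (-m₁) (by rw [← hu']; module)
      have i2 := hind (-l₂) l₁ (by rw [← hs']; module)
      have : d₁ = 0 := by
        rw [e1]
        have : l₁ = 0 := i2.2
        have h2 : m₁ = 0 := neg_eq_zero.1 i1.2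
        rw [this, h2]; simp
      have := (hind 1 0 (by simp [this])).1
      exact absurd this (by decide)
    intro x
    obtain ⟨α, β, e⟩ := hB.hn x
    have hu2 : u = D⁻¹ • (m₂ • d₁ - m₁ • d₂) := by
      rw [hu', smul_smul, inv_mul_cancel₀ hD0, one_smul]
    have hs2 : s = D⁻¹ • (l₁ • d₂ - l₂ • d₁) := by
      rw [hs', smul_smul, inv_mul_cancel₀ hD0, one_smul]
    refine ⟨α * D⁻¹ * m₂ - β * D⁻¹ * l₂, β * D⁻¹ * l₁ - α * D⁻¹ * m₁, ?_⟩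
    rw [e, hu2, hs2]; module
  have line1 : ∀ y, ρ q₁ y = y → ρ q₂ y = -y → ∃ α : ZMod 3, y = α • e₁ := by
    intro y h1 h2
    have h3 : ρ q₃ y = -y := by rw [← t12, h2, map_neg, h1]
    have by1 : ρ q₁ (ρ b y) = -ρ b y := by rw [c3, h3, map_neg]
    have by2 : ρ q₂ (ρ b y) = ρ b y := by rw [c1, h1]
    have by3 : ρ q₃ (ρ b y) = -ρ b y := by rw [c2, h2, map_neg]
    obtain ⟨A, B, e⟩ := hU y
    have hw := hcomb A B
    rw [← e] at hw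
    have p1 := P1 (-A) (A - B) B 0 (map_zero _) (map_zero _) (map_zero _)
    have p3 := P3 (-A) (A - B) B 0 (map_zero _) (map_zero _) (map_zero _)
    simp only at p1 p3
    rw [← hw] at p1 p3
    simp only [map_sub, by1, by2, by3, h1, h2, h3] at p1 p3
    have hB0 : B = 0 := by
      have : B • e₃ = 0 := by
        rw [← p3]; module
      rcases smul_eq_zero.1 this with h0 | h0
      · exact h0
      · exact absurd h0 ne3
    refine ⟨A, ?_⟩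
    have h4 := smul3 y
    linear_combination (norm := module) (-1 : ZMod 3) • p1 + (-1 : ZMod 3) • h4
  have hinvb : ∀ (α : ZMod 3) (y a : E), ρ b⁻¹ y = α • a → y = α • ρ b a := by
    intro α y a h
    apply rinj ρ b⁻¹
    rw [h, map_smul, rinvl]
  have c1' : ∀ x, ρ q₁ (ρ b⁻¹ x) = ρ b⁻¹ (ρ q₂ x) := fun x => by
    apply rinj ρ b; rw [← c1, rinvr, rinvr]
  have c2' : ∀ x, ρ q₂ (ρ b⁻¹ x) = ρ b⁻¹ (ρ q₃ x) := fun x => by
    apply rinj ρ b; rw [← c2, rinvr, rinvr]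
  have c3' : ∀ x, ρ q₃ (ρ b⁻¹ x) = ρ b⁻¹ (ρ q₁ x) := fun x => by
    apply rinj ρ b; rw [← c3, rinvr, rinvr]
  have line2 : ∀ y, ρ q₂ y = y → ρ q₃ y = -y → ∃ α : ZMod 3, y = α • e₂ := by
    intro y h2 h3
    obtain ⟨α, e⟩ := line1 (ρ b⁻¹ y) (by rw [c1', h2]) (by rw [c2', h3, map_neg])
    exact ⟨α, hinvb _ _ _ e⟩
  have line3 : ∀ y, ρ q₃ y = y → ρ q₁ y = -y → ∃ α : ZMod 3, y = α • e₃ := by
    intro y h3 h1
    obtain ⟨α, e⟩ := line2 (ρ b⁻¹ y) (by rw [c2', h3]) (by rw [c3', h1, map_neg])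
    exact ⟨α, hinvb _ _ _ e⟩
  have hH : ∀ y, ρ q₁ y = y → ρ q₂ y = y → ρ b y = y := by
    intro y h1 h2
    have h3 : ρ q₃ y = y := by rw [← t12, h2, h1]
    have by1 : ρ q₁ (ρ b y) = ρ b y := by rw [c3, h3]
    have by2 : ρ q₂ (ρ b y) = ρ b y := by rw [c1, h1]
    have by3 : ρ q₃ (ρ b y) = ρ b y := by rw [c2, h2]
    obtain ⟨A, B, e⟩ := hU y
    have hw := hcomb A B
    rw [← e] at hw
    have p1 := P1 (-A) (A - B) B 0 (map_zero _) (map_zero _) (map_zero _)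
    have p3 := P3 (-A) (A - B) B 0 (map_zero _) (map_zero _) (map_zero _)
    simp only at p1 p3
    rw [← hw] at p1 p3
    simp only [map_sub, by1, by2, by3, h1, h2, h3] at p1 p3
    have hB0 : B = 0 := by
      have : B • e₃ = 0 := by
        rw [← p3]; module
      rcases smul_eq_zero.1 this with h0 | h0
      · exact h0
      · exact absurd h0 ne3
    have hA0 : A = 0 := by
      have : (-A) • e₁ = 0 := by
        rw [← p1]; module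
      rcases smul_eq_zero.1 this with h0 | h0
      · exact neg_eq_zero.1 h0
      · exact absurd h0 hx₀
    rw [hA0, hB0] at e
    simp only [zero_smul, add_zero] at e
    exact sub_eq_zero.1 e
  refine ⟨e₁, e₂, e₃, ?_⟩
  refine ⟨rfl, rfl, b3', a11, a12, a13, a21, a22, a23, a31, a32, a33, hx₀, sq1, sq2, sq3, m12, m23,
    m31, cb1, cb2, cb3, line1, line2, line3, hH, ?_⟩
  intro x
  obtain ⟨α₁, e1⟩ := line1 (x + ρ q₁ x - ρ q₂ x - ρ q₃ x)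
    (by simp only [map_add, map_sub, t11, t12, t13]; abel)
    (by simp only [map_add, map_sub, t21, t22, t23]; abel)
  obtain ⟨α₂, e2⟩ := line2 (x + ρ q₂ x - ρ q₃ x - ρ q₁ x)
    (by simp only [map_add, map_sub, t21, t22, t23]; abel)
    (by simp only [map_add, map_sub, t31, t32, t33]; abel)
  obtain ⟨α₃, e3⟩ := line3 (x + ρ q₃ x - ρ q₁ x - ρ q₂ x)
    (by simp only [map_add, map_sub, t31, t32, t33]; abel)
    (by simp only [map_add, map_sub, t11, t12, t13]; abel)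
  refine ⟨α₁, α₂, α₃, x + ρ q₁ x + ρ q₂ x + ρ q₃ x, ?_,
    by simp only [map_add, t11, t12, t13]; abel, by simp only [map_add, t21, t22, t23]; abel⟩
  rw [← e1, ← e2, ← e3]
  have := smul3 x
  linear_combination (norm := module) (-1 : ZMod 3) • this

end Cfsg.Agent.Lib.S4415
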