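import Cfsg.Agent.Lib.S4415.Concl

/-!
# S4415, piece O: odd-order subgroups normalized by `b`
-/

set_option linter.style.haveILetI false

open Module

namespace Cfsg.Agent.Lib.S4415
section smallrep

theorem card_modEq_ker {W : Type*} [AddCommGroup W] [Module (ZMod 3) W] [Finite W]
    {r k : ℕ} [Fact r.Prime] (f : W →ₗ[ZMod 3] W) (hf : f ^ r ^ k = 1) :
    Nat.card W ≡ Nat.card (LinearMap.ker (f - 1)) [MOD r] := by
  classical
  have := Fintype.ofFinite W
  let e : Function.End W := ⇑f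
  have hpow : ∀ n : ℕ, ∀ x : W, (e ^ n : Function.End W) x = (f ^ n) x := by
    intro n
    induction n with
    | zero => intro x; rfl
    | succ n ih =>
      intro x
      rw [pow_succ, pow_succ]
      exact ih (f x)
  have h1 : e ^ r ^ k = 1 := by
    funext x
    rw [hpow, hf]; rfl
  have h2 := Equiv.Perm.card_fixedPoints_modEq (f := e) (p := r) (n := k) h1
  have h3 : Nat.card (LinearMap.ker (f - 1)) = Fintype.card ↑(Function.fixedPoints e) := by
    rw [← Nat.card_eq_fintype_card]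
    apply Nat.card_congr
    refine Equiv.subtypeEquivRight ?_
    intro x
    simp only [LinearMap.mem_ker, LinearMap.sub_apply, Module.End.one_apply, sub_eq_zero]
    rfl
  rw [h3, Nat.card_eq_fintype_card]
  exact h2

theorem card_three_pow {W : Type*} [AddCommGroup W] [Module (ZMod 3) W] [Finite W] :
    Nat.card W = 3 ^ finrank (ZMod 3) W := by
  have : Module.Finite (ZMod 3) W := Module.Finite.of_finite
  rw [Module.natCard_eq_pow_finrank (K := ZMod 3), Nat.card_zmod]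

theorem arith_odd {r d e : ℕ} (hr : r.Prime) (hr2 : r ≠ 2) (hr3 : r ≠ 3) (hed : e < d) (hd : d ≤ 4)
    (h : 3 ^ d ≡ 3 ^ e [MOD r]) :
    (r = 5 ∧ d = 4 ∧ e = 0) ∨ (r = 13 ∧ ((d = 3 ∧ e = 0) ∨ (d = 4 ∧ e = 1))) := by
  obtain ⟨a, rfl⟩ : ∃ a, d = e + a := ⟨d - e, by omega⟩
  have h1 : r ∣ 3 ^ (e + a) - 3 ^ e :=
    (Nat.modEq_iff_dvd' (Nat.pow_le_pow_right (by norm_num) (by omega))).1 h.symm
  have h2 : 3 ^ (e + a) - 3 ^ e = 3 ^ e * (3 ^ a - 1) := by
    rw [pow_add, Nat.mul_sub, mul_one]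
  rw [h2] at h1
  have h3 : r ∣ 3 ^ a - 1 := by
    rcases (Nat.Prime.dvd_mul hr).1 h1 with h | h
    · exact absurd ((Nat.prime_dvd_prime_iff_eq hr Nat.prime_three).1 (hr.dvd_of_dvd_pow h)) hr3
    · exact h
  have two : ∀ k, r ∣ 2 ^ k → False := fun k hk =>
    hr2 ((Nat.prime_dvd_prime_iff_eq hr Nat.prime_two).1 (hr.dvd_of_dvd_pow hk))
  have ha : a = 1 ∨ a = 2 ∨ a = 3 ∨ a = 4 := by omega
  rcases ha with rfl | rfl | rfl | rfl
  · exact (two 1 (by simpa using h3)).elim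
  · exact (two 3 (by simpa using h3)).elim
  · have : r ∣ 2 * 13 := by simpa using h3
    rcases (Nat.Prime.dvd_mul hr).1 this with h | h
    · exact (two 1 (by simpa using h)).elim
    · have := (Nat.prime_dvd_prime_iff_eq hr (by norm_num)).1 h
      right; refine ⟨this, ?_⟩; omega
  · have : r ∣ 2 ^ 4 * 5 := by simpa using h3
    rcases (Nat.Prime.dvd_mul hr).1 this with h | h
    · exact (two 4 h).elim
    · have := (Nat.prime_dvd_prime_iff_eq hr (by norm_num)).1 h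
      left; refine ⟨this, ?_, ?_⟩ <;> omega

theorem small_rep_key {Y W : Type*} [Group Y] [Finite Y] [AddCommGroup W] [Module (ZMod 3) W] [Finite W]
    {r : ℕ} (hr : r.Prime) (hr2 : r ≠ 2) (hr3 : r ≠ 3) (hY : IsPGroup r Y)
    (hW : Nat.card W ≤ 81) (τ : Y →* (W →ₗ[ZMod 3] W)) (hτ : Function.Injective τ)
    {y : Y} (hy : y ≠ 1) :
    (r = 5 ∧ finrank (ZMod 3) W = 4 ∧ finrank (ZMod 3) (LinearMap.ker (τ y - 1)) = 0) ∨
    (r = 13 ∧ ((finrank (ZMod 3) W = 3 ∧ finrank (ZMod 3) (LinearMap.ker (τ y - 1)) = 0) ∨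
      (finrank (ZMod 3) W = 4 ∧ finrank (ZMod 3) (LinearMap.ker (τ y - 1)) = 1))) := by
  have : Fact r.Prime := ⟨hr⟩
  have : Module.Finite (ZMod 3) W := Module.Finite.of_finite
  obtain ⟨k, hk⟩ := hY y
  have hk' : (τ y) ^ r ^ k = 1 := by rw [← map_pow, hk, map_one]
  have h1 := card_modEq_ker (τ y) hk'
  rw [card_three_pow (W := W), card_three_pow (W := LinearMap.ker (τ y - 1))] at h1
  have hd : finrank (ZMod 3) W ≤ 4 := by
    have : 3 ^ finrank (ZMod 3) W ≤ 3 ^ 4 := by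
      rw [← card_three_pow (W := W)]; simpa using hW
    exact (Nat.pow_le_pow_iff_right (by norm_num)).1 this
  have hlt : finrank (ZMod 3) (LinearMap.ker (τ y - 1)) < finrank (ZMod 3) W := by
    apply Submodule.finrank_lt
    intro htop
    apply hy
    apply hτ
    rw [map_one]
    ext x
    have hx : x ∈ LinearMap.ker (τ y - 1) := by rw [htop]; trivial
    have := LinearMap.mem_ker.1 hx
    simp only [LinearMap.sub_apply, Module.End.one_apply, sub_eq_zero] at this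
    simpa using this
  exact arith_odd hr hr2 hr3 hlt hd h1

theorem small_rep {Y W : Type*} [Group Y] [Finite Y] [AddCommGroup W] [Module (ZMod 3) W] [Finite W]
    {r : ℕ} (hr : r.Prime) (hr2 : r ≠ 2) (hr3 : r ≠ 3) (hY : IsPGroup r Y)
    (hW : Nat.card W ≤ 81) (τ : Y →* (W →ₗ[ZMod 3] W)) (hτ : Function.Injective τ) :
    Nat.card Y ≤ r ∧ (Nontrivial Y → r = 5 ∨ r = 13) := by
  classical
  have : Fact r.Prime := ⟨hr⟩
  have key := fun (y : Y) (hy : y ≠ 1) => small_rep_key hr hr2 hr3 hY hW τ hτ hy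
  refine ⟨?_, ?_⟩
  · by_contra hlt
    push Not at hlt
    obtain ⟨n, hn⟩ := (IsPGroup.iff_card (p := r) (G := Y)).1 hY
    have hn2 : 2 ≤ n := by
      by_contra h
      have h' : n = 0 ∨ n = 1 := by omega
      rcases h' with rfl | rfl
      · rw [hn] at hlt; simp at hlt; have := hr.one_lt; omega
      · rw [hn] at hlt; simp at hlt
    have hdvd : r ^ 2 ∣ Nat.card Y := by rw [hn]; exact pow_dvd_pow _ hn2
    obtain ⟨K, hK⟩ := Sylow.exists_subgroup_card_pow_prime r hdvd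
    -- the action of `K` on `W`
    letI act : MulAction K W :=
      { smul := fun g w => τ (g : Y) w
        one_smul := fun w => by
          change τ ((1 : K) : Y) w = w
          simp
        mul_smul := fun g h w => by
          change τ ((g * h : K) : Y) w = τ (g : Y) (τ (h : Y) w)
          simp }
    have := Fintype.ofFinite K
    have := Fintype.ofFinite W
    have hb := MulAction.sum_card_fixedBy_eq_card_orbits_mul_card_group K W
    have hfix : ∀ g : K, Fintype.card (MulAction.fixedBy W g) =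
        Nat.card (LinearMap.ker (τ (g : Y) - 1)) := by
      intro g
      rw [← Nat.card_eq_fintype_card]
      apply Nat.card_congr
      refine Equiv.subtypeEquivRight ?_
      intro x
      simp only [LinearMap.mem_ker, LinearMap.sub_apply, Module.End.one_apply, sub_eq_zero]
      rfl
    have hcardK : Fintype.card K = r ^ 2 := by rw [← Nat.card_eq_fintype_card]; exact hK
    rw [hcardK] at hb
    have hdvd2 : r ^ 2 ∣ ∑ g : K, Fintype.card (MulAction.fixedBy W g) := by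
      rw [hb]; exact dvd_mul_left _ _
    simp only [hfix] at hdvd2
    have hone : Nat.card (LinearMap.ker (τ ((1 : K) : Y) - 1)) = Nat.card W := by
      have : LinearMap.ker (τ ((1 : K) : Y) - 1) = ⊤ := by
        rw [eq_top_iff]
        intro x _
        simp
      rw [this]
      exact Nat.card_congr Submodule.topEquiv.toEquiv
    have hsum : ∀ c : ℕ, (∀ g : K, g ≠ 1 → Nat.card (LinearMap.ker (τ (g : Y) - 1)) = c) →
        r ^ 2 ∣ Nat.card W + (r ^ 2 - 1) * c := by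
      intro c hc
      have h1 : ∑ g : K, Nat.card (LinearMap.ker (τ (g : Y) - 1)) =
          Nat.card W + (r ^ 2 - 1) * c := by
        rw [← Finset.add_sum_erase Finset.univ _ (Finset.mem_univ (1 : K)), hone]
        congr 1
        rw [Finset.sum_congr rfl (g := fun _ => c) (fun g hg => hc g (Finset.ne_of_mem_erase hg))]
        rw [Finset.sum_const, Finset.card_erase_of_mem (Finset.mem_univ _), Finset.card_univ, hcardK]
        rfl
      rw [← h1]; exact hdvd2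
    have hne : ∃ g : K, g ≠ 1 := by
      by_contra hcon
      push Not at hcon
      have : Subsingleton K := ⟨fun a b => by rw [hcon a, hcon b]⟩
      have h1 := Nat.card_of_subsingleton (1 : K)
      rw [hK] at h1
      have := hr.one_lt
      nlinarith
    obtain ⟨g₀, hg₀⟩ := hne
    have hg₀' : (g₀ : Y) ≠ 1 := by simpa using hg₀
    have hg : ∀ g : K, g ≠ 1 → (g : Y) ≠ 1 := by
      intro g hg; simpa using hg
    rcases key _ hg₀' with ⟨h5, hd, _⟩ | ⟨h13, ⟨hd, _⟩ | ⟨hd, _⟩⟩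
    · -- r = 5, d = 4, all e = 0
      have := hsum 1 (fun g hgne => by
        rcases key _ (hg g hgne) with ⟨_, _, he⟩ | ⟨h, _⟩
        · rw [card_three_pow, he]; rfl
        · omega)
      rw [card_three_pow (W := W), hd, h5] at this
      norm_num at this
    · have := hsum 1 (fun g hgne => by
        rcases key _ (hg g hgne) with ⟨h, _⟩ | ⟨_, ⟨_, he⟩ | ⟨h, _⟩⟩
        · omega
        · rw [card_three_pow, he]; rfl
        · omega)
      rw [card_three_pow (W := W), hd, h13] at this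
      norm_num at this
    · have := hsum 3 (fun g hgne => by
        rcases key _ (hg g hgne) with ⟨h, _⟩ | ⟨_, ⟨h, _⟩ | ⟨_, he⟩⟩
        · omega
        · omega
        · rw [card_three_pow, he]; rfl)
      rw [card_three_pow (W := W), hd, h13] at this
      norm_num at this
  · intro hnt
    obtain ⟨y, hy⟩ := exists_ne (1 : Y)
    rcases key y hy with ⟨h, _⟩ | ⟨h, _⟩
    · exact Or.inl h
    · exact Or.inr h

end smallrep

section odd

variable {S E : Type*} [Group S] [AddCommGroup E] [Module (ZMod 3) E]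
variable (ρ : Representation (ZMod 3) S E)

/-- Elements acting trivially modulo the subspace `W`. -/
def QW (W : Submodule (ZMod 3) E) : Subgroup S where
  carrier := {d | (∀ x, ρ d x - x ∈ W) ∧ (∀ x, ρ d⁻¹ x - x ∈ W)}
  one_mem' := by
    refine ⟨fun x => ?_, fun x => ?_⟩ <;> simp
  mul_mem' := by
    rintro a c ⟨ha, ha'⟩ ⟨hc, hc'⟩
    refine ⟨fun x => ?_, fun x => ?_⟩
    · have : ρ (a * c) x - x = (ρ a (ρ c x) - ρ c x) + (ρ c x - x) := by rw [rm]; abel
      rw [this]; exact W.add_mem (ha _) (hc _)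
    · have : ρ (a * c)⁻¹ x - x = (ρ c⁻¹ (ρ a⁻¹ x) - ρ a⁻¹ x) + (ρ a⁻¹ x - x) := by
        rw [mul_inv_rev, rm]; abel
      rw [this]; exact W.add_mem (hc' _) (ha' _)
  inv_mem' := by
    rintro a ⟨ha, ha'⟩
    refine ⟨ha', fun x => ?_⟩
    rw [inv_inv]; exact ha x

variable {ρ}

theorem mem_QW {W : Submodule (ZMod 3) E} {d : S} :
    d ∈ QW ρ W ↔ (∀ x, ρ d x - x ∈ W) ∧ (∀ x, ρ d⁻¹ x - x ∈ W) := Iff.rfl

theorem QW_mono {W W' : Submodule (ZMod 3) E} (h : W ≤ W') : QW ρ W ≤ QW ρ W' :=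
  fun _ hd => ⟨fun x => h (hd.1 x), fun x => h (hd.2 x)⟩

theorem QW_pres {W : Submodule (ZMod 3) E} {d : S} (hd : d ∈ QW ρ W) {w : E} (hw : w ∈ W) :
    ρ d w ∈ W := by
  have : ρ d w = (ρ d w - w) + w := by abel
  rw [this]; exact W.add_mem (hd.1 w) hw

theorem QW_conj {W : Submodule (ZMod 3) E} {d : S} (hd : d ∈ QW ρ W) (j : S) :
    j * d * j⁻¹ ∈ QW ρ (W.map (ρ j)) := by
  have key : ∀ (d' : S), (∀ x, ρ d' x - x ∈ W) → ∀ x, ρ (j * d' * j⁻¹) x - x ∈ W.map (ρ j) := by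
    intro d' hd' x
    have : ρ (j * d' * j⁻¹) x - x = ρ j (ρ d' (ρ j⁻¹ x) - ρ j⁻¹ x) := by
      rw [rm, rm, map_sub, rinvr]
    rw [this]
    exact Submodule.mem_map_of_mem (hd' _)
  refine ⟨key d hd.1, fun x => ?_⟩
  have : (j * d * j⁻¹)⁻¹ = j * d⁻¹ * j⁻¹ := by group
  rw [this]
  exact key d⁻¹ hd.2 x

/-- Elements of `r`-groups, `r ≠ 3`, have order prime to 3. -/
theorem ord_cop {r : ℕ} (hr : r.Prime) (hr3 : r ≠ 3) {J : Subgroup S} (hJ : IsPGroup r J) {z : S}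
    (hz : z ∈ J) : (orderOf z).Coprime 3 := by
  obtain ⟨k, hk⟩ := hJ ⟨z, hz⟩
  have h1 : z ^ r ^ k = 1 := by
    have := congrArg Subtype.val hk
    simpa using this
  have h2 : orderOf z ∣ r ^ k := orderOf_dvd_of_pow_eq_one h1
  exact Nat.Coprime.coprime_dvd_left h2
    (Nat.Coprime.pow_left k ((Nat.coprime_primes hr Nat.prime_three).2 hr3))

theorem qw_small [Finite S] [Finite E] (hf : Function.Injective ρ) {r : ℕ} (hr : r.Prime)
    (hr2 : r ≠ 2) (hr3 : r ≠ 3) {J : Subgroup S} (hJ : IsPGroup r J)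
    (W : Submodule (ZMod 3) E) (hW : finrank (ZMod 3) W ≤ 4) :
    Nat.card ↥(QW ρ W ⊓ J) ≤ r ∧ (Nontrivial ↥(QW ρ W ⊓ J) → r = 5 ∨ r = 13) := by
  have hcard : Nat.card W ≤ 81 := by
    rw [card_three_pow]
    calc 3 ^ finrank (ZMod 3) W ≤ 3 ^ 4 := Nat.pow_le_pow_right (by norm_num) hW
      _ = 81 := by norm_num
  let τ : ↥(QW ρ W ⊓ J) →* (W →ₗ[ZMod 3] W) :=
    { toFun := fun y => (ρ (y : S)).restrict (fun w hw => QW_pres y.2.1 hw)
      map_one' := by
        ext w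
        simp
      map_mul' := by
        intro y y'
        ext w
        simp }
  refine small_rep hr hr2 hr3 (hJ.to_le inf_le_right) hcard τ ?_
  intro y y' hyy
  have hw : ∀ w ∈ W, ρ (y : S) w = ρ (y' : S) w := by
    intro w hwW
    have := congrArg (fun f => ((f ⟨w, hwW⟩ : W) : E)) hyy
    simpa [τ] using this
  set z : S := (y : S)⁻¹ * y' with hz
  have hzJ : z ∈ J := J.mul_mem (J.inv_mem y.2.2) y'.2.2
  have hzQ : z ∈ QW ρ W := (QW ρ W).mul_mem ((QW ρ W).inv_mem y.2.1) y'.2.1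
  have hz1 : z = 1 := by
    apply one_of_sq ρ hf (ord_cop hr hr3 hJ hzJ)
    intro x
    have hm : ρ z x - x ∈ W := hzQ.1 x
    rw [hz, rm, ← hw _ hm, rinvl]
  apply Subtype.ext
  have : (y : S)⁻¹ * y' = 1 := hz1
  exact (inv_mul_eq_one.1 this)

/-- The basic dichotomy: a nontrivial element of `QW W ⊓ J` generates `QW W ⊓ J`. -/
theorem qw_gen [Finite S] [Finite E] (hf : Function.Injective ρ) {r : ℕ} (hr : r.Prime)
    (hr2 : r ≠ 2) (hr3 : r ≠ 3) {J : Subgroup S} (hJ : IsPGroup r J)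
    (W : Submodule (ZMod 3) E) (hW : finrank (ZMod 3) W ≤ 4) {h : S} (hh : h ∈ QW ρ W ⊓ J)
    (hne : h ≠ 1) : orderOf h = r ∧ (r = 5 ∨ r = 13) ∧ ∀ y ∈ QW ρ W ⊓ J, y ∈ Subgroup.zpowers h := by
  obtain ⟨h1, h2⟩ := qw_small hf hr hr2 hr3 hJ W hW
  have : Fact r.Prime := ⟨hr⟩
  let h' : ↥(QW ρ W ⊓ J) := ⟨h, hh⟩
  have hne' : h' ≠ 1 := fun e => hne (congrArg Subtype.val e)
  have hnt : Nontrivial ↥(QW ρ W ⊓ J) := ⟨⟨h', 1, hne'⟩⟩
  have hY : IsPGroup r ↥(QW ρ W ⊓ J) := hJ.to_le inf_le_right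
  obtain ⟨n, hn⟩ := (IsPGroup.iff_card (p := r)).1 hY
  have hcard : Nat.card ↥(QW ρ W ⊓ J) = r := by
    have hn0 : n ≠ 0 := by
      rintro rfl
      have : Nat.card ↥(QW ρ W ⊓ J) = 1 := by simpa using hn
      have hs : Subsingleton ↥(QW ρ W ⊓ J) := (Nat.card_eq_one_iff_unique.1 this).1
      exact hne' (Subsingleton.elim _ _)
    have hle : r ^ n ≤ r := by rw [← hn]; exact h1
    have hn1 : n = 1 := by
      by_contra hn1
      have : 2 ≤ n := by omega
      have h3 : r ^ 2 ≤ r ^ n := Nat.pow_le_pow_right hr.pos this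
      have := hr.two_le
      nlinarith
    rw [hn, hn1, pow_one]
  have htop : Subgroup.zpowers h' = ⊤ := zpowers_eq_top_of_prime_card hcard hne'
  refine ⟨?_, h2 hnt, ?_⟩
  · have h4 : orderOf h' = r := by
      rw [← Nat.card_zpowers, htop, Subgroup.card_top, hcard]
    rw [← h4, Subgroup.orderOf_mk]
  · intro y hy
    have : (⟨y, hy⟩ : ↥(QW ρ W ⊓ J)) ∈ Subgroup.zpowers h' := by rw [htop]; trivial
    obtain ⟨k, hk⟩ := Subgroup.mem_zpowers_iff.1 this
    refine Subgroup.mem_zpowers_iff.2 ⟨k, ?_⟩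
    have := congrArg Subtype.val hk
    simpa [h'] using this

/-- Iterated conjugation. -/
theorem conj_iter {b g : S} {n : ℕ} (h : b * g * b⁻¹ = g ^ n) (t : ℕ) :
    b ^ t * g * (b ^ t)⁻¹ = g ^ (n ^ t) := by
  induction t with
  | zero => simp
  | succ t ih =>
    have : b ^ (t + 1) * g * (b ^ (t + 1))⁻¹ = b * (b ^ t * g * (b ^ t)⁻¹) * b⁻¹ := by
      rw [pow_succ']; group
    rw [this, ih, ← conj_pow, h, ← pow_mul, pow_succ, mul_comm]

theorem nat_exp [Finite S] {g x : S} (h : x ∈ Subgroup.zpowers g) : ∃ n : ℕ, x = g ^ n := by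
  have : x ∈ Submonoid.powers g := by
    rw [mem_powers_iff_mem_zpowers]; exact h
  obtain ⟨n, hn⟩ := Submonoid.mem_powers_iff _ _ |>.1 this
  exact ⟨n, hn.symm⟩

/-- An automorphism of order dividing 3 of a cyclic group of order 5 is trivial. -/
theorem comm_of_five [Finite S] {b h : S} (hb3 : b ^ 3 = 1) (ho : orderOf h = 5)
    (hm : b * h * b⁻¹ ∈ Subgroup.zpowers h) : h * b = b * h := by
  obtain ⟨n, hn⟩ := nat_exp hm
  have h1 := conj_iter hn 3
  rw [hb3] at h1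
  simp only [one_mul, inv_one, mul_one] at h1
  have h2 : h ^ 1 = h ^ (n ^ 3) := by rw [pow_one]; exact h1
  have h3 : 1 ≡ n ^ 3 [MOD 5] := by
    rw [← ho]; exact (pow_eq_pow_iff_modEq).1 h2
  have h4 : n % 5 = 1 := by
    have h5 : (n ^ 3) % 5 = 1 := by simpa [Nat.ModEq] using h3.symm
    rw [Nat.pow_mod] at h5
    have h6 : n % 5 < 5 := Nat.mod_lt _ (by norm_num)
    have h9 : ∀ a, a < 5 → a ^ 3 % 5 = 1 → a = 1 := by decide
    exact h9 _ h6 h5
  have h7 : h ^ n = h := by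
    have : n ≡ 1 [MOD orderOf h] := by rw [ho]; simpa [Nat.ModEq] using h4
    have := (pow_eq_pow_iff_modEq).2 this
    rwa [pow_one] at this
  have h8 : b * h * b⁻¹ = h := by rw [hn, h7]
  rw [mul_inv_eq_iff_eq_mul] at h8
  exact h8.symm

/-- A normal subgroup of order 13 is central in a 13-group. -/
theorem comm_of_thirteen [Finite S] {x g : S} {m : ℕ} (hx : x ^ 13 ^ m = 1) (ho : orderOf g = 13)
    (hm : x * g * x⁻¹ ∈ Subgroup.zpowers g) : x * g = g * x := by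
  obtain ⟨n, hn⟩ := nat_exp hm
  have h1 := conj_iter hn (13 ^ m)
  rw [hx] at h1
  simp only [one_mul, inv_one, mul_one] at h1
  have h2 : g ^ 1 = g ^ (n ^ (13 ^ m)) := by rw [pow_one]; exact h1
  have h3 : 1 ≡ n ^ (13 ^ m) [MOD orderOf g] := (pow_eq_pow_iff_modEq).1 h2
  rw [ho] at h3
  have : Fact (13 : ℕ).Prime := ⟨by norm_num⟩
  have h4 : (n : ZMod 13) = 1 := by
    have h5 : ((n ^ (13 ^ m) : ℕ) : ZMod 13) = ((1 : ℕ) : ZMod 13) :=
      ((ZMod.natCast_eq_natCast_iff _ _ _).2 h3).symm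
    push_cast at h5
    rwa [ZMod.pow_card_pow] at h5
  have h7 : g ^ n = g := by
    have : n ≡ 1 [MOD orderOf g] := by
      rw [ho]
      apply (ZMod.natCast_eq_natCast_iff _ _ _).1
      simpa using h4
    have := (pow_eq_pow_iff_modEq).2 this
    rwa [pow_one] at this
  have h8 : x * g * x⁻¹ = g := by rw [hn, h7]
  rw [mul_inv_eq_iff_eq_mul] at h8
  exact h8

end odd

section main

variable {S E : Type*} [Group S] [AddCommGroup E] [Module (ZMod 3) E]
variable {ρ : Representation (ZMod 3) S E}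

/-- The subspace `U₀`. -/
def U0 (u s : E) : Submodule (ZMod 3) E := Submodule.span (ZMod 3) {u, s}

theorem inU_iff {u s x : E} : BD.InU u s x ↔ x ∈ U0 u s := by
  unfold BD.InU U0
  rw [Submodule.mem_span_pair]
  constructor
  · rintro ⟨a, c, rfl⟩; exact ⟨a, c, rfl⟩
  · rintro ⟨a, c, rfl⟩; exact ⟨a, c, rfl⟩

theorem b_mem_QW {b : S} {u s v : E} (h : BD ρ b u s v) : b ∈ QW ρ (U0 u s) :=
  ⟨fun x => inU_iff.1 (h.inU_n x), fun x => inU_iff.1 (h.binv_sub x)⟩

theorem finrank_U0 {b : S} {u s v : E} (h : BD ρ b u s v) : finrank (ZMod 3) (U0 u s) = 2 := by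
  have hli : LinearIndependent (ZMod 3) ![u, s] := LinearIndependent.pair_iff.2 h.ind
  have h1 := finrank_span_eq_card hli
  have h2 : Set.range ![u, s] = {u, s} := by
    ext x
    simp [eq_comm, or_comm]
  rw [h2] at h1
  unfold U0
  rw [h1]
  simp

/-- The range of `ρ g - 1`. -/
abbrev VV (ρ : Representation (ZMod 3) S E) (g : S) : Submodule (ZMod 3) E :=
  LinearMap.range (ρ g - 1)

theorem sub_mem_VV (g : S) (x : E) : ρ g x - x ∈ VV ρ g :=
  ⟨x, by simp⟩

theorem mem_QW_VV (g : S) : g ∈ QW ρ (VV ρ g) := by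
  refine ⟨sub_mem_VV g, fun x => ?_⟩
  have : ρ g⁻¹ x - x = -(ρ g (ρ g⁻¹ x) - ρ g⁻¹ x) := by rw [rinvr]; abel
  rw [this]
  exact (VV ρ g).neg_mem (sub_mem_VV g _)

theorem pow_sub_mem_VV (g : S) (n : ℕ) (z : E) : ρ (g ^ n) z - z ∈ VV ρ g := by
  induction n generalizing z with
  | zero => simp
  | succ n ih =>
    have : ρ (g ^ (n + 1)) z - z = (ρ (g ^ n) (ρ g z) - ρ g z) + (ρ g z - z) := by
      rw [pow_succ, rm]; abel
    rw [this]
    exact (VV ρ g).add_mem (ih _) (sub_mem_VV g z)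

theorem pow_fix {g : S} {x : E} (hx : ρ g x = x) (n : ℕ) : ρ (g ^ n) x = x := by
  induction n with
  | zero => simp
  | succ n ih => rw [pow_succ, rm, hx, ih]

theorem VV_fpf {g : S} (ho : orderOf g = 13) {x : E} (hxV : x ∈ VV ρ g) (hx : ρ g x = x) :
    x = 0 := by
  obtain ⟨y, rfl⟩ := hxV
  set w : E := (ρ g - 1) y with hw
  have hwy : ρ g y = y + w := by rw [hw]; simp
  have hn : ∀ n : ℕ, ρ (g ^ n) y = y + n • w := by
    intro n
    induction n with
    | zero => simp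
    | succ n ih =>
      rw [pow_succ', rm, ih, map_add, map_nsmul, hx, hwy, succ_nsmul]
      abel
  have h13 := hn 13
  have hg : g ^ 13 = 1 := by rw [← ho]; exact pow_orderOf_eq_one g
  rw [hg, r1] at h13
  have h0 : 13 • w = 0 := by
    have := h13
    exact (left_eq_add.1 this)
  have h1 : (13 : ℕ) • w = ((13 : ZMod 3)) • w := by
    rw [← Nat.cast_smul_eq_nsmul (ZMod 3)]; rfl
  rw [h1] at h0
  have h2 : (13 : ZMod 3) = 1 := rfl
  rwa [h2, one_smul] at h0

theorem U0_le_VV [Finite S] [Finite E] (hf : Function.Injective ρ) {b : S} {u s v : E}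
    (h : BD ρ b u s v) {g : S} (ho : orderOf g = 13)
    (hc : (orderOf (b⁻¹ * g * b * g⁻¹)).Coprime 3)
    (hb1 : b * g * b⁻¹ ∈ Subgroup.zpowers g) (hb2 : b⁻¹ * g * b ∈ Subgroup.zpowers g)
    (hnc : g * b ≠ b * g) : U0 u s ≤ VV ρ g := by
  have : Module.Finite (ZMod 3) E := Module.Finite.of_finite
  set C : Submodule (ZMod 3) E := LinearMap.ker (ρ g - 1) with hC
  have memC : ∀ x, x ∈ C ↔ ρ g x = x := by
    intro x
    simp [hC, sub_eq_zero]
  have hdis : Disjoint C (VV ρ g) := by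
    rw [Submodule.disjoint_def]
    intro x hx hxV
    exact VV_fpf ho hxV ((memC x).1 hx)
  have hsup : C ⊔ VV ρ g = ⊤ := by
    apply Submodule.eq_top_of_disjoint _ _ _ hdis
    have h3 : finrank (ZMod 3) (VV ρ g) + finrank (ZMod 3) C = finrank (ZMod 3) E :=
      LinearMap.finrank_range_add_finrank_ker (ρ g - 1)
    omega
  obtain ⟨m, hm⟩ := nat_exp hb2
  obtain ⟨n, hn⟩ := nat_exp hb1
  have h1 : ∀ x ∈ C, ρ b x ∈ C := by
    intro x hx
    rw [memC] at hx ⊢
    have e : g * b = b * (b⁻¹ * g * b) := by group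
    rw [← rm, e, hm, rm, pow_fix hx]
  have h2 : ∀ x ∈ VV ρ g, ρ b x ∈ VV ρ g := by
    rintro x ⟨y, rfl⟩
    have e : b * g = (b * g * b⁻¹) * b := by group
    have : ρ b ((ρ g - 1) y) = ρ (g ^ n) (ρ b y) - ρ b y := by
      simp only [LinearMap.sub_apply, Module.End.one_apply, map_sub]
      rw [← rm, e, hn, rm]
    rw [this]
    exact pow_sub_mem_VV g n _
  rcases h.dich C (VV ρ g) hsup h1 h2 with ⟨hu, hs⟩ | ⟨hu, hs⟩
  · exfalso
    apply hnc
    have hU : ∀ x, BD.InU u s x → x ∈ C := by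
      rintro x ⟨α, β, rfl⟩
      exact C.add_mem (C.smul_mem _ hu) (C.smul_mem _ hs)
    have := BD.comm_of_triv hf h (a := g) hc (fun x hx => (memC x).1 (hU x hx))
      (fun x hx => by rw [hm]; exact pow_fix ((memC x).1 (hU x hx)) m)
    rw [mul_inv_eq_one] at this
    calc g * b = b * (b⁻¹ * g * b) := by group
      _ = b * g := by rw [this]
  · refine Submodule.span_le.2 ?_
    rintro x (rfl | rfl)
    · exact hu
    · exact hs

theorem finrank_VV [Finite E] {g : S} (ho : orderOf g = 13) (h2 : 2 ≤ finrank (ZMod 3) (VV ρ g))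
    (h4 : finrank (ZMod 3) (VV ρ g) ≤ 4) : finrank (ZMod 3) (VV ρ g) = 3 := by
  have : Fact (13 : ℕ).Prime := ⟨by norm_num⟩
  have hinv : ∀ x ∈ VV ρ g, ρ g x ∈ VV ρ g := fun x hx => QW_pres (mem_QW_VV g) hx
  let f : (VV ρ g) →ₗ[ZMod 3] (VV ρ g) := (ρ g).restrict hinv
  have hf : ∀ (n : ℕ) (x : VV ρ g), (((f ^ n) x : VV ρ g) : E) = ρ (g ^ n) x := by
    intro n
    induction n with
    | zero => intro x; simp
    | succ n ih =>
      intro x
      rw [pow_succ, Module.End.mul_apply, ih, pow_succ, rm]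
      rfl
  have hf13 : f ^ 13 ^ 1 = 1 := by
    ext x
    rw [hf]
    have hg : g ^ 13 ^ 1 = 1 := by rw [pow_one, ← ho]; exact pow_orderOf_eq_one g
    rw [hg, r1]; rfl
  have h1 := card_modEq_ker f hf13
  have hker : LinearMap.ker (f - 1) = ⊥ := by
    rw [Submodule.eq_bot_iff]
    intro x hx
    have hx' : f x = x := by
      have := LinearMap.mem_ker.1 hx
      simpa [sub_eq_zero] using this
    have hx2 : ρ g (x : E) = x := congrArg Subtype.val hx'
    exact Subtype.ext (VV_fpf ho x.2 hx2)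
  rw [hker, card_three_pow (W := VV ρ g)] at h1
  have h5 : Nat.card (⊥ : Submodule (ZMod 3) (VV ρ g)) = 1 := by simp
  rw [h5] at h1
  generalize finrank (ZMod 3) (VV ρ g) = a at *
  have : a = 2 ∨ a = 3 ∨ a = 4 := by omega
  rcases this with rfl | rfl | rfl
  · exact absurd h1 (by decide)
  · rfl
  · exact absurd h1 (by decide)

theorem odd_lemma [Finite S] [Finite E] (hf : Function.Injective ρ)
    {b : S} {u s v : E} (h : BD ρ b u s v) (J : Subgroup S) {r : ℕ} (hr : r.Prime) (hr2 : r ≠ 2)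
    (hr3 : r ≠ 3) (hJ : IsPGroup r J) (hJb : ∀ j ∈ J, b * j * b⁻¹ ∈ J)
    (hne : ∃ j ∈ J, b⁻¹ * (j * b * j⁻¹) ≠ 1) :
    r = 13 ∧ ∃ g ∈ J, orderOf g = 13 ∧ b * g * b⁻¹ ∈ Subgroup.zpowers g ∧ g * b ≠ b * g ∧
      (∀ j ∈ J, b⁻¹ * (j * b * j⁻¹) ∈ Subgroup.zpowers g) ∧ (∀ j ∈ J, j * g = g * j) := by
  have : Module.Finite (ZMod 3) E := Module.Finite.of_finite
  have hb3 := h.b3
  have hb3' : b * b * b = 1 := by rw [← hb3, pow_succ, pow_two]
  have e1 : b * b = b⁻¹ := eq_inv_of_mul_eq_one_left hb3'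
  have e2 : b⁻¹ * b⁻¹ = b := by
    rw [← e1]
    calc b * b * (b * b) = (b * b * b) * b := by simp only [mul_assoc]
      _ = b := by rw [hb3', one_mul]
  have hJb' : ∀ j ∈ J, b⁻¹ * j * b ∈ J := by
    intro j hj
    have : b⁻¹ * j * b = b * (b * j * b⁻¹) * b⁻¹ := by
      calc b⁻¹ * j * b = (b * b) * j * (b⁻¹ * b⁻¹) := by rw [e1, e2]
        _ = b * (b * j * b⁻¹) * b⁻¹ := by group
    rw [this]
    exact hJb _ (hJb _ hj)
  -- the subspaces `T j`
  let T : S → Submodule (ZMod 3) E := fun j => U0 u s ⊔ (U0 u s).map (ρ j)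
  have hU2 := finrank_U0 h
  have hT4 : ∀ j, finrank (ZMod 3) (T j) ≤ 4 := by
    intro j
    have h1 := Submodule.finrank_add_le_finrank_add_finrank (U0 u s) ((U0 u s).map (ρ j))
    have h2 : finrank (ZMod 3) ((U0 u s).map (ρ j)) ≤ finrank (ZMod 3) (U0 u s) :=
      Submodule.finrank_map_le _ _
    change finrank (ZMod 3) ↥(U0 u s ⊔ (U0 u s).map (ρ j)) ≤ 4
    omega
  let H : S → S := fun j => b⁻¹ * (j * b * j⁻¹)
  have hHJ : ∀ j ∈ J, H j ∈ J := by
    intro j hj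
    have : H j = (b⁻¹ * j * b) * j⁻¹ := by simp only [H]; group
    rw [this]
    exact J.mul_mem (hJb' j hj) (J.inv_mem hj)
  have hHQ : ∀ j, H j ∈ QW ρ (T j) := by
    intro j
    refine (QW ρ (T j)).mul_mem ((QW ρ (T j)).inv_mem ?_) ?_
    · exact QW_mono le_sup_left (b_mem_QW h)
    · exact QW_mono le_sup_right (QW_conj (b_mem_QW h) j)
  have hbconj : ∀ W : Submodule (ZMod 3) E, U0 u s ≤ W → ∀ y ∈ QW ρ W ⊓ J,
      b * y * b⁻¹ ∈ QW ρ W ⊓ J ∧ b⁻¹ * y * b ∈ QW ρ W ⊓ J := by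
    intro W hW y hy
    have hbW : b ∈ QW ρ W := QW_mono hW (b_mem_QW h)
    refine ⟨⟨?_, hJb y hy.2⟩, ⟨?_, hJb' y hy.2⟩⟩
    · exact (QW ρ W).mul_mem ((QW ρ W).mul_mem hbW hy.1) ((QW ρ W).inv_mem hbW)
    · exact (QW ρ W).mul_mem ((QW ρ W).mul_mem ((QW ρ W).inv_mem hbW) hy.1) hbW
  -- `H j ≠ 1` does not commute with `b`
  have hnc : ∀ j ∈ J, H j ≠ 1 → H j * b ≠ b * H j := by
    intro j hj hne1 hcom
    have h1 : b * H j = j * b * j⁻¹ := by simp only [H]; group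
    have h2 : (b * H j) ^ 3 = 1 := by
      rw [h1, conj_pow, hb3]; group
    have hcomm : Commute b (H j) := hcom.symm
    rw [hcomm.mul_pow, hb3, one_mul] at h2
    have h3 : orderOf (H j) ∣ 3 := orderOf_dvd_of_pow_eq_one h2
    have h4 := ord_cop hr hr3 hJ (hHJ j hj)
    have h5 : orderOf (H j) = 1 := Nat.Coprime.eq_one_of_dvd h4 h3
    exact hne1 (orderOf_eq_one_iff.1 h5)
  -- all the structure for a nontrivial `H j`
  have hstruct : ∀ j ∈ J, H j ≠ 1 → orderOf (H j) = r ∧ (r = 5 ∨ r = 13) ∧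
      b * H j * b⁻¹ ∈ Subgroup.zpowers (H j) ∧ b⁻¹ * H j * b ∈ Subgroup.zpowers (H j) := by
    intro j hj hne1
    have hmem : H j ∈ QW ρ (T j) ⊓ J := ⟨hHQ j, hHJ j hj⟩
    obtain ⟨h1, h2, h3⟩ := qw_gen hf hr hr2 hr3 hJ (T j) (hT4 j) hmem hne1
    obtain ⟨h4, h5⟩ := hbconj (T j) le_sup_left _ hmem
    exact ⟨h1, h2, h3 _ h4, h3 _ h5⟩
  obtain ⟨j₀, hj₀, hg1⟩ := hne
  have hg1' : H j₀ ≠ 1 := hg1
  obtain ⟨ho₀, hr513, hb1₀, hb2₀⟩ := hstruct j₀ hj₀ hg1'
  have hr13 : r = 13 := by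
    rcases hr513 with h5 | h13
    · exfalso
      rw [h5] at ho₀
      exact hnc j₀ hj₀ hg1' (comm_of_five hb3 ho₀ hb1₀)
    · exact h13
  subst hr13
  -- for nontrivial `H j` : the subspace `VV`
  have hVV : ∀ j ∈ J, H j ≠ 1 → U0 u s ≤ VV ρ (H j) ∧ finrank (ZMod 3) (VV ρ (H j)) = 3 := by
    intro j hj hne1
    obtain ⟨ho, _, hb1, hb2⟩ := hstruct j hj hne1
    have hcop : (orderOf (b⁻¹ * H j * b * (H j)⁻¹)).Coprime 3 :=
      ord_cop hr hr3 hJ (J.mul_mem (hJb' _ (hHJ j hj)) (J.inv_mem (hHJ j hj)))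
    have hU := U0_le_VV hf h ho hcop hb1 hb2 (hnc j hj hne1)
    refine ⟨hU, ?_⟩
    have hle : VV ρ (H j) ≤ T j := by
      rintro x ⟨y, rfl⟩
      have := (hHQ j).1 y
      simpa using this
    have h2 : 2 ≤ finrank (ZMod 3) (VV ρ (H j)) := by
      rw [← hU2]; exact Submodule.finrank_mono hU
    have h4 : finrank (ZMod 3) (VV ρ (H j)) ≤ 4 :=
      (Submodule.finrank_mono hle).trans (hT4 j)
    exact finrank_VV ho h2 h4
  obtain ⟨hUg, hVg⟩ := hVV j₀ hj₀ hg1'
  have hall : ∀ j ∈ J, H j ∈ Subgroup.zpowers (H j₀) := by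
    intro j hj
    by_cases hj1 : H j = 1
    · rw [hj1]; exact Subgroup.one_mem _
    obtain ⟨hUj, hVj⟩ := hVV j hj hj1
    set W := VV ρ (H j₀) ⊔ VV ρ (H j) with hW
    have hW4 : finrank (ZMod 3) W ≤ 4 := by
      have h1 := Submodule.finrank_sup_add_finrank_inf_eq (VV ρ (H j₀)) (VV ρ (H j))
      have h2 : 2 ≤ finrank (ZMod 3) ↥(VV ρ (H j₀) ⊓ VV ρ (H j)) := by
        rw [← hU2]; exact Submodule.finrank_mono (le_inf hUg hUj)
      rw [hW]
      omega
    have hgW : H j₀ ∈ QW ρ W ⊓ J := ⟨QW_mono le_sup_left (mem_QW_VV _), hHJ j₀ hj₀⟩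
    have hjW : H j ∈ QW ρ W ⊓ J := ⟨QW_mono le_sup_right (mem_QW_VV _), hHJ j hj⟩
    exact (qw_gen hf hr hr2 hr3 hJ W hW4 hgW hg1').2.2 _ hjW
  refine ⟨rfl, H j₀, hHJ j₀ hj₀, ho₀, hb1₀, hnc j₀ hj₀ hg1', hall, ?_⟩
  intro x hx
  have hnorm : x * H j₀ * x⁻¹ ∈ Subgroup.zpowers (H j₀) := by
    have : x * H j₀ * x⁻¹ = (H x)⁻¹ * H (x * j₀) := by simp only [H]; group
    rw [this]
    exact Subgroup.mul_mem _ (Subgroup.inv_mem _ (hall x hx)) (hall _ (J.mul_mem hx hj₀))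
  obtain ⟨m, hm⟩ := hJ ⟨x, hx⟩
  have hm' : x ^ 13 ^ m = 1 := by
    have := congrArg Subtype.val hm
    simpa using this
  exact comm_of_thirteen hm' ho₀ hnorm

end main

end Cfsg.Agent.Lib.S4415
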