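import Mathlib

/-!
# S4415, piece Z: a four-group permuted by `β` of order three centralizes an abelian odd group whose
`β`-commutators lie in a group of order dividing `13`.
-/

namespace Cfsg.Agent.Lib.S4415

section ZLemma

variable {G₀ : Type*} [Group G₀]

private theorem z_conj_zpow (π x : G₀) (k : ℤ) : π * x ^ k * π⁻¹ = (π * x * π⁻¹) ^ k := by
  have := map_zpow (MulAut.conj π) x k
  simp only [MulAut.conj_apply] at this
  exact this

private theorem z_conj_mul (π x y : G₀) : π * (x * y) * π⁻¹ = (π * x * π⁻¹) * (π * y * π⁻¹) := by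
  group

private theorem z_core [Finite G₀] (β : G₀ →* G₀) (hβ : ∀ x, β (β (β x)) = x)
    (M : Subgroup G₀) (hab : ∀ x ∈ M, ∀ y ∈ M, x * y = y * x)
    (hodd : Nat.Coprime (Nat.card M) 2) (hMβ : ∀ m ∈ M, β m ∈ M)
    (g : G₀) (hg : g ^ 13 = 1) (hM : ∀ m ∈ M, m⁻¹ * β m ∈ Subgroup.zpowers g)
    (π x : G₀) (hx : x ∈ M) (hx1 : x ≠ 1) (hπ : π * x * π⁻¹ = x)
    (h1 : β π * x * (β π)⁻¹ = x⁻¹) (h2 : β (β π) * x * (β (β π))⁻¹ = x⁻¹) : False := by
  classical
  have hodd1 : ∀ z ∈ M, z * z = 1 → z = 1 := by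
    intro z hz hzz
    have h2' : orderOf z ∣ 2 := orderOf_dvd_of_pow_eq_one (by rw [pow_two]; exact hzz)
    have h3 : orderOf z ∣ Nat.card M := by
      have := orderOf_dvd_natCard (⟨z, hz⟩ : M)
      rwa [Subgroup.orderOf_mk] at this
    have h4 : orderOf z ∣ Nat.gcd (Nat.card M) 2 := Nat.dvd_gcd h3 h2'
    rw [hodd] at h4
    exact orderOf_eq_one_iff.mp (Nat.dvd_one.mp h4)
  have hinj : Function.Injective β := fun a b h => by
    have := congrArg (fun z => β (β z)) h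
    simpa [hβ] using this
  set y := β x with hy
  set w := β y with hw
  have hyM : y ∈ M := hMβ x hx
  have hwM : w ∈ M := hMβ y hyM
  have hcxy : Commute x y := hab x hx y hyM
  -- action of `π`
  have hπy : π * y * π⁻¹ = y⁻¹ := by
    have := congrArg β h2
    simpa [hβ, map_mul, map_inv] using this
  have hπw : π * w * π⁻¹ = w⁻¹ := by
    have := congrArg (fun z => β (β z)) h1
    simpa [hβ, map_mul, map_inv] using this
  -- action of `β π`
  have hσy : β π * y * (β π)⁻¹ = y := by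
    have := congrArg β hπ
    simpa [map_mul, map_inv] using this
  have hσw : β π * w * (β π)⁻¹ = w⁻¹ := by
    have := congrArg β hπy
    simpa [map_mul, map_inv] using this
  -- `α`
  set α := x⁻¹ * y with hα
  have hαg : α ∈ Subgroup.zpowers g := hM x hx
  have hα1 : α ≠ 1 := by
    intro h
    have hyx : y = x := by
      have := inv_mul_eq_one.mp h
      exact this.symm
    have : x = x⁻¹ := by
      rw [hyx] at hσy
      exact hσy.symm.trans h1
    apply hx1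
    apply hodd1 x hx
    nth_rewrite 1 [this]
    simp
  have hg1 : orderOf g = 13 := by
    have hd : orderOf g ∣ 13 := orderOf_dvd_of_pow_eq_one hg
    rcases (Nat.dvd_prime (by norm_num : Nat.Prime 13)).mp hd with h | h
    · exfalso
      have : g = 1 := orderOf_eq_one_iff.mp h
      subst this
      apply hα1
      simpa using hαg
    · exact h
  have hgen : Subgroup.zpowers α = Subgroup.zpowers g := by
    have hle : Subgroup.zpowers α ≤ Subgroup.zpowers g := by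
      rw [Subgroup.zpowers_le]; exact hαg
    have hcg : Nat.card (Subgroup.zpowers g) = 13 := by rw [Nat.card_zpowers, hg1]
    have hdvd : Nat.card (Subgroup.zpowers α) ∣ 13 := by
      rw [← hcg]; exact Subgroup.card_dvd_of_le hle
    rcases (Nat.dvd_prime (by norm_num : Nat.Prime 13)).mp hdvd with h | h
    · exfalso
      rw [Nat.card_zpowers] at h
      exact hα1 (orderOf_eq_one_iff.mp h)
    · exact Subgroup.eq_of_le_of_card_ge hle (by rw [h, hcg])
  have hyw : y⁻¹ * w ∈ Subgroup.zpowers α := by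
    rw [hgen]; exact hM y hyM
  obtain ⟨k, hk⟩ := Subgroup.mem_zpowers_iff.mp hyw
  -- `w = x^(-k) y^(k+1)`
  have hw1 : w = x ^ (-k) * y ^ (k + 1) := by
    have h3 : (x⁻¹ * y) ^ k = x ^ (-k) * y ^ k := by
      have hc : Commute x⁻¹ y := hcxy.inv_left
      rw [hc.mul_zpow, inv_zpow']
    have h4 : w = y * (y⁻¹ * w) := by group
    rw [h4, ← hk, hα, h3, ← mul_assoc, zpow_add_one]
    have hc : Commute y (x ^ (-k)) := (hcxy.zpow_left (-k)).symm
    rw [hc.eq, mul_assoc]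
    congr 1
    exact ((Commute.refl y).zpow_right k).eq
  have hwinv : w⁻¹ = x ^ k * y ^ (-(k + 1)) := by
    rw [hw1, mul_inv_rev, ← zpow_neg, ← zpow_neg, neg_neg]
    exact ((hcxy.zpow_zpow k (-(k + 1))).symm).eq
  -- conjugation by `π`
  have e1 : x ^ (2 * k) = 1 := by
    have h5 : π * w * π⁻¹ = x ^ (-k) * y ^ (-(k + 1)) := by
      rw [hw1, z_conj_mul, z_conj_zpow, z_conj_zpow, hπ, hπy, inv_zpow']
    rw [hπw, hwinv] at h5
    have h6 := mul_right_cancel h5
    have : x ^ (2 * k) = x ^ k * x ^ k := by rw [two_mul, zpow_add]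
    rw [this]
    nth_rewrite 1 [h6]
    rw [← zpow_add]
    simp
  -- conjugation by `β π`
  have e2 : y ^ (2 * (k + 1)) = 1 := by
    have h5 : β π * w * (β π)⁻¹ = x ^ k * y ^ (k + 1) := by
      rw [hw1, z_conj_mul, z_conj_zpow, z_conj_zpow, h1, hσy, inv_zpow', neg_neg]
    rw [hσw, hwinv] at h5
    have h6 := mul_left_cancel h5
    have : y ^ (2 * (k + 1)) = y ^ (k + 1) * y ^ (k + 1) := by rw [two_mul, zpow_add]
    rw [this]
    nth_rewrite 1 [← h6]
    rw [← zpow_add]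
    simp
  have e3 : x ^ (2 * (k + 1)) = 1 := by
    apply hinj
    rw [map_zpow, map_one]
    exact e2
  apply hx1
  apply hodd1 x hx
  have : x * x = x ^ (2 * (k + 1)) * x ^ (-(2 * k)) := by
    rw [← zpow_add]
    have : 2 * (k + 1) + -(2 * k) = 2 := by ring
    rw [this]
    exact (zpow_two x).symm
  rw [this, e3, zpow_neg, e1]
  simp

/-- **Piece Z.** -/
theorem z_lemma {G₀ : Type*} [Group G₀] [Finite G₀] (β : G₀ →* G₀) (hβ : ∀ x, β (β (β x)) = x)
    (p : G₀) (hp : p * p = 1) (hc : p * β p = β p * p) (hm : p * β p = β (β p))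
    (M : Subgroup G₀) (hab : ∀ x ∈ M, ∀ y ∈ M, x * y = y * x)
    (hodd : Nat.Coprime (Nat.card M) 2)
    (hMp : ∀ m ∈ M, p * m * p⁻¹ ∈ M) (hMβ : ∀ m ∈ M, β m ∈ M)
    (g : G₀) (hg : g ^ 13 = 1) (hM : ∀ m ∈ M, m⁻¹ * β m ∈ Subgroup.zpowers g) :
    ∀ m ∈ M, p * m = m * p := by
  intro m hm'
  by_contra hne
  have hpinv : p⁻¹ = p := by
    rw [inv_eq_iff_mul_eq_one]; exact hp
  set p₁ := β p with hp₁
  have hp₁₁ : p₁ * p₁ = 1 := by
    rw [hp₁, ← map_mul, hp, map_one]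
  have hp₁inv : p₁⁻¹ = p₁ := by
    rw [inv_eq_iff_mul_eq_one]; exact hp₁₁
  set p₂ := β p₁ with hp₂
  have hp₂eq : p₂ = p * p₁ := hm.symm
  have hp₂inv : p₂⁻¹ = p₂ := by
    rw [hp₂eq, mul_inv_rev, hp₁inv, hpinv]; exact hc.symm
  have hβp₂ : β p₂ = p := hβ p
  -- `p₁` normalizes `M`
  have hMp₁ : ∀ z ∈ M, p₁ * z * p₁⁻¹ ∈ M := by
    intro z hz
    have h1 : p * β (β z) * p⁻¹ ∈ M := hMp _ (hMβ _ (hMβ _ hz))
    have h2 := hMβ _ h1
    simpa [map_mul, map_inv, hβ] using h2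
  set c := m⁻¹ * (p * m * p⁻¹) with hcdef
  have hcM : c ∈ M := M.mul_mem (M.inv_mem hm') (hMp m hm')
  have hc1 : c ≠ 1 := by
    intro h
    apply hne
    have h1 := inv_mul_eq_one.mp h
    have h2 : m * p = p * m * p⁻¹ * p := by rw [← h1]
    rw [h2]; group
  -- `p` inverts `c`
  have hpc : p * c * p⁻¹ = c⁻¹ := by
    have h1 : p * (p * m * p⁻¹) * p⁻¹ = m := by
      rw [hpinv]
      calc p * (p * m * p) * p = (p * p) * m * (p * p) := by group
        _ = m := by rw [hp]; group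
    have h2 : p * c * p⁻¹ = (p * m⁻¹ * p⁻¹) * (p * (p * m * p⁻¹) * p⁻¹) := by
      rw [hcdef]; group
    rw [h2, h1]
    have h3 : p * m⁻¹ * p⁻¹ = (p * m * p⁻¹)⁻¹ := by group
    rw [h3, hcdef]
    group
  -- commuting in `M`
  set c' := p₁ * c * p₁⁻¹ with hc'
  have hc'M : c' ∈ M := hMp₁ c hcM
  have hcc' : c * c' = c' * c := hab c hcM c' hc'M
  have hpc' : p * c' * p⁻¹ = c'⁻¹ := by
    have h1 : p * c' * p⁻¹ = p₁ * (p * c * p⁻¹) * p₁⁻¹ := by
      rw [hc', hpinv, hp₁inv]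
      calc p * (p₁ * c * p₁) * p = (p * p₁) * c * (p₁ * p) := by group
        _ = (p₁ * p) * c * (p * p₁) := by rw [hc, ← hc]
        _ = p₁ * (p * c * p) * p₁ := by group
    rw [h1, hpc, hc']; group
  have hp₁c' : p₁ * c' * p₁⁻¹ = c := by
    rw [hc', hp₁inv]
    calc p₁ * (p₁ * c * p₁) * p₁ = (p₁ * p₁) * c * (p₁ * p₁) := by group
      _ = c := by rw [hp₁₁]; group
  by_cases hd : c * c' = 1
  · -- `p₂` fixes `c`, `p` and `p₁` invert it
    have hc'inv : c' = c⁻¹ := eq_inv_of_mul_eq_one_right hd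
    have h1 : p₂ * c * p₂⁻¹ = c := by
      rw [hp₂inv, hp₂eq]
      have h2 : p * p₁ * c * (p * p₁) = p * (p₁ * c * p₁⁻¹) * p⁻¹ := by
        rw [hp₁inv, hpinv, show p * p₁ * c * (p * p₁) = p * p₁ * c * (p₁ * p) from by rw [hc]]
        group
      rw [h2, ← hc', hc'inv]
      have h3 : p * c⁻¹ * p⁻¹ = (p * c * p⁻¹)⁻¹ := by group
      rw [h3, hpc, inv_inv]
    refine z_core β hβ M hab hodd hMβ g hg hM p₂ c hcM hc1 h1 ?_ ?_
    · rw [hβp₂]; exact hpc
    · rw [hβp₂]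
      show p₁ * c * p₁⁻¹ = c⁻¹
      rw [← hc', hc'inv]
  · -- `p₁` fixes `d`, `p` and `p₂` invert it
    set d := c * c' with hd'
    have hdM : d ∈ M := M.mul_mem hcM hc'M
    have h1 : p₁ * d * p₁⁻¹ = d := by
      rw [hd', z_conj_mul, hp₁c', ← hc']
      exact hcc'.symm
    have h2 : p * d * p⁻¹ = d⁻¹ := by
      have hcc2 : c' * c = d := hcc'.symm
      rw [hd', z_conj_mul, hpc, hpc', ← hd']
      calc c⁻¹ * c'⁻¹ = (c' * c)⁻¹ := (mul_inv_rev c' c).symm
        _ = d⁻¹ := by rw [hcc2]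
    have h3 : p₂ * d * p₂⁻¹ = d⁻¹ := by
      rw [hp₂inv, hp₂eq]
      have h4 : p * p₁ * d * (p * p₁) = p * (p₁ * d * p₁⁻¹) * p⁻¹ := by
        rw [hp₁inv, hpinv, show p * p₁ * d * (p * p₁) = p * p₁ * d * (p₁ * p) from by rw [hc]]
        group
      rw [h4, h1, h2]
    refine z_core β hβ M hab hodd hMβ g hg hM p₁ d hdM hd h1 ?_ ?_
    · exact h3
    · rw [hβp₂]; exact h2

end ZLemma

end Cfsg.Agent.Lib.S4415
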