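import Cfsg.Agent.Lib.S4415.Concl
import Cfsg.Agent.Lib.S4415.ZLemma
import Cfsg.Agent.Lib.S4415.OddLemma
import Cfsg.Agent.Lib.S4415.FitRed
import Cfsg.Agent.Lib.S4415.DFinal
import Cfsg.Agent.Lib.Coprime.InvSylow
import Cfsg.Agent.Lib.Solvable.PSeries

/-!
# S4415: `⁅O_{3'}(S), B⁆` is a `2`-group
-/

namespace Cfsg.Agent.Lib.S4415

open Cfsg Cfsg.Agent.Lib.Basic.PCore
open scoped commutatorElement

variable {S E : Type*} [Group S] [AddCommGroup E] [Module (ZMod 3) E]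

omit [AddCommGroup E] [Module (ZMod 3) E] in
theorem comm_le_of_mod {K T : Subgroup S} [T.Normal] (b : S)
    (h : ∀ k ∈ K, k * b * k⁻¹ * b⁻¹ ∈ T) :
    (⁅K, Subgroup.zpowers b⁆ : Subgroup S) ≤ T := by
  rw [Subgroup.commutator_le]
  intro k hk c hc
  let φ := QuotientGroup.mk' T
  have h0 : φ (k * b * k⁻¹ * b⁻¹) = 1 := (QuotientGroup.eq_one_iff _).2 (h k hk)
  have h1 : φ k * φ b = φ b * φ k := by
    have : φ k * φ b * (φ k)⁻¹ * (φ b)⁻¹ = 1 := by simpa using h0
    calc φ k * φ b = (φ k * φ b * (φ k)⁻¹ * (φ b)⁻¹) * (φ b * φ k) := by group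
      _ = φ b * φ k := by rw [this, one_mul]
  have hle : Subgroup.zpowers b ≤ (Subgroup.centralizer ({φ k} : Set _)).comap φ := by
    rw [Subgroup.zpowers_le, Subgroup.mem_comap, Subgroup.mem_centralizer_singleton_iff]
    exact h1.symm
  have h2 := hle hc
  rw [Subgroup.mem_comap, Subgroup.mem_centralizer_singleton_iff] at h2
  have : φ ⁅k, c⁆ = 1 := by
    rw [commutatorElement_def, map_mul, map_mul, map_mul, map_inv, map_inv, ← h2]
    group
  exact (QuotientGroup.eq_one_iff _).1 this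

omit [AddCommGroup E] [Module (ZMod 3) E] in
theorem sylow_cover [Finite S] {L T : Subgroup S} (hTL : T ≤ L) [hT : T.Normal] {r : ℕ} [Fact r.Prime]
    (h : ∀ l ∈ L, ∃ n, l ^ (r ^ n) ∈ T) (P : Sylow r L) :
    ∀ l ∈ L, ∃ j ∈ (P : Subgroup L).map L.subtype, ∃ t ∈ T, l = j * t := by
  let T' : Subgroup L := T.subgroupOf L
  have hT' : T'.Normal := Subgroup.Normal.subgroupOf hT L
  have hpg : IsPGroup r (L ⧸ T') := by
    intro x
    induction x using QuotientGroup.induction_on with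
    | H l =>
      obtain ⟨n, hn⟩ := h l l.2
      refine ⟨n, ?_⟩
      rw [← QuotientGroup.mk_pow, QuotientGroup.eq_one_iff]
      exact Subgroup.mem_subgroupOf.2 (by simpa using hn)
  obtain ⟨m, hm⟩ := IsPGroup.iff_card.1 hpg
  let N : Subgroup L := (P : Subgroup L) ⊔ T'
  have h1 : N.index ∣ (P : Subgroup L).index := Subgroup.index_dvd_of_le le_sup_left
  have h2 : N.index ∣ T'.index := Subgroup.index_dvd_of_le le_sup_right
  have h2' : N.index ∣ r ^ m := by
    have : T'.index = r ^ m := hm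
    rwa [this] at h2
  have h3 : ¬ r ∣ (P : Subgroup L).index := P.not_dvd_index
  have hN1 : N.index = 1 := by
    obtain ⟨k, -, hk⟩ := (Nat.dvd_prime_pow (Fact.out : r.Prime)).1 h2'
    rcases Nat.eq_zero_or_pos k with rfl | hk0
    · simpa using hk
    · exfalso
      apply h3
      refine dvd_trans ?_ h1
      rw [hk]
      exact dvd_pow_self r hk0.ne'
  have hNt : N = ⊤ := Subgroup.index_eq_one.1 hN1
  intro l hl
  have hmem : (⟨l, hl⟩ : L) ∈ ((N : Subgroup L) : Set L) := by rw [hNt]; trivial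
  rw [Subgroup.mul_normal] at hmem
  obtain ⟨j, hj, t, ht, hjt⟩ := Set.mem_mul.1 hmem
  refine ⟨j, ⟨j, hj, rfl⟩, t, Subgroup.mem_subgroupOf.1 ht, ?_⟩
  have := congrArg Subtype.val hjt
  simpa using this.symm

theorem r_two [Finite S] [Finite E] [Group.IsSolvable S] {ρ : Representation (ZMod 3) S E}
    (hf : Function.Injective ρ)
    {b : S} {u s v : E} (hB : BD ρ b u s v) {q₁ q₂ q₃ : S} {e₁ e₂ e₃ : E}
    (F : Frame ρ b q₁ q₂ q₃ e₁ e₂ e₃) (hq1 : q₁ ∈ Cfsg.pPrimeCore 3 S) :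
    IsPGroup 2 (⁅Cfsg.pPrimeCore 3 S, Subgroup.zpowers b⁆ : Subgroup S) := by
  classical
  have hb3 : b ^ 3 = 1 := hB.b3
  set K : Subgroup S := pPrimeCore 3 S with hK
  have hKn : K.Normal := pPrimeCore_normal 3 S
  have hKcop : (Nat.card K).Coprime 3 := Cfsg.Agent.Lib.Solvable.PSeries.pPrimeCore_coprime 3
  have hq2 : q₂ ∈ K := by rw [← F.cb1]; exact hKn.conj_mem _ hq1 b
  have hq3 : q₃ ∈ K := by rw [← F.cb2]; exact hKn.conj_mem _ hq2 b
  haveI : Fact (Nat.Prime 2) := ⟨Nat.prime_two⟩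
  let T : Subgroup K := pCore 2 K
  haveI hTchar : T.Characteristic := pCore_char 2 K
  haveI hTn : T.Normal := pCore_normal 2 K
  let T₀ : Subgroup S := T.map K.subtype
  haveI hT₀n : T₀.Normal := map_subtype_normal_of_characteristic T
  have hT₀2 : IsPGroup 2 T₀ := IsPGroup.map (pCore_isPGroup 2) _
  let e : K ≃* K := MulAut.conjNormal b
  have he : ∀ x : K, ((e x : K) : S) = b * x * b⁻¹ := fun x => MulAut.conjNormal_apply b x
  have hTe : T.map e.toMonoidHom = T := (Subgroup.characteristic_iff_map_eq.1 hTchar) e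
  let βe : (K ⧸ T) ≃* (K ⧸ T) := QuotientGroup.congr T T e hTe
  let π : K →* K ⧸ T := QuotientGroup.mk' T
  have hπs : Function.Surjective π := QuotientGroup.mk'_surjective T
  have hβπ : ∀ x, βe (π x) = π (e x) := fun x => QuotientGroup.congr_mk' _ _ _ _ x
  have hπT : ∀ x : K, π x = 1 ↔ (x : S) ∈ T₀ := by
    intro x
    have : π x = 1 ↔ x ∈ T := QuotientGroup.eq_one_iff x
    rw [this]
    constructor
    · intro h; exact ⟨x, h, rfl⟩
    · rintro ⟨y, hy, hyx⟩
      have : y = x := Subtype.ext hyx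
      rwa [← this]
  have he3 : ∀ x : K, e (e (e x)) = x := by
    intro x
    apply Subtype.ext
    rw [he, he, he]
    have h3 : b * b * b = 1 := by rw [← hb3]; simp [pow_succ]
    calc b * (b * (b * (x : S) * b⁻¹) * b⁻¹) * b⁻¹ = (b * b * b) * x * (b * b * b)⁻¹ := by
          simp only [mul_inv_rev, mul_assoc]
      _ = x := by rw [h3]; simp
  have hβ3 : ∀ x, βe (βe (βe x)) = x := by
    intro x
    obtain ⟨k, rfl⟩ := hπs x
    rw [hβπ, hβπ, hβπ, he3]
  haveI : Group.IsSolvable K := inferInstance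
  by_cases hmoved : ∃ x, βe x ≠ x
  · exfalso
    have hcopQ : Nat.Coprime (Nat.card (K ⧸ T)) 3 :=
      Nat.Coprime.coprime_dvd_left (Subgroup.card_quotient_dvd_card T) hKcop
    obtain ⟨r, hr, hr2, hr3, x₀, hx₀, hx₀m⟩ := fit_red βe.toMonoidHom hβ3 hcopQ
      (pCore_quotient_eq_bot) hmoved
    haveI : Fact r.Prime := ⟨hr⟩
    let Jb : Subgroup (K ⧸ T) := pCore r (K ⧸ T)
    haveI hJbchar : Jb.Characteristic := pCore_char r _
    haveI hJbn : Jb.Normal := pCore_normal r _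
    have hJbβ : ∀ m ∈ Jb, βe m ∈ Jb := by
      intro m hm
      have := (Subgroup.characteristic_iff_map_le.1 hJbchar) βe
      exact this ⟨m, hm, rfl⟩
    have hJbβ' : ∀ m ∈ Jb, βe.symm m ∈ Jb := by
      intro m hm
      have := (Subgroup.characteristic_iff_map_le.1 hJbchar) βe.symm
      exact this ⟨m, hm, rfl⟩
    let L₁ : Subgroup S := (Jb.comap π).map K.subtype
    have hmemL : ∀ y, y ∈ L₁ ↔ ∃ h : y ∈ K, π ⟨y, h⟩ ∈ Jb := by
      intro y
      constructor
      · rintro ⟨k, hk, rfl⟩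
        exact ⟨k.2, hk⟩
      · rintro ⟨h, hy⟩
        exact ⟨⟨y, h⟩, hy, rfl⟩
    have hLK : L₁ ≤ K := by
      rintro _ ⟨k, -, rfl⟩
      exact k.2
    have hT₀L : T₀ ≤ L₁ := by
      rintro _ ⟨t, ht, rfl⟩
      refine ⟨t, ?_, rfl⟩
      show π t ∈ Jb
      have : π t = 1 := (QuotientGroup.eq_one_iff t).2 ht
      rw [this]; exact Jb.one_mem
    have hLbf : ∀ y ∈ L₁, b * y * b⁻¹ ∈ L₁ := by
      intro y hy
      obtain ⟨h, hy'⟩ := (hmemL y).1 hy
      rw [hmemL]
      refine ⟨hKn.conj_mem _ h b, ?_⟩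
      have : (⟨b * y * b⁻¹, hKn.conj_mem _ h b⟩ : K) = e ⟨y, h⟩ := by
        apply Subtype.ext; rw [he]
      rw [this, ← hβπ]
      exact hJbβ _ hy'
    have hbb : ∀ y : S, b * (b * (b * y * b⁻¹) * b⁻¹) * b⁻¹ = y := by
      intro y
      have h3 : b * b * b = 1 := by rw [← hb3]; simp [pow_succ]
      calc b * (b * (b * y * b⁻¹) * b⁻¹) * b⁻¹ = (b * b * b) * y * (b * b * b)⁻¹ := by
            simp only [mul_inv_rev, mul_assoc]
        _ = y := by rw [h3]; simp
    have hLb : Subgroup.zpowers b ≤ Subgroup.normalizer (L₁ : Set S) := by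
      rw [Subgroup.zpowers_le, Subgroup.mem_normalizer_iff]
      intro y
      constructor
      · exact hLbf y
      · intro h
        have := hLbf _ (hLbf _ h)
        rwa [hbb] at this
    have hcop : (Nat.card (Subgroup.zpowers b)).Coprime (Nat.card L₁) := by
      rw [Nat.card_zpowers]
      have h1 : orderOf b ∣ 3 := orderOf_dvd_of_pow_eq_one hb3
      have h2 : Nat.card L₁ ∣ Nat.card K := Subgroup.card_dvd_of_le hLK
      exact (Nat.Coprime.coprime_dvd_right h2 (Nat.Coprime.coprime_dvd_left h1 hKcop.symm))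
    obtain ⟨P, hP⟩ := Cfsg.Agent.Lib.Coprime.InvSylow.exists_invariant_sylow hLb hcop
      (Or.inr inferInstance) r
    let J : Subgroup S := (P : Subgroup L₁).map L₁.subtype
    have hJr : IsPGroup r J := IsPGroup.map P.isPGroup' _
    have hJb : ∀ j ∈ J, b * j * b⁻¹ ∈ J := by
      intro j hj
      exact (Subgroup.mem_normalizer_iff.1 (hP (Subgroup.mem_zpowers b)) j).1 hj
    have hJL : J ≤ L₁ := by
      rintro _ ⟨k, -, rfl⟩
      exact k.2
    have hJK : J ≤ K := hJL.trans hLK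
    have hpow : ∀ l ∈ L₁, ∃ n, l ^ (r ^ n) ∈ T₀ := by
      intro l hl
      obtain ⟨h, hy⟩ := (hmemL l).1 hl
      obtain ⟨n, hn⟩ := (pCore_isPGroup (G := K ⧸ T) r) ⟨_, hy⟩
      refine ⟨n, ?_⟩
      have h1 : π ((⟨l, h⟩ : K) ^ (r ^ n)) = 1 := by
        rw [map_pow]
        have := congrArg Subtype.val hn
        simpa using this
      have := (hπT _).1 h1
      simpa using this
    have hcov := sylow_cover hT₀L hpow P
    have hlift : ∀ m ∈ Jb, ∃ j, ∃ hj : j ∈ J, π ⟨j, hJK hj⟩ = m := by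
      intro m hm
      obtain ⟨k, rfl⟩ := hπs m
      have hkL : (k : S) ∈ L₁ := (hmemL _).2 ⟨k.2, hm⟩
      obtain ⟨j, hj, t, ht, hjt⟩ := hcov _ hkL
      refine ⟨j, hj, ?_⟩
      have htK : t ∈ K := hLK (hT₀L ht)
      have h1 : k = ⟨j, hJK hj⟩ * ⟨t, htK⟩ := Subtype.ext hjt
      have h2 : π ⟨t, htK⟩ = 1 := (hπT _).2 ht
      rw [h1, map_mul, h2, mul_one]
    have hne : ∃ j ∈ J, b⁻¹ * (j * b * j⁻¹) ≠ 1 := by
      obtain ⟨j, hj, hjx⟩ := hlift x₀ hx₀
      refine ⟨j, hj, ?_⟩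
      intro h1
      apply hx₀m
      rw [← hjx]
      show βe (π _) = π _
      rw [hβπ]
      congr 1
      apply Subtype.ext
      rw [he]
      have h2 : j * b * j⁻¹ = b := by
        calc j * b * j⁻¹ = b * (b⁻¹ * (j * b * j⁻¹)) := by group
          _ = b := by rw [h1, mul_one]
      show b * j * b⁻¹ = j
      calc b * j * b⁻¹ = (j * b * j⁻¹) * j * b⁻¹ := by rw [h2]
        _ = j := by group
    obtain ⟨hr13, g, hgJ, hgord, hgb, hgb', hgh, hgc⟩ := odd_lemma hf hB J hr hr2 hr3 hJr hJb hne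
    have hgK : g ∈ K := hJK hgJ
    let gh : K := ⟨g, hgK⟩
    let gb : K ⧸ T := π gh
    have hg13 : gb ^ 13 = 1 := by
      show (π gh) ^ 13 = 1
      rw [← map_pow]
      have : gh ^ 13 = 1 := by
        apply Subtype.ext
        show g ^ 13 = 1
        rw [← hgord]; exact pow_orderOf_eq_one g
      rw [this, map_one]
    -- conjugation by `b` preserves `⟨g⟩`
    have hbz : ∀ y ∈ Subgroup.zpowers g, b * y * b⁻¹ ∈ Subgroup.zpowers g := by
      rintro _ ⟨n, rfl⟩
      have : b * (fun x : ℤ => g ^ x) n * b⁻¹ = (b * g * b⁻¹) ^ n := by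
        show b * g ^ n * b⁻¹ = _
        rw [conj_zpow]
      rw [this]
      exact Subgroup.zpow_mem _ hgb n
    have hzp : ∀ j (hj : j ∈ J), (π ⟨j, hJK hj⟩)⁻¹ * βe (π ⟨j, hJK hj⟩) ∈ Subgroup.zpowers gb := by
      intro j hj
      have h1 := hgh j⁻¹ (J.inv_mem hj)
      have h2 := hbz _ h1
      obtain ⟨n, hn⟩ := h2
      refine ⟨n, ?_⟩
      show (π gh) ^ n = _
      rw [hβπ, ← map_inv, ← map_mul, ← map_zpow]
      congr 1
      apply Subtype.ext
      show ((gh ^ n : K) : S) = ((⟨j, hJK hj⟩ : K)⁻¹ * e ⟨j, hJK hj⟩ : K)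
      rw [Subgroup.coe_mul, he, Subgroup.coe_inv, Subgroup.coe_zpow]
      show g ^ n = j⁻¹ * (b * j * b⁻¹)
      have hn' : g ^ n = b * (b⁻¹ * (j⁻¹ * b * j⁻¹⁻¹)) * b⁻¹ := hn
      rw [hn']
      group
    let M : Subgroup (K ⧸ T) := Jb ⊓ Subgroup.centralizer (Jb : Set (K ⧸ T))
    have hmemM : ∀ m, m ∈ M ↔ m ∈ Jb ∧ ∀ y ∈ Jb, y * m = m * y := by
      intro m
      show m ∈ Jb ⊓ _ ↔ _
      rw [Subgroup.mem_inf, Subgroup.mem_centralizer_iff]
      rfl
    have hab : ∀ x ∈ M, ∀ y ∈ M, x * y = y * x := by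
      intro x hx y hy
      exact ((hmemM y).1 hy).2 x ((hmemM x).1 hx).1 
    have hodd : Nat.Coprime (Nat.card M) 2 := by
      have hp : IsPGroup r M := IsPGroup.to_le (pCore_isPGroup r) inf_le_left
      obtain ⟨n, hn⟩ := IsPGroup.iff_card.1 hp
      rw [hn]
      apply Nat.Coprime.pow_left
      exact (Nat.coprime_primes hr Nat.prime_two).2 hr2
    have hgbM : gb ∈ M := by
      rw [hmemM]
      have hgbJ : gb ∈ Jb := ((hmemL g).1 (hJL hgJ)).2
      refine ⟨hgbJ, ?_⟩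
      intro y hy
      obtain ⟨j, hj, rfl⟩ := hlift y hy
      show π _ * π _ = π _ * π _
      rw [← map_mul, ← map_mul]
      congr 1
      apply Subtype.ext
      exact hgc j hj
    have hMβ : ∀ m ∈ M, βe m ∈ M := by
      intro m hm
      rw [hmemM] at hm ⊢
      refine ⟨hJbβ _ hm.1, ?_⟩
      intro y hy
      have h1 := hm.2 _ (hJbβ' y hy)
      have h2 := congrArg βe h1
      simpa using h2
    have hMp : ∀ p, ∀ m ∈ M, p * m * p⁻¹ ∈ M := by
      intro p m hm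
      rw [hmemM] at hm ⊢
      refine ⟨hJbn.conj_mem _ hm.1 p, ?_⟩
      intro y hy
      have h1 := hm.2 (p⁻¹ * y * p) (by
        have := hJbn.conj_mem _ hy p⁻¹
        simpa using this)
      calc y * (p * m * p⁻¹) = p * ((p⁻¹ * y * p) * m) * p⁻¹ := by group
        _ = p * (m * (p⁻¹ * y * p)) * p⁻¹ := by rw [h1]
        _ = p * m * p⁻¹ * y := by group
    have hM : ∀ m ∈ M, m⁻¹ * βe m ∈ Subgroup.zpowers gb := by
      intro m hm
      obtain ⟨j, hj, rfl⟩ := hlift m ((hmemM m).1 hm).1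
      exact hzp j hj
    have key : ∀ (q q' q'' : S) (hq : q ∈ K) (hq' : q' ∈ K) (hq'' : q'' ∈ K), q * q = 1 →
        b * q * b⁻¹ = q' → b * q' * b⁻¹ = q'' → q * q' = q'' → q' * q = q'' →
        g * q * g⁻¹ * q⁻¹ ∈ T₀ := by
      intro q q' q'' hq hq' hq'' hqq hb1 hb2 hm1 hm2
      have hβ1 : βe (π ⟨q, hq⟩) = π ⟨q', hq'⟩ := by
        rw [hβπ]; congr 1; apply Subtype.ext; rw [he]; exact hb1
      have hβ2 : βe (π ⟨q', hq'⟩) = π ⟨q'', hq''⟩ := by
        rw [hβπ]; congr 1; apply Subtype.ext; rw [he]; exact hb2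
      have hz := z_lemma βe.toMonoidHom hβ3 (π ⟨q, hq⟩)
        (by rw [← map_mul]
            have : (⟨q, hq⟩ : K) * ⟨q, hq⟩ = 1 := Subtype.ext hqq
            rw [this, map_one])
        (by show π _ * βe (π _) = βe (π _) * π _
            rw [hβ1, ← map_mul, ← map_mul]
            congr 1
            apply Subtype.ext
            exact hm1.trans hm2.symm)
        (by show π _ * βe (π _) = βe (βe (π _))
            rw [hβ1, hβ2, ← map_mul]
            congr 1
            apply Subtype.ext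
            exact hm1)
        M hab hodd (hMp _) hMβ gb hg13 hM gb hgbM
      have h1 : π (gh * ⟨q, hq⟩ * gh⁻¹ * (⟨q, hq⟩ : K)⁻¹) = 1 := by
        rw [map_mul, map_mul, map_mul, map_inv, map_inv]
        show gb * π _ * gb⁻¹ * (π _)⁻¹ = 1
        rw [← hz]
        group
      exact (hπT _).1 h1
    have hmx := F.m21
    have hF1 := key q₁ q₂ q₃ hq1 hq2 hq3 F.sq1 F.cb1 F.cb2 F.m12 F.m21
    have hF2 := key q₂ q₃ q₁ hq2 hq3 hq1 F.sq2 F.cb2 F.cb3 F.m23 F.m32
    have hTbb : ∀ t ∈ T₀, b * t * b⁻¹ ∈ T₀ := fun t ht => hT₀n.conj_mem t ht b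
    exact d_final hf hB F T₀ hT₀2 hTbb (fun t ht => hT₀n.conj_mem t ht _)
      (fun t ht => hT₀n.conj_mem t ht _) hgord (fun t ht => hT₀n.conj_mem t ht _) hgb hgb' hF1 hF2
  · push_neg at hmoved
    have hle : (⁅K, Subgroup.zpowers b⁆ : Subgroup S) ≤ T₀ := by
      apply comm_le_of_mod
      intro k hk
      have h1 := hmoved (π ⟨k⁻¹, K.inv_mem hk⟩)
      rw [hβπ] at h1
      have h2 : π ⟨k, hk⟩ * π (e ⟨k⁻¹, K.inv_mem hk⟩) = 1 := by
        rw [h1, ← map_mul]
        have : (⟨k, hk⟩ : K) * ⟨k⁻¹, K.inv_mem hk⟩ = 1 := Subtype.ext (mul_inv_cancel k)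
        rw [this, map_one]
      rw [← map_mul] at h2
      have h3 := (hπT _).1 h2
      rw [Subgroup.coe_mul, he] at h3
      have h4 : k * (b * k⁻¹ * b⁻¹) = k * b * k⁻¹ * b⁻¹ := by group
      rw [← h4]
      exact h3
    exact IsPGroup.to_le hT₀2 hle

end Cfsg.Agent.Lib.S4415
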