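import Cfsg.Agent.Lib.S4415.Concl

/-!
# S4415: producing block data from a cubic block
-/

namespace Cfsg.Agent.Lib.S4415

variable {S E : Type*} [Group S] [AddCommGroup E] [Module (ZMod 3) E]

theorem setup_BD [Finite E] (ρ : Representation (ZMod 3) S E) (b : S) (hb3 : b ^ 3 = 1)
    (E₀ E₁ : Submodule (ZMod 3) E) (hE01' : E₀ ⊔ E₁ = ⊤)
    (hE1 : ∀ v ∈ E₁, ρ b v = v) (hE0inv : ∀ v ∈ E₀, ρ b v ∈ E₀) (hE0 : Nat.card ↥E₀ = 27)
    (hind : ∃ v ∈ E₀, ρ b (ρ b v - v) - (ρ b v - v) ≠ 0) : ∃ u s v, BD ρ b u s v := by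
  obtain ⟨v, hvE, hv0⟩ := hind
  set n : E → E := fun x => ρ b x - x with hn
  have nadd : ∀ x y, n (x + y) = n x + n y := by
    intro x y; simp only [hn, map_add]; abel
  have nsmul : ∀ (c : ZMod 3) x, n (c • x) = c • n x := by
    intro c x; simp only [hn, map_smul, smul_sub]
  have hcube : ∀ x, n (n (n x)) = 0 := by
    intro x
    have h := sub_one_cube (ρ b)
    have h1 : (ρ b) ^ 3 = 1 := by rw [← map_pow, hb3, map_one]
    rw [h1, sub_self] at h
    have h2 := congrArg (fun T : Module.End (ZMod 3) E => T x) h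
    simpa [pow_succ, hn, Module.End.mul_apply] using h2
  set u := n v with hu
  set s := n u with hs
  have hs0 : s ≠ 0 := hv0
  have hns : n s = 0 := hcube v
  have hs_fix : ρ b s = s := sub_eq_zero.1 hns
  have hu_eq : n u = s := rfl
  have hv_eq : n v = u := rfl
  -- independence of `v, u, s`
  have ind3 : ∀ α β γ : ZMod 3, α • v + β • u + γ • s = 0 → α = 0 ∧ β = 0 ∧ γ = 0 := by
    intro α β γ h
    have n0 : n 0 = 0 := by simp [hn]
    have h1 := congrArg n h
    rw [nadd, nadd, nsmul, nsmul, nsmul, hv_eq, hu_eq, hns, n0, smul_zero, add_zero] at h1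
    have h2 := congrArg n h1
    rw [nadd, nsmul, nsmul, hu_eq, hns, n0, smul_zero, add_zero] at h2
    have hα : α = 0 := (smul_eq_zero.1 h2).resolve_right hs0
    rw [hα, zero_smul, zero_add] at h1
    have hβ : β = 0 := (smul_eq_zero.1 h1).resolve_right hs0
    rw [hα, hβ, zero_smul, zero_smul, zero_add, zero_add] at h
    have hγ : γ = 0 := (smul_eq_zero.1 h).resolve_right hs0
    exact ⟨hα, hβ, hγ⟩
  have huE : u ∈ E₀ := E₀.sub_mem (hE0inv v hvE) hvE
  have hsE : s ∈ E₀ := E₀.sub_mem (hE0inv u huE) huE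
  -- the coordinate map is a bijection onto `E₀`
  let f : ZMod 3 × ZMod 3 × ZMod 3 → ↥E₀ := fun t =>
    ⟨t.1 • v + t.2.1 • u + t.2.2 • s,
      E₀.add_mem (E₀.add_mem (E₀.smul_mem _ hvE) (E₀.smul_mem _ huE)) (E₀.smul_mem _ hsE)⟩
  have finj : Function.Injective f := by
    rintro ⟨a, c, d⟩ ⟨a', c', d'⟩ h
    have h1 : a • v + c • u + d • s = a' • v + c' • u + d' • s := congrArg Subtype.val h
    have h2 : (a - a') • v + (c - c') • u + (d - d') • s = 0 := by
      simp only [sub_smul]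
      linear_combination (norm := abel) h1
    obtain ⟨e1, e2, e3⟩ := ind3 _ _ _ h2
    rw [sub_eq_zero.1 e1, sub_eq_zero.1 e2, sub_eq_zero.1 e3]
  have fbij : Function.Bijective f := by
    apply finj.bijective_of_nat_card_le
    rw [hE0, Nat.card_prod, Nat.card_prod, Nat.card_zmod]
  refine ⟨u, s, v, ⟨hb3, ?_, rfl, rfl, hs_fix, ?_⟩⟩
  · intro x
    have hx : x ∈ E₀ ⊔ E₁ := by rw [hE01']; trivial
    obtain ⟨x₀, hx₀, x₁, hx₁, rfl⟩ := Submodule.mem_sup.1 hx
    obtain ⟨⟨a, c, d⟩, hf⟩ := fbij.2 ⟨x₀, hx₀⟩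
    have hx₀' : x₀ = a • v + c • u + d • s := (congrArg Subtype.val hf).symm
    refine ⟨a, c, ?_⟩
    have h1 : ρ b (x₀ + x₁) - (x₀ + x₁) = n x₀ := by
      simp only [hn, map_add, hE1 x₁ hx₁]; abel
    rw [h1, hx₀', nadd, nadd, nsmul, nsmul, nsmul, hv_eq, hu_eq, hns, smul_zero, add_zero]
  · intro α β h
    obtain ⟨e1, e2, -⟩ := ind3 0 α β (by rw [zero_smul, zero_add]; exact h)
    have n0 : n 0 = 0 := by simp [hn]
    have h1 := congrArg n h
    rw [nadd, nsmul, nsmul, hu_eq, hns, n0, smul_zero, add_zero] at h1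
    have hα : α = 0 := (smul_eq_zero.1 h1).resolve_right hs0
    rw [hα, zero_smul, zero_add] at h
    exact ⟨hα, (smul_eq_zero.1 h).resolve_right hs0⟩

end Cfsg.Agent.Lib.S4415
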