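import Mathlib
import Cfsg.Prelude.Def_Transfer
import Cfsg.Prelude.Def_Solvable
import Cfsg.Agent.Lib.Basic.PCore
import Cfsg.Agent.Lib.Solvable.PSeries
import Cfsg.Agent.Lib.PGroup.Basic

/-!
# S4415: the order-3 element moving a four-group, and the four-group lies in `O_{3'}`
-/

set_option autoImplicit false
set_option linter.style.haveILetI false

namespace Cfsg.Agent.Lib.S4415

variable {S : Type*} [Group S]

theorem setup_Q [Finite S] (B : Subgroup S) (hB : Nat.card ↥B = 3) (b : S)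
    (hb : Subgroup.zpowers b = B)
    (Q : Subgroup S) (hQ : Cfsg.IsElementaryAbelian 2 Q) (hQ4 : Nat.card ↥Q = 4)
    (hBQ : B ≤ Subgroup.normalizer (Q : Set S))
    (hBQ' : ¬ B ≤ Subgroup.centralizer (Q : Set S)) :
    b ^ 3 = 1 ∧ ∃ q₁ q₂ q₃ : S, q₁ ≠ 1 ∧ q₁ * q₁ = 1 ∧ q₁ * q₂ = q₃ ∧ b * q₁ * b⁻¹ = q₂ ∧
      b * q₂ * b⁻¹ = q₃ ∧ b * q₃ * b⁻¹ = q₁ := by
  classical
  have hb3 : b ^ 3 = 1 := by
    have h1 : orderOf b = 3 := by
      rw [← Nat.card_zpowers, hb, hB]
    rw [← h1]; exact pow_orderOf_eq_one b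
  refine ⟨hb3, ?_⟩
  have hbB : b ∈ B := hb ▸ Subgroup.mem_zpowers b
  have hnorm : ∀ x ∈ Q, b * x * b⁻¹ ∈ Q := by
    intro x hx
    have h := hBQ hbB
    exact (Subgroup.mem_normalizer_iff.1 h x).1 hx
  -- `b` does not centralize `Q`
  have hnc : ¬ b ∈ Subgroup.centralizer (Q : Set S) := by
    intro h
    apply hBQ'
    rw [← hb]
    exact (Subgroup.zpowers_le).2 h
  rw [Subgroup.mem_centralizer_iff] at hnc
  push Not at hnc
  obtain ⟨q, hq, hqb⟩ := hnc
  have hq' : q ∈ Q := hq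
  have hqb' : b * q * b⁻¹ ≠ q := by
    intro h
    apply hqb
    have := congrArg (· * b) h
    simp only [inv_mul_cancel_right] at this
    exact this.symm
  have hsq : ∀ x ∈ Q, x * x = 1 := by
    intro x hx
    have := hQ.2 x hx
    rwa [pow_two] at this
  have hcomm : ∀ x ∈ Q, ∀ y ∈ Q, x * y = y * x := by
    intro x hx y hy
    haveI := hQ.1
    have := mul_comm' (⟨x, hx⟩ : Q) ⟨y, hy⟩
    exact congrArg Subtype.val this
  set q₂ := b * q * b⁻¹ with hq₂
  set q₃ := b * q₂ * b⁻¹ with hq₃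
  have h2Q : q₂ ∈ Q := hnorm q hq'
  have h3Q : q₃ ∈ Q := hnorm q₂ h2Q
  have hback : b * q₃ * b⁻¹ = q := by
    have h1 : b * q₃ * b⁻¹ = b ^ 3 * q * (b ^ 3)⁻¹ := by
      simp only [hq₃, hq₂, pow_succ, pow_zero, one_mul, mul_inv_rev, mul_assoc]
    rw [h1, hb3]; simp
  have hq1 : q ≠ 1 := by
    intro h
    apply hqb'
    rw [hq₂, h]; simp
  have h21 : q₂ ≠ q := hqb'
  have hq21 : q₂ ≠ 1 := by
    intro h
    apply hq1
    have h5 : b * q * b⁻¹ = 1 := h
    have : q = b⁻¹ * (b * q * b⁻¹) * b := by group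
    rw [this, h5]; simp
  have h31 : q₃ ≠ 1 := by
    intro h
    apply hq21
    have h5 : b * q₂ * b⁻¹ = 1 := h
    have : q₂ = b⁻¹ * (b * q₂ * b⁻¹) * b := by group
    rw [this, h5]; simp
  have h32 : q₃ ≠ q₂ := by
    intro h
    apply h21
    have e : b * q₂ * b⁻¹ = b * q * b⁻¹ := by rw [← hq₃, h]
    have := mul_left_cancel (mul_right_cancel e)
    exact this
  have h3q : q₃ ≠ q := by
    intro h
    apply h21
    rw [h] at hback
    exact hback
  -- the four elements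
  have hm1 : q * q₂ ≠ 1 := by
    intro h
    apply h21
    have : q₂ = q * (q * q₂) := by rw [← mul_assoc, hsq q hq', one_mul]
    rw [this, h, mul_one]
  have hm2 : q * q₂ ≠ q := by
    intro h
    apply hq21
    exact mul_left_cancel (h.trans (mul_one q).symm)
  have hm3 : q * q₂ ≠ q₂ := by
    intro h
    apply hq1
    exact mul_right_cancel (h.trans (one_mul q₂).symm)
  let T : Finset S := {1, q, q₂, q * q₂}
  have hTcard : T.card = 4 := by
    simp only [T]
    rw [Finset.card_insert_of_notMem, Finset.card_insert_of_notMem, Finset.card_insert_of_notMem,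
      Finset.card_singleton]
    · simp only [Finset.mem_singleton]
      exact fun h => hm3 h.symm
    · simp only [Finset.mem_insert, Finset.mem_singleton, not_or]
      exact ⟨fun h => h21 h.symm, fun h => hm2 h.symm⟩
    · simp only [Finset.mem_insert, Finset.mem_singleton, not_or]
      exact ⟨fun h => hq1 h.symm, fun h => hq21 h.symm, fun h => hm1 h.symm⟩
  have hTsub : (T : Set S) ⊆ (Q : Set S) := by
    intro x hx
    simp only [T, Finset.coe_insert, Finset.coe_singleton, Set.mem_insert_iff,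
      Set.mem_singleton_iff] at hx
    rcases hx with rfl | rfl | rfl | rfl
    · exact Q.one_mem
    · exact hq'
    · exact h2Q
    · exact Q.mul_mem hq' h2Q
  have hTeq : (T : Set S) = (Q : Set S) := by
    apply Set.eq_of_subset_of_ncard_le hTsub
    rw [Set.ncard_coe_finset, hTcard]
    have : ((Q : Set S)).ncard = Nat.card Q := (Nat.card_coe_set_eq _).symm
    rw [this, hQ4]
  have h3T : q₃ ∈ (T : Set S) := by rw [hTeq]; exact h3Q
  have h3eq : q₃ = q * q₂ := by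
    simp only [T, Finset.coe_insert, Finset.coe_singleton, Set.mem_insert_iff,
      Set.mem_singleton_iff] at h3T
    rcases h3T with h | h | h | h
    · exact absurd h h31
    · exact absurd h h3q
    · exact absurd h h32
    · exact h
  exact ⟨q, q₂, q₃, hq1, hsq q hq', h3eq.symm, rfl, rfl, hback⟩

theorem q_le_core [Finite S] [Group.IsSolvable S] (B : Subgroup S) (hB : Nat.card ↥B = 3) (b : S)
    (hb : Subgroup.zpowers b = B) (P : Sylow 3 S)
    (hBZ : (Subgroup.center ↥(P : Subgroup S)).map (P : Subgroup S).subtype = B)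
    {q₁ q₂ q₃ : S} (hsq : q₁ * q₁ = 1) (m12 : q₁ * q₂ = q₃) (cb1 : b * q₁ * b⁻¹ = q₂)
    (cb2 : b * q₂ * b⁻¹ = q₃) (cb3 : b * q₃ * b⁻¹ = q₁) : q₁ ∈ Cfsg.pPrimeCore 3 S := by
  classical
  haveI hp3 : Fact (Nat.Prime 3) := ⟨by norm_num⟩
  set L := Cfsg.pPrimeCore 3 S with hL
  haveI hLn : L.Normal := Cfsg.Agent.Lib.Basic.PCore.pPrimeCore_normal 3 S
  let f : S →* S ⧸ L := QuotientGroup.mk' L
  have hf : Function.Surjective f := QuotientGroup.mk'_surjective L
  have hfker : ∀ x, f x = 1 ↔ x ∈ L := fun x => QuotientGroup.eq_one_iff x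
  have hordb : orderOf b = 3 := by rw [← Nat.card_zpowers, hb, hB]
  have hbL : b ∉ L := by
    intro hbL
    have hd : orderOf (⟨b, hbL⟩ : L) ∣ Nat.card L := orderOf_dvd_natCard _
    have he : orderOf (⟨b, hbL⟩ : L) = orderOf b := Subgroup.orderOf_mk b hbL
    rw [he, hordb] at hd
    have hc := Cfsg.Agent.Lib.Solvable.PSeries.pPrimeCore_coprime (G := S) 3
    have := Nat.Coprime.eq_one_of_dvd hc.symm hd
    omega
  haveI hnt : Nontrivial (S ⧸ L) := ⟨⟨f b, 1, fun h => hbL ((hfker b).1 h)⟩⟩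
  haveI hsolQ : Group.IsSolvable (S ⧸ L) := Group.isSolvable_of_surjective hf
  have hcore : Cfsg.pPrimeCore 3 (S ⧸ L) = ⊥ :=
    Cfsg.Agent.Lib.Solvable.PSeries.pPrimeCore_quotient 3
  have hV0 : Cfsg.pCore 3 (S ⧸ L) ≠ ⊥ := by
    rcases Cfsg.Agent.Lib.Solvable.PSeries.isPSolvable_core_ne_bot
      (Cfsg.Agent.Lib.Solvable.PSeries.isPSolvable_of_solvable (p := 3) (G := S ⧸ L)) with h | h
    · exact h
    · exact absurd hcore h
  set V := Cfsg.pCore 3 (S ⧸ L) with hV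
  have hVp : IsPGroup 3 V := Cfsg.Agent.Lib.Basic.PCore.pCore_isPGroup 3
  haveI hVn : V.Normal := by
    haveI := Cfsg.Agent.Lib.Basic.PCore.pCore_char 3 (S ⧸ L)
    exact Subgroup.normal_of_characteristic _
  have hVP : V ≤ (P : Subgroup S).map f := by
    have := Cfsg.Agent.Lib.Basic.PCore.pCore_le_sylow (P.mapSurjective hf)
    simpa using this
  obtain ⟨v, hvV, hv1⟩ := (Subgroup.ne_bot_iff_exists_ne_one ..).1 hV0 |>.elim
    (fun (w : V) hw => (⟨(w : S ⧸ L), w.2, fun h => hw (Subtype.ext h)⟩ :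
      ∃ v : S ⧸ L, v ∈ V ∧ v ≠ 1))
  obtain ⟨x, hxP, hxv⟩ := hVP hvV
  let L₂ : Subgroup S := V.comap f
  haveI hL₂n : L₂.Normal := Subgroup.Normal.comap hVn f
  let N : Subgroup (P : Subgroup S) := L₂.subgroupOf (P : Subgroup S)
  haveI hNn : N.Normal := Subgroup.Normal.subgroupOf hL₂n _
  have hNne : N ≠ ⊥ := by
    intro h
    have hm : (⟨x, hxP⟩ : (P : Subgroup S)) ∈ N := by
      show (x : S) ∈ L₂
      show f x ∈ V
      rw [hxv]; exact hvV
    rw [h, Subgroup.mem_bot] at hm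
    apply hv1
    rw [← hxv]
    have : x = 1 := congrArg Subtype.val hm
    rw [this, map_one]
  have hPp : IsPGroup 3 (P : Subgroup S) := P.isPGroup'
  have hinf := Cfsg.Agent.Lib.PGroup.Basic.inf_center_ne_bot hPp hNne
  obtain ⟨z, hzm, hz1⟩ := (Subgroup.ne_bot_iff_exists_ne_one ..).1 hinf |>.elim
    (fun (w : ↥(N ⊓ Subgroup.center (P : Subgroup S))) hw =>
      (⟨(w : (P : Subgroup S)), w.2, fun h => hw (Subtype.ext h)⟩ :
      ∃ z : (P : Subgroup S), z ∈ N ⊓ Subgroup.center (P : Subgroup S) ∧ z ≠ 1))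
  have hzB : (z : S) ∈ B := by
    rw [← hBZ]
    exact ⟨z, hzm.2, rfl⟩
  have hzL₂ : (z : S) ∈ L₂ := hzm.1
  have hz1' : (z : S) ≠ 1 := fun h => hz1 (Subtype.ext h)
  -- `z` generates `B`
  have hbL₂ : b ∈ L₂ := by
    have hle : Subgroup.zpowers (z : S) ≤ B := (Subgroup.zpowers_le).2 hzB
    have hd : Nat.card (Subgroup.zpowers (z : S)) ∣ Nat.card B := Subgroup.card_dvd_of_le hle
    rw [hB] at hd
    have hc : Nat.card (Subgroup.zpowers (z : S)) = 3 := by
      rcases (Nat.dvd_prime (by norm_num : Nat.Prime 3)).1 hd with h | h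
      · exfalso
        rw [Nat.card_zpowers, orderOf_eq_one_iff] at h
        exact hz1' h
      · exact h
    have heq : Subgroup.zpowers (z : S) = B :=
      Subgroup.eq_of_le_of_card_ge hle (by rw [hc, hB])
    have hbB : b ∈ B := hb ▸ Subgroup.mem_zpowers b
    rw [← heq] at hbB
    exact ((Subgroup.zpowers_le).2 hzL₂) hbB
  have hfb : f b ∈ V := hbL₂
  -- squares
  have hq1inv : q₁⁻¹ = q₁ := inv_eq_of_mul_eq_one_left hsq
  have hsq2 : q₂ * q₂ = 1 := by
    rw [← cb1]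
    have : b * q₁ * b⁻¹ * (b * q₁ * b⁻¹) = b * (q₁ * q₁) * b⁻¹ := by group
    rw [this, hsq]; group
  have hsq3 : q₃ * q₃ = 1 := by
    rw [← cb2]
    have : b * q₂ * b⁻¹ * (b * q₂ * b⁻¹) = b * (q₂ * q₂) * b⁻¹ := by group
    rw [this, hsq2]; group
  have hq2inv : q₂⁻¹ = q₂ := inv_eq_of_mul_eq_one_left hsq2
  -- `q₂ q₃ = q₁`, so `q₃ = q₂ q₁`
  have h23 : q₂ * q₃ = q₁ := by
    have : b * q₁ * b⁻¹ * (b * q₂ * b⁻¹) = b * (q₁ * q₂) * b⁻¹ := by group
    rw [cb1, cb2, m12, cb3] at this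
    exact this
  have h3eq : q₃ = q₂ * q₁ := by
    have : q₃ = q₂⁻¹ * (q₂ * q₃) := by group
    rw [this, h23, hq2inv]
  -- the commutator
  have hfq3 : f q₃ ∈ V := by
    have e : f q₃ = f b * (f q₁ * (f b)⁻¹ * (f q₁)⁻¹) := by
      have : q₃ = b * (q₁ * b⁻¹ * q₁⁻¹) := by
        rw [h3eq, hq1inv, ← cb1]
        simp only [mul_assoc]
      rw [this]
      simp only [map_mul, map_inv]
    rw [e]
    apply V.mul_mem hfb
    have := hVn.conj_mem _ (V.inv_mem hfb) (f q₁)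
    exact this
  have hf31 : f q₃ = 1 := by
    have h2 : (f q₃) ^ 2 = 1 := by
      rw [pow_two, ← map_mul, hsq3, map_one]
    have hw : IsPGroup 3 V := hVp
    obtain ⟨k, hk⟩ := hw ⟨f q₃, hfq3⟩
    have h3k : (f q₃) ^ 3 ^ k = 1 := by
      have := congrArg Subtype.val hk
      simpa using this
    have hd1 : orderOf (f q₃) ∣ 2 := orderOf_dvd_of_pow_eq_one h2
    have hd2 : orderOf (f q₃) ∣ 3 ^ k := orderOf_dvd_of_pow_eq_one h3k
    have hcop : Nat.Coprime 2 (3 ^ k) := Nat.Coprime.pow_right k (by norm_num)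
    have := Nat.Coprime.eq_one_of_dvd (Nat.Coprime.coprime_dvd_left hd1 hcop) hd2
    exact orderOf_eq_one_iff.1 this
  have hq3L : q₃ ∈ L := (hfker q₃).1 hf31
  rw [← cb3]
  exact hLn.conj_mem q₃ hq3L b

end Cfsg.Agent.Lib.S4415
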