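import Cfsg.Agent.Lib.S4415.TwoFrames
import Cfsg.Agent.Lib.PGroup.Basic
import Cfsg.Prelude.Def_Transfer

/-!
# S4415: the `2`-group theorem
-/

namespace Cfsg.Agent.Lib.S4415

open scoped commutatorElement

variable {S E : Type*} [Group S] [AddCommGroup E] [Module (ZMod 3) E]

namespace Frame
variable {ρ : Representation (ZMod 3) S E} {b q₁ q₂ q₃ : S} {e₁ e₂ e₃ : E}

/-- The four-group of a frame. -/
def V4 (F : Frame ρ b q₁ q₂ q₃ e₁ e₂ e₃) : Subgroup S where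
  carrier := {1, q₁, q₂, q₃}
  one_mem' := by simp
  inv_mem' := by
    have e1 : q₁⁻¹ = q₁ := inv_eq_of_mul_eq_one_left F.sq1
    have e2 : q₂⁻¹ = q₂ := inv_eq_of_mul_eq_one_left F.sq2
    have e3 : q₃⁻¹ = q₃ := inv_eq_of_mul_eq_one_left F.sq3
    rintro x (rfl | rfl | rfl | rfl) <;> simp [e1, e2, e3]
  mul_mem' := by
    have t11 := F.sq1
    have t22 := F.sq2
    have t33 := F.sq3
    have t12 := F.m12
    have t13 := F.m13
    have t21 := F.m21
    have t23 := F.m23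
    have t31 := F.m31
    have t32 := F.m32
    rintro x y (rfl | rfl | rfl | rfl) (rfl | rfl | rfl | rfl) <;>
      simp [t11, t22, t33, t12, t13, t21, t23, t31, t32]

theorem mem_V4 (F : Frame ρ b q₁ q₂ q₃ e₁ e₂ e₃) {x : S} :
    x ∈ F.V4 ↔ x = 1 ∨ x = q₁ ∨ x = q₂ ∨ x = q₃ := Iff.rfl

theorem V4_conj (F : Frame ρ b q₁ q₂ q₃ e₁ e₂ e₃) {x : S} (hx : x ∈ F.V4) : b * x * b⁻¹ ∈ F.V4 := by
  rw [mem_V4] at hx ⊢
  rcases hx with rfl | rfl | rfl | rfl
  · left; group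
  · right; right; left; exact F.cb1
  · right; right; right; exact F.cb2
  · right; left; exact F.cb3

theorem V4_zpow_conj (F : Frame ρ b q₁ q₂ q₃ e₁ e₂ e₃) (hb : b ^ 3 = 1) {x : S} (hx : x ∈ F.V4)
    (i : ℤ) : b ^ i * x * (b ^ i)⁻¹ ∈ F.V4 := by
  have hn : ∀ n : ℕ, ∀ x ∈ F.V4, b ^ n * x * (b ^ n)⁻¹ ∈ F.V4 := by
    intro n
    induction n with
    | zero => intro x hx; simpa using hx
    | succ n ih =>
      intro x hx
      have := F.V4_conj (ih x hx)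
      convert this using 1
      rw [pow_succ']; group
  have h3 : (b ^ i) = b ^ (i % 3).toNat := by
    have hnn : 0 ≤ i % 3 := Int.emod_nonneg _ (by decide)
    rw [← zpow_natCast, Int.toNat_of_nonneg hnn]
    have hb' : b ^ (3 : ℤ) = 1 := by exact_mod_cast hb
    conv_lhs => rw [← Int.mul_ediv_add_emod i 3, zpow_add, zpow_mul, hb', one_zpow, one_mul]
  rw [h3]
  exact hn _ x hx

end Frame

/-- The setting of the `2`-group theorem. -/
structure XD (ρ : Representation (ZMod 3) S E) (b : S) (u s v : E) (X : Subgroup S) : Prop where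
  hf : Function.Injective ρ
  hB : BD ρ b u s v
  hX2 : IsPGroup 2 X
  hXb : ∀ x ∈ X, b * x * b⁻¹ ∈ X
  gen : X ≤ ⁅X, Subgroup.zpowers b⁆

namespace XD
variable {ρ : Representation (ZMod 3) S E} {b : S} {u s v : E} {X : Subgroup S}

theorem binv (h : XD ρ b u s v X) : b⁻¹ = b * b := by
  have h3 := h.hB.b3
  rw [pow_succ, pow_two] at h3
  exact inv_eq_of_mul_eq_one_right (by rw [← h3]; group)

theorem hXb' (h : XD ρ b u s v X) {x : S} (hx : x ∈ X) : b⁻¹ * x * b ∈ X := by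
  have e : (b * b)⁻¹ = b := by rw [← h.binv, inv_inv]
  have : b⁻¹ * x * b = b * (b * x * b⁻¹) * b⁻¹ := by
    calc b⁻¹ * x * b = (b * b) * x * (b * b)⁻¹ := by rw [e, ← h.binv]
      _ = b * (b * x * b⁻¹) * b⁻¹ := by group
  rw [this]; exact h.hXb _ (h.hXb _ hx)

theorem ord (h : XD ρ b u s v X) {x : S} (hx : x ∈ X) : ∃ m : ℕ, x ^ (2 ^ m) = 1 := by
  obtain ⟨m, hm⟩ := h.hX2 ⟨x, hx⟩
  exact ⟨m, by simpa using congrArg Subtype.val hm⟩

theorem cop (h : XD ρ b u s v X) {x : S} (hx : x ∈ X) : (orderOf x).Coprime 3 := by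
  obtain ⟨m, hm⟩ := h.ord hx
  have h1 : orderOf x ∣ 2 ^ m := orderOf_dvd_of_pow_eq_one hm
  exact Nat.Coprime.coprime_dvd_left h1 (Nat.Coprime.pow_left _ (by decide))

theorem comm_h (h : XD ρ b u s v X) {x : S} (hx : x ∈ X) : b⁻¹ * x * b * x⁻¹ ∈ X :=
  X.mul_mem (h.hXb' hx) (X.inv_mem hx)

theorem le_of_comm (h : XD ρ b u s v X) (P : Subgroup S)
    (hP : ∀ x ∈ X, ∀ i : ℤ, ⁅x, b ^ i⁆ ∈ P) : X ≤ P := by
  refine h.gen.trans ?_
  rw [Subgroup.commutator_le]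
  intro x hx y hy
  obtain ⟨i, rfl⟩ := Subgroup.mem_zpowers_iff.1 hy
  exact hP x hx i

variable [Finite S]

omit [AddCommGroup E] [Module (ZMod 3) E] in
theorem norm_of_conj {H : Subgroup S} {g : S} (hg : ∀ x ∈ H, g * x * g⁻¹ ∈ H) :
    g ∈ Subgroup.normalizer (H : Set S) := by
  rw [Subgroup.mem_normalizer_iff_map_conj_eq]
  apply Subgroup.eq_of_le_of_card_ge
  · rintro _ ⟨x, hx, rfl⟩
    exact hg x hx
  · have : Nat.card (H.map (MulAut.conj g).toMonoidHom) = Nat.card H :=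
      Nat.card_congr (Subgroup.equivMapOfInjective H (MulAut.conj g).toMonoidHom
        (MulAut.conj g).injective).symm.toEquiv
    exact this.symm.le

/-- Normalizers of the four-group centralize it. -/
theorem cent_of_norm (h : XD ρ b u s v X) {q₁ q₂ q₃ : S} {e₁ e₂ e₃ : E}
    (F : Frame ρ b q₁ q₂ q₃ e₁ e₂ e₃) (hq1 : q₁ ∈ X) (hq2 : q₂ ∈ X) (hq3 : q₃ ∈ X)
    {g : S} (hg : g ∈ X) (hgV : ∀ x ∈ F.V4, g * x * g⁻¹ ∈ F.V4) :
    g * q₁ = q₁ * g ∧ g * q₂ = q₂ * g := by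
  classical
  -- the normalizer of the four-group in `X`
  set P : Subgroup S := X ⊓ Subgroup.normalizer (F.V4 : Set S) with hP
  have hPp : IsPGroup 2 P := h.hX2.to_le inf_le_left
  have hVN : F.V4 ≤ P := by
    intro x hx
    refine ⟨?_, Subgroup.le_normalizer hx⟩
    rcases (F.mem_V4).1 hx with rfl | rfl | rfl | rfl
    · exact X.one_mem
    · exact hq1
    · exact hq2
    · exact hq3
  have hq1ne : q₁ ≠ 1 := by
    intro h1
    have := F.q12
    rw [h1, r1] at this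
    exact F.ne2 (eq_neg_self_zero this)
  have hN : (F.V4.subgroupOf P).Normal := by
    constructor
    rintro ⟨n, hn⟩ hnV ⟨c, hc⟩
    simp only [Subgroup.mem_subgroupOf] at hnV ⊢
    exact (Subgroup.mem_normalizer_iff.1 hc.2 n).1 hnV
  have hne : F.V4.subgroupOf P ≠ ⊥ := by
    intro h0
    have : (⟨q₁, hVN (Or.inr (Or.inl rfl))⟩ : P) ∈ F.V4.subgroupOf P := by
      rw [Subgroup.mem_subgroupOf]; exact Or.inr (Or.inl rfl)
    rw [h0, Subgroup.mem_bot] at this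
    exact hq1ne (congrArg Subtype.val this)
  have hc := Cfsg.Agent.Lib.PGroup.Basic.inf_center_ne_bot hPp hne
  obtain ⟨⟨n, hn⟩, hn1⟩ := Subgroup.ne_bot_iff_exists_ne_one.1 hc
  have hnV : (n : S) ∈ F.V4 := by
    have : n ∈ F.V4.subgroupOf P := hn.1
    exact Subgroup.mem_subgroupOf.1 this
  have hnc : ∀ y ∈ P, (n : S) * y = y * n := by
    intro y hy
    have := (Subgroup.mem_center_iff.1 hn.2) ⟨y, hy⟩
    exact (congrArg Subtype.val this).symm
  have hn1' : (n : S) ≠ 1 := by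
    intro h1
    apply hn1
    ext
    exact h1
  have V4back : ∀ x ∈ F.V4, b⁻¹ * x * b ∈ F.V4 := by
    intro x hx
    have e : (b * b)⁻¹ = b := by rw [← h.binv, inv_inv]
    have : b⁻¹ * x * b = b * (b * x * b⁻¹) * b⁻¹ := by
      calc b⁻¹ * x * b = (b * b) * x * (b * b)⁻¹ := by rw [e, ← h.binv]
        _ = b * (b * x * b⁻¹) * b⁻¹ := by group
    rw [this]; exact F.V4_conj (F.V4_conj hx)
  have Pb : ∀ y ∈ P, b⁻¹ * y * b ∈ P := by
    intro y hy
    refine ⟨h.hXb' hy.1, norm_of_conj ?_⟩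
    intro w hw
    have h1 := (Subgroup.mem_normalizer_iff.1 hy.2 _).1 (F.V4_conj hw)
    have h2 := V4back _ h1
    convert h2 using 1
    group
  have Zb : ∀ x : S, (∀ y ∈ P, x * y = y * x) → ∀ y ∈ P, (b * x * b⁻¹) * y = y * (b * x * b⁻¹) := by
    intro x hx y hy
    have h1 := hx _ (Pb y hy)
    calc (b * x * b⁻¹) * y = b * (x * (b⁻¹ * y * b)) * b⁻¹ := by group
      _ = b * ((b⁻¹ * y * b) * x) * b⁻¹ := by rw [h1]
      _ = y * (b * x * b⁻¹) := by group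
  have hgP : g ∈ P := ⟨hg, norm_of_conj hgV⟩
  have key : (∀ y ∈ P, q₁ * y = y * q₁) ∧ (∀ y ∈ P, q₂ * y = y * q₂) := by
    rcases (F.mem_V4).1 hnV with h0 | h0 | h0 | h0
    · exact absurd h0 hn1'
    · rw [h0] at hnc
      have := Zb _ hnc
      rw [F.cb1] at this
      exact ⟨hnc, this⟩
    · rw [h0] at hnc
      have h3 := Zb _ hnc
      rw [F.cb2] at h3
      have h4 := Zb _ h3
      rw [F.cb3] at h4
      exact ⟨h4, hnc⟩
    · rw [h0] at hnc
      have h3 := Zb _ hnc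
      rw [F.cb3] at h3
      have h4 := Zb _ h3
      rw [F.cb1] at h4
      exact ⟨h3, h4⟩
  exact ⟨(key.1 g hgP).symm, (key.2 g hgP).symm⟩

/-- Commutators of centralizing elements with powers of `b` lie in the four-group. -/
theorem comm_V4 (h : XD ρ b u s v X) {q₁ q₂ q₃ : S} {e₁ e₂ e₃ : E}
    (F : Frame ρ b q₁ q₂ q₃ e₁ e₂ e₃) {n : S} (h1 : n * q₁ = q₁ * n) (h2 : n * q₂ = q₂ * n) (i : ℤ) :
    ⁅n, b ^ i⁆ ∈ F.V4 := by
  obtain ⟨t, ht, -, hdb⟩ := F.split h.hf h1 h2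
  have htV : t ∈ F.V4 := ht
  have ht1 : t * t = 1 := by
    rcases ht with rfl | rfl | rfl | rfl
    · simp
    · exact F.sq1
    · exact F.sq2
    · exact F.sq3
  have htinv : t⁻¹ = t := inv_eq_of_mul_eq_one_left ht1
  set d := n * t with hd
  have hn : n = d * t := by rw [hd, mul_assoc, ht1, mul_one]
  have hdbi : d * b ^ i = b ^ i * d := (Commute.zpow_right (show Commute d b from hdb) i)
  have ctV : ∀ w ∈ F.V4, d * w = w * d := by
    have c1 : t * q₁ = q₁ * t := by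
      rcases ht with h | h | h | h <;> rw [h]
      · simp
      · rw [F.m21, F.m12]
      · rw [F.m31, F.m13]
    have c2 : t * q₂ = q₂ * t := by
      rcases ht with h | h | h | h <;> rw [h]
      · simp
      · rw [F.m12, F.m21]
      · rw [F.m32, F.m23]
    have d1 : d * q₁ = q₁ * d := by rw [hd, mul_assoc, c1, ← mul_assoc, h1, mul_assoc]
    have d2 : d * q₂ = q₂ * d := by rw [hd, mul_assoc, c2, ← mul_assoc, h2, mul_assoc]
    intro w hw
    rcases (F.mem_V4).1 hw with rfl | rfl | rfl | rfl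
    · simp
    · exact d1
    · exact d2
    · exact F.comm3 d1 d2
  have hw : t * (b ^ i * t⁻¹ * (b ^ i)⁻¹) ∈ F.V4 :=
    F.V4.mul_mem htV (F.V4_zpow_conj h.hB.b3 (F.V4.inv_mem htV) i)
  have : ⁅n, b ^ i⁆ = t * (b ^ i * t⁻¹ * (b ^ i)⁻¹) := by
    rw [commutatorElement_def, hn]
    have e1 : d * t * b ^ i * (d * t)⁻¹ * (b ^ i)⁻¹ =
        d * (t * (b ^ i * t⁻¹ * (b ^ i)⁻¹)) * d⁻¹ * ((b ^ i) * d * (b ^ i)⁻¹ * d⁻¹)⁻¹ := by group
    have e2 : (b ^ i) * d * (b ^ i)⁻¹ * d⁻¹ = 1 := by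
      rw [← hdbi]; group
    rw [e1, e2, ctV _ hw]; group
  rw [this]; exact hw

/-- The first dichotomy of the `2`-group theorem. -/
theorem main_alt (h : XD ρ b u s v X) {q₁ q₂ q₃ : S} {e₁ e₂ e₃ : E}
    (F : Frame ρ b q₁ q₂ q₃ e₁ e₂ e₃) (hq1 : q₁ ∈ X) (hq2 : q₂ ∈ X) (hq3 : q₃ ∈ X) :
    X = F.V4 ∨ ∃ (t₁ t₂ t₃ : S) (f₁ f₂ f₃ a : E) (z w : S), t₁ ∈ F.V4 ∧ t₂ ∈ F.V4 ∧ t₃ ∈ F.V4 ∧
      z ∈ X ∧ w ∈ X ∧ ZF ρ b w z t₁ t₂ t₃ f₁ f₂ f₃ a := by
  have hVX : F.V4 ≤ X := by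
    intro x hx
    rcases (F.mem_V4).1 hx with rfl | rfl | rfl | rfl
    · exact X.one_mem
    · exact hq1
    · exact hq2
    · exact hq3
  set N₁ : Subgroup S := X ⊓ Subgroup.centralizer ({q₁, q₂} : Set S) with hN₁
  have memN : ∀ {x}, x ∈ N₁ ↔ x ∈ X ∧ x * q₁ = q₁ * x ∧ x * q₂ = q₂ * x := by
    intro x
    rw [hN₁, Subgroup.mem_inf, Subgroup.mem_centralizer_iff]
    constructor
    · rintro ⟨a, c⟩
      exact ⟨a, (c q₁ (by simp)).symm, (c q₂ (by simp)).symm⟩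
    · rintro ⟨a, c, d⟩
      refine ⟨a, ?_⟩
      rintro g (rfl | rfl)
      · exact c.symm
      · exact d.symm
  by_cases hN : N₁ = X
  · left
    apply le_antisymm _ hVX
    apply h.le_of_comm
    intro x hx i
    have hx' := hx
    rw [← hN, memN] at hx'
    exact h.comm_V4 F hx'.2.1 hx'.2.2 i
  · right
    have hlt : N₁ < X := lt_of_le_of_ne inf_le_left hN
    obtain ⟨x, hxX, hxN, hxn⟩ :=
      Cfsg.Agent.Lib.PGroup.Basic.exists_mem_normalizer_of_lt h.hX2 hlt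
    have hq11 : q₁ ∈ N₁ := memN.2 ⟨hq1, rfl, F.m12.trans F.m21.symm⟩
    have hq22 : q₂ ∈ N₁ := memN.2 ⟨hq2, F.m21.trans F.m12.symm, rfl⟩
    have hq33 : q₃ ∈ N₁ := memN.2 ⟨hq3, F.m31.trans F.m13.symm, F.m32.trans F.m23.symm⟩
    have hconj : ∀ y ∈ N₁, x * y * x⁻¹ ∈ N₁ := fun y hy =>
      (Subgroup.mem_normalizer_iff.1 hxn y).1 hy
    have F' := F.conj x
    have cm : ∀ y ∈ N₁, y * q₁ = q₁ * y ∧ y * q₂ = q₂ * y ∧ y * q₃ = q₃ * y := by
      intro y hy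
      have := (memN.1 hy).2
      exact ⟨this.1, this.2, F.comm3 this.1 this.2⟩
    have hc : Cm q₁ q₂ q₃ (x * q₁ * x⁻¹) (x * q₂ * x⁻¹) (x * q₃ * x⁻¹) := by
      have a1 := cm _ (hconj _ hq11)
      have a2 := cm _ (hconj _ hq22)
      have a3 := cm _ (hconj _ hq33)
      exact ⟨a1.1.symm, a2.1.symm, a3.1.symm, a1.2.1.symm, a2.2.1.symm, a3.2.1.symm, a1.2.2.symm,
        a2.2.2.symm, a3.2.2.symm⟩
    have hb'3 : (x * b * x⁻¹) ^ 3 = 1 := by
      rw [conj_pow, h.hB.b3]; group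
    have hg : b⁻¹ * (x * b * x⁻¹) ∈ X := by
      have : b⁻¹ * (x * b * x⁻¹) = (b⁻¹ * x * b) * x⁻¹ := by group
      rw [this]; exact h.comm_h hxX
    have hqV : ∀ {q}, q ∈ F.V4 → q ∈ X := fun hq => hVX hq
    have t := two_frames (V := F.V4) (Vp := X) h.hf F F' hc h.hB.b3 hb'3 (h.ord hg)
      (Or.inr (Or.inl rfl)) (Or.inr (Or.inr (Or.inl rfl))) (Or.inr (Or.inr (Or.inr rfl)))
      (X.mul_mem (X.mul_mem hxX hq1) (X.inv_mem hxX))
      (X.mul_mem (X.mul_mem hxX hq2) (X.inv_mem hxX))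
      (X.mul_mem (X.mul_mem hxX hq3) (X.inv_mem hxX))
    have notnorm : ¬ (∀ y ∈ F.V4, x * y * x⁻¹ ∈ F.V4) := by
      intro hV
      have := h.cent_of_norm F hq1 hq2 hq3 hxX hV
      exact hxN (memN.2 ⟨hxX, this.1, this.2⟩)
    rcases t with t | t | t
    · -- `b' = b`
      exfalso
      have hxb : x * b = b * x := by
        calc x * b = (x * b * x⁻¹) * x := by group
          _ = b * x := by rw [t]
      have form : ∀ q : S, x * (b * q * b⁻¹ * q⁻¹) * x⁻¹ =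
          b * (x * q * x⁻¹) * b⁻¹ * (x * q * x⁻¹)⁻¹ := by
        intro q
        have hc1 : x * b * x⁻¹ = b := by rw [hxb]; group
        have hc2 : x * b⁻¹ * x⁻¹ = b⁻¹ := by
          have := congrArg (·⁻¹) hc1
          simpa [mul_assoc] using this
        calc x * (b * q * b⁻¹ * q⁻¹) * x⁻¹
            = (x * b * x⁻¹) * (x * q * x⁻¹) * (x * b⁻¹ * x⁻¹) * (x * q * x⁻¹)⁻¹ := by group
          _ = b * (x * q * x⁻¹) * b⁻¹ * (x * q * x⁻¹)⁻¹ := by rw [hc1, hc2]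
      have val : ∀ q ∈ N₁, b * (x * q * x⁻¹) * b⁻¹ * (x * q * x⁻¹)⁻¹ ∈ F.V4 := by
        intro q hq
        have hn := hconj q hq
        have h4 := (memN.1 hn).2
        have := h.comm_V4 F h4.1 h4.2 1
        have h5 := F.V4.inv_mem this
        rw [commutatorElement_inv, zpow_one] at h5
        rw [commutatorElement_def] at h5
        exact h5
      have e3 : b * q₁ * b⁻¹ * q₁⁻¹ = q₃ := by
        rw [F.cb1, inv_eq_of_mul_eq_one_left F.sq1, F.m21]
      have e1 : b * q₂ * b⁻¹ * q₂⁻¹ = q₁ := by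
        rw [F.cb2, inv_eq_of_mul_eq_one_left F.sq2, F.m32]
      have e2 : b * q₃ * b⁻¹ * q₃⁻¹ = q₂ := by
        rw [F.cb3, inv_eq_of_mul_eq_one_left F.sq3, F.m13]
      apply notnorm
      intro y hy
      rcases (F.mem_V4).1 hy with h0 | h0 | h0 | h0
      · rw [h0]; simp [F.V4.one_mem]
      · rw [h0]
        have := val _ hq22
        rw [← form, e1] at this
        exact this
      · rw [h0]
        have := val _ hq33
        rw [← form, e2] at this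
        exact this
      · rw [h0]
        have := val _ hq11
        rw [← form, e3] at this
        exact this
    · -- `Q' = Q`
      exfalso
      apply notnorm
      intro y hy
      rcases (F.mem_V4).1 hy with h0 | h0 | h0 | h0
      · rw [h0]; simp [F.V4.one_mem]
      · rw [h0]; exact t.1
      · rw [h0]; exact t.2.1
      · rw [h0]; exact t.2.2
    · obtain ⟨t₁, t₂, t₃, f₁, f₂, f₃, a, t', q, h1, h2, h3, h4, h5, h6⟩ := t
      exact ⟨t₁, t₂, t₃, f₁, f₂, f₃, a, t' * q, b⁻¹ * (x * b * x⁻¹), h1, h2, h3,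
        X.mul_mem h4 (hVX h5), hg, h6⟩

end XD

end Cfsg.Agent.Lib.S4415
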