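import Cfsg.Agent.Lib.S4415.ThmX

/-!
# S4415: the central involution
-/

namespace Cfsg.Agent.Lib.S4415

open scoped commutatorElement

variable {S E : Type*} [Group S] [AddCommGroup E] [Module (ZMod 3) E]

namespace ZF
variable {ρ : Representation (ZMod 3) S E} {b h z q₁ q₂ q₃ : S} {e₁ e₂ e₃ a : E}

theorem m_zero (Z : ZF ρ b h z q₁ q₂ q₃ e₁ e₂ e₃ a) {α₁ α₂ α₃ α₄ : ZMod 3}
    (hm : α₁ • e₁ + α₂ • e₂ + α₃ • e₃ + α₄ • a = 0) : α₁ = 0 ∧ α₂ = 0 ∧ α₃ = 0 ∧ α₄ = 0 := by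
  have y1 : ρ q₁ (α₄ • a) = α₄ • a := by rw [map_smul, Z.a1]
  have y2 : ρ q₂ (α₄ • a) = α₄ • a := by rw [map_smul, Z.a2]
  have := Z.F.indep y1 y2 hm
  refine ⟨this.1, this.2.1, this.2.2.1, ?_⟩
  rcases smul_eq_zero.1 this.2.2.2 with h0 | h0
  · exact h0
  · exact absurd h0 Z.ane

theorem zm (Z : ZF ρ b h z q₁ q₂ q₃ e₁ e₂ e₃ a) (α₁ α₂ α₃ α₄ : ZMod 3) :
    ρ z (α₁ • e₁ + α₂ • e₂ + α₃ • e₃ + α₄ • a) = -(α₁ • e₁ + α₂ • e₂ + α₃ • e₃ + α₄ • a) := by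
  simp only [map_add, map_smul, Z.z1, Z.z2, Z.z3, Z.za]
  module

/-- The `+1` eigenspace of `z`. -/
theorem zy (Z : ZF ρ b h z q₁ q₂ q₃ e₁ e₂ e₃ a) {y : E} (hy : ρ z y = y) :
    ρ q₁ y = y ∧ ρ q₂ y = y ∧ ρ h y = y := by
  obtain ⟨α₁, α₂, α₃, α₄, w, e, w0, w1, w2, w3⟩ := Z.dec y
  have h2 : ρ z y = -(α₁ • e₁ + α₂ • e₂ + α₃ • e₃ + α₄ • a) + w := by
    rw [e, map_add, Z.zm, w0]
  rw [hy] at h2
  have h3 : α₁ • e₁ + α₂ • e₂ + α₃ • e₃ + α₄ • a = 0 := by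
    apply eq_neg_self_zero
    have h4 := h2
    rw [e] at h4
    exact add_right_cancel h4
  have : y = w := by rw [e, h3, zero_add]
  rw [this]; exact ⟨w1, w2, w3⟩

theorem bz (Z : ZF ρ b h z q₁ q₂ q₃ e₁ e₂ e₃ a) {y : E} (hy : ρ z y = y) : ρ b y = y := by
  have := Z.zy hy
  exact Z.F.hH y this.1 this.2.1

theorem ba (Z : ZF ρ b h z q₁ q₂ q₃ e₁ e₂ e₃ a) : ρ b a = a := Z.F.hH a Z.a1 Z.a2

/-- The `-1` eigenspace of `z`. -/
theorem minus (Z : ZF ρ b h z q₁ q₂ q₃ e₁ e₂ e₃ a) {y : E} (hy : ρ z y = -y) :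
    ∃ α₁ α₂ α₃ α₄ : ZMod 3, y = α₁ • e₁ + α₂ • e₂ + α₃ • e₃ + α₄ • a := by
  obtain ⟨α₁, α₂, α₃, α₄, w, e, w0, -, -, -⟩ := Z.dec y
  refine ⟨α₁, α₂, α₃, α₄, ?_⟩
  have h2 : ρ z y = -(α₁ • e₁ + α₂ • e₂ + α₃ • e₃ + α₄ • a) + w := by
    rw [e, map_add, Z.zm, w0]
  have h3 : w = -w := by
    rw [hy] at h2
    rw [e, neg_add] at h2
    exact (add_left_cancel h2).symm
  have h4 := eq_neg_self_zero h3
  rw [e, h4, add_zero]

theorem lineA (Z : ZF ρ b h z q₁ q₂ q₃ e₁ e₂ e₃ a) {y : E} (hy : ρ z y = -y)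
    (y1 : ρ q₁ y = y) (y2 : ρ q₂ y = y) : ∃ α : ZMod 3, y = α • a := by
  obtain ⟨α₁, α₂, α₃, α₄, e⟩ := Z.minus hy
  have w1 : ρ q₁ (α₄ • a) = α₄ • a := by rw [map_smul, Z.a1]
  have w2 : ρ q₂ (α₄ • a) = α₄ • a := by rw [map_smul, Z.a2]
  have := Z.F.coord_all (a₁ := α₁) (a₂ := α₂) (a₃ := α₃) (c₁ := 0) (c₂ := 0) (c₃ := 0)
    w1 w2 y1 y2 (by rw [e]; simp)
  exact ⟨α₄, by rw [this.2.2.2]⟩

theorem ext_of (Z : ZF ρ b h z q₁ q₂ q₃ e₁ e₂ e₃ a) (hf : Function.Injective ρ) {g k : S}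
    (h1 : ρ g e₁ = ρ k e₁) (h2 : ρ g e₂ = ρ k e₂) (h3 : ρ g e₃ = ρ k e₃) (h4 : ρ g a = ρ k a)
    (hy : ∀ y, ρ z y = y → ρ g y = ρ k y) : g = k := by
  apply hf
  ext x
  obtain ⟨α₁, α₂, α₃, α₄, y, rfl, y0, -, -, -⟩ := Z.dec x
  simp only [map_add, map_smul, h1, h2, h3, h4, hy y y0]

variable (Z : ZF ρ b h z q₁ q₂ q₃ e₁ e₂ e₃ a) (hf : Function.Injective ρ)
include Z hf

theorem zb : z * b = b * z := by
  refine Z.ext_of hf ?_ ?_ ?_ ?_ ?_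
  · rw [rm ρ z b, rm ρ b z, Z.F.b1, Z.z1, Z.z2, map_neg, Z.F.b1]
  · rw [rm ρ z b, rm ρ b z, Z.F.b2, Z.z2, Z.z3, map_neg, Z.F.b2]
  · rw [rm ρ z b, rm ρ b z, Z.F.b3, Z.z3, Z.z1, map_neg, Z.F.b3]
  · rw [rm ρ z b, rm ρ b z, Z.ba, Z.za, map_neg, Z.ba]
  · intro y hy
    rw [rm ρ z b, rm ρ b z, Z.bz hy, hy, Z.bz hy]

theorem q1z : q₁ * z = z * q₁ := by
  refine Z.ext_of hf ?_ ?_ ?_ ?_ ?_
  · rw [rm ρ q₁ z, rm ρ z q₁, Z.z1, Z.F.q11, map_neg, Z.F.q11, Z.z1]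
  · rw [rm ρ q₁ z, rm ρ z q₁, Z.z2, Z.F.q12, map_neg, map_neg, Z.F.q12, Z.z2]
  · rw [rm ρ q₁ z, rm ρ z q₁, Z.z3, Z.F.q13, map_neg, map_neg, Z.F.q13, Z.z3]
  · rw [rm ρ q₁ z, rm ρ z q₁, Z.za, Z.a1, map_neg, Z.a1, Z.za]
  · intro y hy
    have := Z.zy hy
    rw [rm ρ q₁ z, rm ρ z q₁, hy, this.1, hy]

theorem q2z : q₂ * z = z * q₂ := by
  refine Z.ext_of hf ?_ ?_ ?_ ?_ ?_
  · rw [rm ρ q₂ z, rm ρ z q₂, Z.z1, Z.F.q21, map_neg, map_neg, Z.F.q21, Z.z1]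
  · rw [rm ρ q₂ z, rm ρ z q₂, Z.z2, Z.F.q22, map_neg, Z.F.q22, Z.z2]
  · rw [rm ρ q₂ z, rm ρ z q₂, Z.z3, Z.F.q23, map_neg, map_neg, Z.F.q23, Z.z3]
  · rw [rm ρ q₂ z, rm ρ z q₂, Z.za, Z.a2, map_neg, Z.a2, Z.za]
  · intro y hy
    have := Z.zy hy
    rw [rm ρ q₂ z, rm ρ z q₂, hy, this.2.1, hy]

theorem hz : h * z = z * h := by
  have aux : ∀ {c d : E}, ρ z c = -c → Sg c d → ρ z d = -d := fun hc hs => hs.symm.neg hc
  refine Z.ext_of hf ?_ ?_ ?_ ?_ ?_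
  · rw [rm ρ h z, rm ρ z h, Z.z1, map_neg, aux Z.za Z.h1]
  · rw [rm ρ h z, rm ρ z h, Z.z2, map_neg, aux Z.z3 Z.h2]
  · rw [rm ρ h z, rm ρ z h, Z.z3, map_neg, aux Z.z2 Z.h3]
  · rw [rm ρ h z, rm ρ z h, Z.za, map_neg, aux Z.z1 Z.ha]
  · intro y hy
    have := Z.zy hy
    rw [rm ρ h z, rm ρ z h, hy, this.2.2, hy]

end ZF

/-- The `-1` eigenspace. -/
def mn (ρ : Representation (ZMod 3) S E) (k : S) : Submodule (ZMod 3) E :=
  LinearMap.ker (ρ k + LinearMap.id)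

theorem mem_mn {ρ : Representation (ZMod 3) S E} {k : S} {y : E} : y ∈ mn ρ k ↔ ρ k y = -y := by
  simp only [mn, LinearMap.mem_ker, LinearMap.add_apply, LinearMap.id_apply]
  exact add_eq_zero_iff_eq_neg

theorem card_mn {ρ : Representation (ZMod 3) S E} (x k : S) :
    Nat.card (mn ρ (x * k * x⁻¹)) = Nat.card (mn ρ k) := by
  apply Nat.card_congr
  refine ⟨fun y => ⟨ρ x⁻¹ y.1, ?_⟩, fun y => ⟨ρ x y.1, ?_⟩, ?_, ?_⟩
  · have := mem_mn.1 y.2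
    rw [mem_mn]
    have h2 := congrArg (ρ x⁻¹) this
    rwa [rm, rm, rinvl, map_neg] at h2
  · have := mem_mn.1 y.2
    rw [mem_mn, rconj, this, map_neg]
  · intro y; ext; exact rinvr ρ x _
  · intro y; ext; exact rinvl ρ x _

namespace XD
variable {ρ : Representation (ZMod 3) S E} {b : S} {u s v : E} {X : Subgroup S}
  {w z q₁ q₂ q₃ : S} {e₁ e₂ e₃ a : E}

variable [Finite S] [Finite E]

theorem z_central (hX : XD ρ b u s v X) (Z : ZF ρ b w z q₁ q₂ q₃ e₁ e₂ e₃ a)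
    (hq1 : q₁ ∈ X) (hq2 : q₂ ∈ X) (hzX : z ∈ X) (hwX : w ∈ X) : ∀ x ∈ X, x * z = z * x := by
  classical
  have hf := hX.hf
  set X₁ : Subgroup S := X ⊓ Subgroup.centralizer ({z} : Set S) with hX₁
  have memX₁ : ∀ {x}, x ∈ X₁ ↔ x ∈ X ∧ x * z = z * x := by
    intro x
    rw [hX₁, Subgroup.mem_inf, Subgroup.mem_centralizer_iff]
    constructor
    · rintro ⟨c, d⟩
      exact ⟨c, (d z (by simp)).symm⟩
    · rintro ⟨c, d⟩
      refine ⟨c, ?_⟩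
      rintro g rfl
      exact d.symm
  by_contra hcon
  have hne : X₁ ≠ X := by
    intro he
    apply hcon
    intro x hx
    rw [← he] at hx
    exact (memX₁.1 hx).2
  have hlt : X₁ < X := lt_of_le_of_ne inf_le_left hne
  obtain ⟨x, hxX, hxN, hxn⟩ :=
    Cfsg.Agent.Lib.PGroup.Basic.exists_mem_normalizer_of_lt hX.hX2 hlt
  set z' := x * z * x⁻¹ with hz'
  have hz'c : ∀ y ∈ X₁, z' * y = y * z' := by
    intro y hy
    have h1 : x⁻¹ * y * x ∈ X₁ := by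
      have := (Subgroup.mem_normalizer_iff.1 (Subgroup.inv_mem _ hxn) y).1 hy
      simpa using this
    have h2 := (memX₁.1 h1).2
    calc z' * y = x * (z * (x⁻¹ * y * x)) * x⁻¹ := by rw [hz']; group
      _ = x * ((x⁻¹ * y * x) * z) * x⁻¹ := by rw [h2]
      _ = y * z' := by rw [hz']; group
  have zb := Z.zb hf
  have m1 : q₁ ∈ X₁ := memX₁.2 ⟨hq1, Z.q1z hf⟩
  have m2 : q₂ ∈ X₁ := memX₁.2 ⟨hq2, Z.q2z hf⟩
  have mw : w ∈ X₁ := memX₁.2 ⟨hwX, Z.hz hf⟩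
  have mz : z ∈ X₁ := memX₁.2 ⟨hzX, rfl⟩
  have zbi : z * b⁻¹ = b⁻¹ * z := by
    rw [eq_inv_mul_iff_mul_eq, ← mul_assoc, ← zb, mul_assoc, mul_inv_cancel, mul_one]
  have mw' : b * w * b⁻¹ ∈ X₁ := by
    refine memX₁.2 ⟨hX.hXb _ hwX, ?_⟩
    calc b * w * b⁻¹ * z = b * w * (b⁻¹ * z) := by group
      _ = b * (w * z) * b⁻¹ := by rw [← zbi]; group
      _ = b * (z * w) * b⁻¹ := by rw [Z.hz hf]
      _ = (b * z) * w * b⁻¹ := by group
      _ = z * (b * w * b⁻¹) := by rw [← zb]; group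
  have tr : ∀ g ∈ X₁, ∀ c d : E, Sg c (ρ g d) →
      (ρ z' d = d → ρ z' c = c) ∧ (ρ z' d = -d → ρ z' c = -c) := by
    intro g hg c d hs
    constructor
    · intro h0
      apply hs.pos
      rw [← rm, hz'c g hg, rm, h0]
    · intro h0
      apply hs.neg
      rw [← rm, hz'c g hg, rm, h0, map_neg]
  have c1 := hz'c q₁ m1
  have c2 := hz'c q₂ m2
  have cz := hz'c z mz
  have s1 := Z.F.eig1 c1 c2
  have s2 := Z.F.eig2 c1 c2
  have s3 := Z.F.eig3 c1 c2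
  have sa : Sg a (ρ z' a) := by
    have a1 : ρ z (ρ z' a) = -ρ z' a := by rw [← rm, ← cz, rm, Z.za, map_neg]
    have a2 : ρ q₁ (ρ z' a) = ρ z' a := by rw [← rm, ← c1, rm, Z.a1]
    have a3 : ρ q₂ (ρ z' a) = ρ z' a := by rw [← rm, ← c2, rm, Z.a2]
    obtain ⟨α, e⟩ := Z.lineA a1 a2 a3
    have hne0 : ρ z' a ≠ 0 := fun h0 => Z.ane ((r_zero_iff ρ z' a).1 h0)
    rcases zmod3_cases α with rfl | rfl | rfl
    · rw [zero_smul] at e; exact absurd e hne0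
    · left; simpa using e
    · right; simpa using e
  have t1 := tr w mw a e₁ Z.h1
  have t1' := tr w mw e₁ a Z.ha
  have t2 := tr w mw e₂ e₃ Z.h3
  have t3 : Sg a (ρ (b * w * b⁻¹) e₂) := by
    have e0 : ρ (b * w * b⁻¹) e₂ = ρ b (ρ w e₁) := by
      rw [rm, rm, Z.F.binv1]
    rw [e0]
    rcases Z.h1 with h0 | h0
    · left; rw [h0, Z.ba]
    · right; rw [h0, map_neg, Z.ba]
  have t3' := tr _ mw' a e₂ t3
  have hnotmem : z' ≠ z := by
    intro he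
    apply hxN
    refine memX₁.2 ⟨hxX, ?_⟩
    calc x * z = (x * z * x⁻¹) * x := by group
      _ = z * x := by rw [← hz', he]
  have hne1 := Z.F.ne
  have hne2 := Z.F.ne2
  have hne3 := Z.F.ne3
  have z'2 : z' * z' = 1 := by
    rw [hz']
    calc x * z * x⁻¹ * (x * z * x⁻¹) = x * (z * z) * x⁻¹ := by group
      _ = 1 := by rw [Z.zz]; group
  have noS : ∀ {y : E}, y ≠ 0 → ρ z' y = y → ρ z' y = -y → False := fun hy h1 h2 =>
    no_sign (p := z') hy h1 h2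
  rcases sa with sa | sa
  · -- `z'` trivial on the four lines
    have p1 : ρ z' e₁ = e₁ := by
      rcases s1 with s1 | s1
      · exact s1
      · exact (noS Z.ane sa (t1.2 s1)).elim
    have p2 : ρ z' e₂ = e₂ := by
      rcases s2 with s2 | s2
      · exact s2
      · exact (noS Z.ane sa (t3'.2 s2)).elim
    have p3 : ρ z' e₃ = e₃ := by
      rcases s3 with s3 | s3
      · exact s3
      · exact (noS hne2 p2 (t2.2 s3)).elim
    have key : ∀ y, ρ z' y = -y → ρ z y = y := by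
      intro y hy
      obtain ⟨α₁, α₂, α₃, α₄, t, e, t0, -, -, -⟩ := Z.dec y
      set m := α₁ • e₁ + α₂ • e₂ + α₃ • e₃ + α₄ • a with hm
      have zm : ρ z' m = m := by
        simp only [hm, map_add, map_smul, p1, p2, p3, sa]
      have zmz : ρ z m = -m := Z.zm _ _ _ _
      have h1 : ρ z' y = m + ρ z' t := by rw [e, map_add, zm]
      have h2 : m + m = -(ρ z' t + t) := by
        have : m + ρ z' t = -(m + t) := by rw [← h1, hy, e]
        linear_combination (norm := abel) this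
      have h3 : ρ z (ρ z' t + t) = ρ z' t + t := by
        rw [map_add, t0, ← rm, ← cz, rm, t0]
      have h4 : m + m = 0 := by
        apply eq_neg_self_zero
        have e5 := congrArg (ρ z) h2
        rw [map_neg, h3, ← h2, map_add, zmz] at e5
        rw [neg_add]
        exact e5.symm
      have h5 : m = 0 := by
        have h6 : (2 : ZMod 3) • m = 0 := by rw [two_smul]; exact h4
        rcases smul_eq_zero.1 h6 with h0 | h0
        · exact absurd h0 (by decide)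
        · exact h0
      rw [e, h5, zero_add, t0]
    have fix : ∀ c : E, ρ z c = -c → ρ b (ρ x c) = ρ x c := by
      intro c hc
      have h1 : ρ z' (ρ x c) = -ρ x c := by rw [hz', rconj, hc, map_neg]
      exact Z.bz (key _ h1)
    have hbb : b = x * b * x⁻¹ := by
      have hg : b⁻¹ * (x * b * x⁻¹) ∈ X := by
        have : b⁻¹ * (x * b * x⁻¹) = (b⁻¹ * x * b) * x⁻¹ := by group
        rw [this]; exact hX.comm_h hxX
      refine eq_of_nn ρ hf hX.hB.b3 (by rw [conj_pow, hX.hB.b3]; group) (hX.cop hg) ?_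
      intro y
      obtain ⟨α₁, α₂, α₃, t, e, t1, t2⟩ := Z.F.dec (ρ x⁻¹ y)
      have hy : y = ρ x (ρ x⁻¹ y) := (rinvr ρ x y).symm
      have h5 : ρ (x * b * x⁻¹) y - y = ρ x (ρ b (ρ x⁻¹ y) - ρ x⁻¹ y) := by
        rw [map_sub, rinvr, rm, rm]
      rw [h5, e]
      simp only [map_add, map_smul, Z.F.b1, Z.F.b2, Z.F.b3, Z.F.hH t t1 t2, map_sub,
        fix e₁ Z.z1, fix e₂ Z.z2, fix e₃ Z.z3]
      abel
    have h5 : ρ x e₂ = ρ x e₁ := by
      have h6 := fix e₁ Z.z1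
      have h7 : ρ x e₂ = ρ (x * b * x⁻¹) (ρ x e₁) := by rw [rconj, Z.F.b1]
      rw [h7, ← hbb, h6]
    have h6 := rinj ρ x h5
    have := Z.F.indep (a₁ := 1) (a₂ := -1) (a₃ := 0) (y := 0) (map_zero _) (map_zero _)
      (by rw [h6]; simp)
    exact absurd this.1 (by decide)
  · -- `z'` is `-1` on the four lines
    have p1 : ρ z' e₁ = -e₁ := by
      rcases s1 with s1 | s1
      · exact (noS Z.ane (t1.1 s1) sa).elim
      · exact s1
    have p2 : ρ z' e₂ = -e₂ := by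
      rcases s2 with s2 | s2
      · exact (noS Z.ane (t3'.1 s2) sa).elim
      · exact s2
    have p3 : ρ z' e₃ = -e₃ := by
      rcases s3 with s3 | s3
      · exact (noS hne2 (t2.1 s3) p2).elim
      · exact s3
    have hle : mn ρ z ≤ mn ρ z' := by
      intro y hy
      obtain ⟨α₁, α₂, α₃, α₄, e⟩ := Z.minus (mem_mn.1 hy)
      rw [mem_mn, e]
      simp only [map_add, map_smul, p1, p2, p3, sa]
      module
    have hcard : Nat.card (mn ρ z') = Nat.card (mn ρ z) := card_mn x z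
    have heq : (mn ρ z : Set E) = (mn ρ z' : Set E) := by
      apply Set.eq_of_subset_of_ncard_le hle _ (Set.toFinite _)
      rw [← Nat.card_coe_set_eq, ← Nat.card_coe_set_eq]
      exact hcard.le
    have hle' : ∀ y, ρ z' y = -y → ρ z y = -y := by
      intro y hy
      have : y ∈ (mn ρ z' : Set E) := mem_mn.2 hy
      rw [← heq] at this
      exact mem_mn.1 this
    apply hnotmem
    refine Z.ext_of hf ?_ ?_ ?_ ?_ ?_
    · rw [p1, Z.z1]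
    · rw [p2, Z.z2]
    · rw [p3, Z.z3]
    · rw [sa, Z.za]
    · intro y hy
      rw [hy]
      set r := ρ z' y - y with hr
      have h1 : ρ z' r = -r := by
        rw [hr, map_sub, ← rm, z'2, r1]; abel
      have h2 := hle' r h1
      have h3 : ρ z r = r := by
        rw [hr, map_sub, hy, ← rm, ← cz, rm, hy]
      have h4 : r = 0 := eq_neg_self_zero (h3.symm.trans h2)
      exact sub_eq_zero.1 h4

/-- `X` is trivial on the fixed space of `z`. -/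
theorem triv_plus (hX : XD ρ b u s v X) (Z : ZF ρ b w z q₁ q₂ q₃ e₁ e₂ e₃ a)
    (hq1 : q₁ ∈ X) (hq2 : q₂ ∈ X) (hzX : z ∈ X) (hwX : w ∈ X) :
    ∀ x ∈ X, ∀ y, ρ z y = y → ρ x y = y := by
  have hc := hX.z_central Z hq1 hq2 hzX hwX
  let P : Subgroup S :=
    { carrier := {g | ∀ y, ρ z y = y → ρ g y = y}
      one_mem' := fun y _ => r1 ρ y
      mul_mem' := fun {g k} hg hk y hy => by rw [rm, hk y hy, hg y hy]
      inv_mem' := fun {g} hg y hy => by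
        apply rinj ρ g
        rw [rinvr, hg y hy] }
  have hbP : b ∈ P := fun y hy => Z.bz hy
  have hle : X ≤ P := by
    apply hX.le_of_comm
    intro x hx i y hy
    have hi : ρ (b ^ i)⁻¹ y = y := (P.inv_mem (P.zpow_mem hbP i)) y hy
    rw [commutatorElement_def, rm, hi, rm, rm]
    have h3 : ρ z (ρ x⁻¹ y) = ρ x⁻¹ y := by
      rw [← rm, ← hc x⁻¹ (X.inv_mem hx), rm, hy]
    have h4 : ρ (b ^ i) (ρ x⁻¹ y) = ρ x⁻¹ y := (P.zpow_mem hbP i) _ h3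
    rw [h4, rinvr]
  exact fun x hx => hle hx

end XD

end Cfsg.Agent.Lib.S4415
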