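import Cfsg.Agent.Lib.S4415.ThmX2

/-!
# S4415: the centralizer of `b` in `X`
-/

namespace Cfsg.Agent.Lib.S4415

open scoped commutatorElement

variable {S E : Type*} [Group S] [AddCommGroup E] [Module (ZMod 3) E]

theorem one_of_cube {ρ : Representation (ZMod 3) S E} (hf : Function.Injective ρ) {h : S}
    (hc : (orderOf h).Coprime 3)
    (hm : ∀ v, ρ h (ρ h (ρ h v - v) - (ρ h v - v)) - (ρ h (ρ h v - v) - (ρ h v - v)) = 0) : h = 1 := by
  apply one_of_nilp5 ρ hf hc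
  have h3 : (ρ h - 1) ^ 3 = 0 := by
    ext v
    have := hm v
    simp only [pow_succ, pow_zero, one_mul, Module.End.mul_apply, LinearMap.sub_apply,
      Module.End.one_apply, LinearMap.zero_apply]
    exact this
  have : (ρ h - 1) ^ 5 = (ρ h - 1) ^ 2 * (ρ h - 1) ^ 3 := by rw [← pow_add]
  rw [this, h3, mul_zero]

/-- The determinant of `ρ` is trivial on `X`. -/
theorem XD.det_one {ρ : Representation (ZMod 3) S E} {b : S} {u s v : E} {X : Subgroup S}
    (hX : XD ρ b u s v X) {d : S} (hd : d ∈ X) : LinearMap.det (ρ d) = 1 := by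
  let D : S →* ZMod 3 := (LinearMap.det : (E →ₗ[ZMod 3] E) →* ZMod 3).comp ρ
  have hD : ∀ g, D g = LinearMap.det (ρ g) := fun g => rfl
  let P : Subgroup S :=
    { carrier := {g | D g = 1}
      one_mem' := map_one D
      mul_mem' := fun {g k} hg hk => by
        show D (g * k) = 1
        rw [map_mul, hg, hk, one_mul]
      inv_mem' := fun {g} hg => by
        show D g⁻¹ = 1
        have : D g⁻¹ * D g = 1 := by rw [← map_mul, inv_mul_cancel, map_one]
        rw [hg, mul_one] at this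
        exact this }
  have hle : X ≤ P := by
    apply hX.le_of_comm
    intro x _ i
    show D ⁅x, b ^ i⁆ = 1
    rw [commutatorElement_def, map_mul, map_mul, map_mul]
    have h1 : D x * D x⁻¹ = 1 := by rw [← map_mul, mul_inv_cancel, map_one]
    have h2 : D (b ^ i) * D (b ^ i)⁻¹ = 1 := by rw [← map_mul, mul_inv_cancel, map_one]
    calc D x * D (b ^ i) * D x⁻¹ * D (b ^ i)⁻¹
        = (D x * D x⁻¹) * (D (b ^ i) * D (b ^ i)⁻¹) := by ring
      _ = 1 := by rw [h1, h2, one_mul]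
  exact hle hd

/-- `X` contains no reflection. -/
theorem XD.no_refl [Finite E] {ρ : Representation (ZMod 3) S E} {b : S} {u s v' : E} {X : Subgroup S}
    (hX : XD ρ b u s v' X) {d : S} (hd : d ∈ X) {v : E} (hv : v ≠ 0)
    (hr : ∀ x, ∃ r : ZMod 3, ρ d x - x = r • v) (hdv : ρ d v = -v) : False := by
  have hex : ∃ φ : Module.Dual (ZMod 3) E, φ v ≠ 0 := by
    by_contra hcon
    push Not at hcon
    exact hv ((Module.forall_dual_apply_eq_zero_iff (ZMod 3) v).1 hcon)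
  obtain ⟨φ, hφ⟩ := hex
  set c := (φ v)⁻¹ with hc
  let f : Module.Dual (ZMod 3) E := c • (φ.comp (ρ d - LinearMap.id))
  have hfx : ∀ x, f x = c * φ (ρ d x - x) := fun x => rfl
  have htrans : ρ d = LinearMap.transvection f v := by
    ext x
    obtain ⟨r, hr'⟩ := hr x
    rw [LinearMap.transvection.apply, hfx, hr', map_smul, smul_eq_mul]
    have : c * (r * φ v) = r := by
      rw [mul_comm r, ← mul_assoc, hc, inv_mul_cancel₀ hφ, one_mul]
    rw [this, ← hr']; abel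
  have hdet := hX.det_one hd
  rw [htrans, LinearMap.transvection.det] at hdet
  have hfv : f v = 1 := by
    rw [hfx, hdv]
    have : -v - v = (-2 : ZMod 3) • v := by module
    rw [this, map_smul, smul_eq_mul]
    have h2 : (-2 : ZMod 3) = 1 := by decide
    rw [h2, one_mul, hc, inv_mul_cancel₀ hφ]
  rw [hfv] at hdet
  exact absurd hdet (by decide)

namespace XD
variable {ρ : Representation (ZMod 3) S E} {b : S} {u s v : E} {X : Subgroup S}
  {w z q₁ q₂ q₃ : S} {e₁ e₂ e₃ a : E}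

variable [Finite S] [Finite E]

/-- The case `δ = 1`. -/
theorem cent_aux1 (hX : XD ρ b u s v X) (Z : ZF ρ b w z q₁ q₂ q₃ e₁ e₂ e₃ a)
    (hq1 : q₁ ∈ X) (hq2 : q₂ ∈ X) (hzX : z ∈ X) (hwX : w ∈ X) {d : S} (hd : d ∈ X)
    (db : d * b = b * d) {β β₄ γ : ZMod 3}
    (h1 : ρ d e₁ = e₁ + β • (e₁ + e₂ + e₃) + β₄ • a)
    (ha : ρ d a = γ • (e₁ + e₂ + e₃) + a) : d = 1 := by
  have F := Z.F
  have bs : ρ b (e₁ + e₂ + e₃) = e₁ + e₂ + e₃ := by
    simp only [map_add, F.b1, F.b2, F.b3]; abel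
  have h2 : ρ d e₂ = e₂ + β • (e₁ + e₂ + e₃) + β₄ • a := by
    rw [← F.b1, ← rm, db, rm, h1]
    simp only [map_add, map_smul, F.b1, F.b2, F.b3, Z.ba]
    abel
  have h3 : ρ d e₃ = e₃ + β • (e₁ + e₂ + e₃) + β₄ • a := by
    rw [← F.b2, ← rm, db, rm, h2]
    simp only [map_add, map_smul, F.b1, F.b2, F.b3, Z.ba]
    abel
  have hs : ρ d (e₁ + e₂ + e₃) = e₁ + e₂ + e₃ := by
    rw [map_add, map_add, h1, h2, h3]
    have t1 := smul3 (β • (e₁ + e₂ + e₃))
    have t2 := smul3 (β₄ • a)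
    linear_combination (norm := module) t1 + t2
  have triv := hX.triv_plus Z hq1 hq2 hzX hwX d hd
  refine one_of_cube hX.hf (hX.cop hd) ?_
  intro x
  obtain ⟨α₁, α₂, α₃, α₄, t, rfl, t0, -, -, -⟩ := Z.dec x
  have e0 : ρ d (α₁ • e₁ + α₂ • e₂ + α₃ • e₃ + α₄ • a + t) - (α₁ • e₁ + α₂ • e₂ + α₃ • e₃ + α₄ • a + t)
      = (α₁ + α₂ + α₃) • (β • (e₁ + e₂ + e₃) + β₄ • a) + α₄ • γ • (e₁ + e₂ + e₃) := by
    simp only [map_add, map_smul, h1, h2, h3, ha, triv t t0]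
    module
  rw [e0]
  generalize (α₁ + α₂ + α₃) = κ
  set σ := e₁ + e₂ + e₃ with hσ
  have e1 : ρ d (κ • (β • σ + β₄ • a) + α₄ • γ • σ) - (κ • (β • σ + β₄ • a) + α₄ • γ • σ) =
      (κ * β₄ * γ) • σ := by
    simp only [map_add, map_smul, hs, ha]
    module
  rw [e1]
  simp only [map_smul, hs]
  module

/-- The reduction of `C_X(b)`. -/
theorem cent_aux (hX : XD ρ b u s v X) (Z : ZF ρ b w z q₁ q₂ q₃ e₁ e₂ e₃ a)
    (hq1 : q₁ ∈ X) (hq2 : q₂ ∈ X) (hzX : z ∈ X) (hwX : w ∈ X) {d : S} (hd : d ∈ X)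
    (db : d * b = b * d) {β₁ β₂ β₃ β₄ : ZMod 3}
    (h1 : ρ d e₁ = β₁ • e₁ + β₂ • e₂ + β₃ • e₃ + β₄ • a) (hc : β₁ + β₂ + β₃ = 1) : d = 1 := by
  have F := Z.F
  have hf := hX.hf
  have dz := hX.z_central Z hq1 hq2 hzX hwX d hd
  set σ := e₁ + e₂ + e₃ with hσ
  have σne : σ ≠ 0 := by
    intro h0
    have := F.indep (a₁ := 1) (a₂ := 1) (a₃ := 1) (y := 0) (map_zero _) (map_zero _)
      (by rw [add_zero]; simpa [hσ] using h0)
    exact absurd this.1 (by decide)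
  have bs : ρ b σ = σ := by
    simp only [hσ, map_add, F.b1, F.b2, F.b3]; abel
  have h2 : ρ d e₂ = β₁ • e₂ + β₂ • e₃ + β₃ • e₁ + β₄ • a := by
    rw [← F.b1, ← rm, db, rm, h1]
    simp only [map_add, map_smul, F.b1, F.b2, F.b3, Z.ba]
  have h3 : ρ d e₃ = β₁ • e₃ + β₂ • e₁ + β₃ • e₂ + β₄ • a := by
    rw [← F.b2, ← rm, db, rm, h2]
    simp only [map_add, map_smul, F.b1, F.b2, F.b3, Z.ba]
  have hβ₁ : β₁ = 1 - β₂ - β₃ := by rw [← hc]; ring
  have hs : ρ d σ = σ := by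
    rw [hσ, map_add, map_add, h1, h2, h3, hβ₁]
    have t2 := smul3 (β₄ • a)
    linear_combination (norm := module) t2
  -- the action on `e₂ - e₁`
  have hu : ρ d (e₂ - e₁) = (e₂ - e₁) + (β₂ - β₃) • σ := by
    rw [map_sub, h1, h2, hσ, hβ₁]
    have t1 := smul3 (β₃ • e₁)
    have t2 := smul3 (β₂ • e₂)
    linear_combination (norm := module) t1 - t2
  have hu' : ρ d (e₂ - e₁) = e₂ - e₁ := by
    obtain ⟨m, hm⟩ := hX.ord hd
    refine fix_of_pow (ρ := ρ) d _ 3 m (Nat.Coprime.pow_right _ (by decide)) ?_ hm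
    have : d ^ 3 = d * d * d := by simp only [pow_succ, pow_zero, one_mul]
    have gen : ∀ k : ZMod 3, ρ d ((e₂ - e₁) + k • σ) = (e₂ - e₁) + (k + (β₂ - β₃)) • σ := by
      intro k
      rw [map_add, map_smul, hs, hu]; module
    rw [this, rm, rm, hu, gen, gen]
    have h0 : ∀ τ : ZMod 3, τ + τ + τ = 0 := by decide
    rw [h0, zero_smul, add_zero]
  have hτ : β₂ = β₃ := by
    rw [hu'] at hu
    have h0 : (β₂ - β₃) • σ = 0 := by
      have := hu
      exact (left_eq_add.1 this)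
    rcases smul_eq_zero.1 h0 with h00 | h00
    · exact sub_eq_zero.1 h00
    · exact absurd h00 σne
  have h1' : ρ d e₁ = e₁ + β₂ • σ + β₄ • a := by
    rw [h1, hβ₁, ← hτ, hσ]
    have t1 := smul3 (β₂ • e₁)
    linear_combination (norm := module) (-1 : ZMod 3) • t1
  -- the action on `a`
  have zda : ρ z (ρ d a) = -ρ d a := by
    rw [← rm, ← dz, rm, Z.za, map_neg]
  obtain ⟨γ₁, γ₂, γ₃, γ₄, hγ⟩ := Z.minus zda
  have bda : ρ b (ρ d a) = ρ d a := by
    rw [← rm, ← db, rm, Z.ba]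
  have hbcoord := bda
  rw [hγ] at hbcoord
  simp only [map_add, map_smul, F.b1, F.b2, F.b3, Z.ba] at hbcoord
  have w1 : ρ q₁ (γ₄ • a) = γ₄ • a := by rw [map_smul, Z.a1]
  have w2 : ρ q₂ (γ₄ • a) = γ₄ • a := by rw [map_smul, Z.a2]
  have cd := F.coord_all (a₁ := γ₃) (a₂ := γ₁) (a₃ := γ₂) (c₁ := γ₁) (c₂ := γ₂) (c₃ := γ₃)
    w1 w2 w1 w2 (by rw [← hbcoord]; abel)
  have e31 : γ₃ = γ₁ := cd.1
  have e12 : γ₁ = γ₂ := cd.2.1
  have hda : ρ d a = γ₁ • σ + γ₄ • a := by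
    rw [hγ, hσ, e31, ← e12]; module
  have hγ₄ : γ₄ ≠ 0 := by
    intro h0
    rw [h0, zero_smul, add_zero] at hda
    have e1 : ρ d a = ρ d (γ₁ • σ) := by rw [hda, map_smul, hs]
    have e2 := rinj ρ d e1
    have := F.coordy (a₁ := 0) (a₂ := 0) (a₃ := 0) (c₁ := γ₁) (c₂ := γ₁) (c₃ := γ₁) (y := a) (z := 0)
      Z.a1 Z.a2 (map_zero _) (map_zero _) (by rw [e2, hσ]; module)
    exact Z.ane this
  rcases zmod3_cases γ₄ with h0 | h0 | h0
  · exact absurd h0 hγ₄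
  · rw [h0, one_smul] at hda
    exact hX.cent_aux1 Z hq1 hq2 hzX hwX hd db h1' hda
  · exfalso
    rw [h0, neg_smul, one_smul] at hda
    -- `d` is an involution
    have hdd : d * d = 1 := by
      refine hX.cent_aux1 Z hq1 hq2 hzX hwX (β := β₂ + β₂ + β₄ * γ₁) (β₄ := 0) (γ := 0)
        (X.mul_mem hd hd) ?_ ?_ ?_
      · rw [mul_assoc, db, ← mul_assoc, db, mul_assoc]
      · rw [rm, h1', map_add, map_add, h1', map_smul, map_smul, hs, hda]
        module
      · rw [rm, hda, map_add, map_smul, hs, map_neg, hda]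
        module
    have hββ : β₂ = β₄ * γ₁ := by
      have e1 : ρ d (ρ d e₁) = e₁ := by rw [← rm, hdd, r1]
      rw [h1', map_add, map_add, h1', map_smul, map_smul, hs, hda] at e1
      have e2 : (β₂ + β₂ + β₄ * γ₁) • σ = 0 := by
        linear_combination (norm := module) e1
      have e3 : β₂ + β₂ + β₄ * γ₁ = 0 := by
        rcases smul_eq_zero.1 e2 with h00 | h00
        · exact h00
        · exact absurd h00 σne
      have h5 : ∀ x c : ZMod 3, x + x + c = 0 → x = c := by decide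
      exact h5 _ _ e3
    have h2' : ρ d e₂ = e₂ + β₂ • σ + β₄ • a := by
      rw [h2, hβ₁, ← hτ, hσ]
      have t1 := smul3 (β₂ • e₂)
      linear_combination (norm := module) (-1 : ZMod 3) • t1
    have h3' : ρ d e₃ = e₃ + β₂ • σ + β₄ • a := by
      rw [h3, hβ₁, ← hτ, hσ]
      have t1 := smul3 (β₂ • e₃)
      linear_combination (norm := module) (-1 : ZMod 3) • t1
    set v' := a + γ₁ • σ with hv'
    have v'ne : v' ≠ 0 := by
      intro h00
      have := F.indep (a₁ := γ₁) (a₂ := γ₁) (a₃ := γ₁) (y := a) Z.a1 Z.a2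
        (by rw [← h00, hv', hσ]; module)
      exact Z.ane this.2.2.2
    have hdv : ρ d v' = -v' := by
      rw [hv', map_add, map_smul, hs, hda]
      have t1 := smul3 (γ₁ • σ)
      linear_combination (norm := module) t1
    have triv := hX.triv_plus Z hq1 hq2 hzX hwX d hd
    refine hX.no_refl hd v'ne ?_ hdv
    intro x
    obtain ⟨α₁, α₂, α₃, α₄, t, rfl, t0, -, -, -⟩ := Z.dec x
    refine ⟨(α₁ + α₂ + α₃) * β₄ + α₄, ?_⟩
    simp only [map_add, map_smul, h1', h2', h3', hda, triv t t0]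
    rw [hv', hββ]
    have t1 := smul3 (α₄ • a)
    linear_combination (norm := module) (-1 : ZMod 3) • t1

/-- **`C_X(b) = ⟨z⟩`.** -/
theorem cent_b (hX : XD ρ b u s v X) (Z : ZF ρ b w z q₁ q₂ q₃ e₁ e₂ e₃ a)
    (hq1 : q₁ ∈ X) (hq2 : q₂ ∈ X) (hzX : z ∈ X) (hwX : w ∈ X) {d : S} (hd : d ∈ X)
    (db : d * b = b * d) : d = 1 ∨ d = z := by
  have F := Z.F
  have dz := hX.z_central Z hq1 hq2 hzX hwX d hd
  have zde : ρ z (ρ d e₁) = -ρ d e₁ := by rw [← rm, ← dz, rm, Z.z1, map_neg]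
  obtain ⟨β₁, β₂, β₃, β₄, h1⟩ := Z.minus zde
  rcases zmod3_cases (β₁ + β₂ + β₃) with hc | hc | hc
  · exfalso
    have hβ₁ : β₁ = - β₂ - β₃ := by
      have : β₁ = (β₁ + β₂ + β₃) - β₂ - β₃ := by ring
      rw [this, hc]; ring
    have h2 : ρ d e₂ = β₁ • e₂ + β₂ • e₃ + β₃ • e₁ + β₄ • a := by
      rw [← F.b1, ← rm, db, rm, h1]
      simp only [map_add, map_smul, F.b1, F.b2, F.b3, Z.ba]
    have h3 : ρ d e₃ = β₁ • e₃ + β₂ • e₁ + β₃ • e₂ + β₄ • a := by
      rw [← F.b2, ← rm, db, rm, h2]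
      simp only [map_add, map_smul, F.b1, F.b2, F.b3, Z.ba]
    have hs : ρ d (e₁ + e₂ + e₃) = 0 := by
      rw [map_add, map_add, h1, h2, h3, hβ₁]
      have t2 := smul3 (β₄ • a)
      linear_combination (norm := module) t2
    have := (r_zero_iff ρ d _).1 hs
    have := F.indep (a₁ := 1) (a₂ := 1) (a₃ := 1) (y := 0) (map_zero _) (map_zero _)
      (by rw [add_zero]; simpa using this)
    exact absurd this.1 (by decide)
  · exact Or.inl (hX.cent_aux Z hq1 hq2 hzX hwX hd db h1 hc)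
  · right
    have hdz : d * z = 1 := by
      refine hX.cent_aux Z hq1 hq2 hzX hwX (β₁ := -β₁) (β₂ := -β₂) (β₃ := -β₃) (β₄ := -β₄)
        (X.mul_mem hd hzX) ?_ ?_ ?_
      · rw [mul_assoc, Z.zb hX.hf, ← mul_assoc, db, mul_assoc]
      · rw [rm, Z.z1, map_neg, h1]; module
      · have : -β₁ + -β₂ + -β₃ = -(β₁ + β₂ + β₃) := by ring
        rw [this, hc]; decide
    calc d = d * (z * z) := by rw [Z.zz, mul_one]
      _ = (d * z) * z := by group
      _ = z := by rw [hdz, one_mul]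

/-- Elements commuting with a `b`-invariant four-group. -/
theorem cent_V4 (hX : XD ρ b u s v X) (Z : ZF ρ b w z q₁ q₂ q₃ e₁ e₂ e₃ a)
    (hq1 : q₁ ∈ X) (hq2 : q₂ ∈ X) (hzX : z ∈ X) (hwX : w ∈ X)
    {p₁ p₂ p₃ : S} {f₁ f₂ f₃ : E} (G : Frame ρ b p₁ p₂ p₃ f₁ f₂ f₃)
    (hp1 : p₁ ∈ X) (hp2 : p₂ ∈ X) (hp3 : p₃ ∈ X) {x : S} (hx : x ∈ X)
    (h1 : x * p₁ = p₁ * x) (h2 : x * p₂ = p₂ * x) :
    (∃ t ∈ G.V4, x = t ∨ x = t * z) ∧ x * x = 1 := by
  obtain ⟨t, ht, -, hdb⟩ := G.split hX.hf h1 h2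
  have htV : t ∈ G.V4 := ht
  have htX : t ∈ X := by
    rcases ht with rfl | rfl | rfl | rfl
    · exact X.one_mem
    · exact hp1
    · exact hp2
    · exact hp3
  have ht1 : t * t = 1 := by
    rcases ht with rfl | rfl | rfl | rfl
    · simp
    · exact G.sq1
    · exact G.sq2
    · exact G.sq3
  have hdX : x * t ∈ X := X.mul_mem hx htX
  have hxt : x = (x * t) * t := by rw [mul_assoc, ht1, mul_one]
  rcases hX.cent_b Z hq1 hq2 hzX hwX hdX hdb with h0 | h0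
  · have e : x = t := by rw [hxt, h0, one_mul]
    refine ⟨⟨t, htV, Or.inl e⟩, ?_⟩
    rw [e, ht1]
  · have e : x = t * z := by
      rw [hxt, h0]
      exact (hX.z_central Z hq1 hq2 hzX hwX t htX).symm
    refine ⟨⟨t, htV, Or.inr e⟩, ?_⟩
    have c := hX.z_central Z hq1 hq2 hzX hwX t htX
    rw [e]
    calc t * z * (t * z) = t * (z * t) * z := by group
      _ = t * (t * z) * z := by rw [← c]
      _ = (t * t) * (z * z) := by group
      _ = 1 := by rw [ht1, Z.zz, one_mul]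

end XD

end Cfsg.Agent.Lib.S4415
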