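import Cfsg.Agent.Lib.S4415.ThmX3

/-!
# S4415: the order of `X`
-/

namespace Cfsg.Agent.Lib.S4415

open scoped commutatorElement

theorem fpf_mod {G : Type*} [Group G] [Finite G] {z : G} (hz : ∀ g, g * z = z * g) (hz2 : z * z = 1)
    (σ : G →* G) (hσ3 : ∀ g, σ (σ (σ g)) = g) (hσz : σ z = z)
    (hfix : ∀ g, σ g = g → g = 1 ∨ g = z) (g : G) :
    (g * σ g * σ (σ g) = 1 ∨ g * σ g * σ (σ g) = z) ∧ (⁅g, σ g⁆ = 1 ∨ ⁅g, σ g⁆ = z) := by
  classical
  let N : Subgroup G :=
    { carrier := {1, z}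
      one_mem' := by simp
      mul_mem' := by
        rintro x y (rfl | rfl) (rfl | rfl) <;> simp [hz2]
      inv_mem' := by
        have : z⁻¹ = z := inv_eq_of_mul_eq_one_left hz2
        rintro x (rfl | rfl) <;> simp [this] }
  have memN : ∀ {x}, x ∈ N ↔ x = 1 ∨ x = z := Iff.rfl
  haveI hNn : N.Normal := by
    constructor
    intro n hn g'
    rcases memN.1 hn with rfl | rfl
    · simp [N.one_mem]
    · have : g' * n * g'⁻¹ = n := by rw [hz]; group
      rw [this]; exact hn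
  have hNσ : N ≤ N.comap σ := by
    intro x hx
    rw [Subgroup.mem_comap]
    rcases memN.1 hx with rfl | rfl
    · simp [N.one_mem]
    · rw [hσz]; exact hx
  let f : G ⧸ N →* G ⧸ N := QuotientGroup.map N N σ hNσ
  have hfmk : ∀ x : G, f (x : G ⧸ N) = ((σ x : G) : G ⧸ N) := fun x => rfl
  have hff : MonoidHom.FixedPointFree f := by
    intro x hx
    induction x using QuotientGroup.induction_on with
    | H x =>
    rw [hfmk] at hx
    have h1 : (σ x)⁻¹ * x ∈ N := QuotientGroup.eq.1 hx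
    have h2 : σ x = x := by
      rcases memN.1 h1 with h0 | h0
      · exact inv_mul_eq_one.1 h0
      · have h3 : x = σ x * z := by rw [← h0]; group
        have h4 : σ x = σ (σ x) * z := by
          have := congrArg σ h3
          rwa [map_mul, hσz] at this
        have h5 : σ (σ x) = x * z := by
          have := congrArg σ h4
          rwa [map_mul, hσz, hσ3] at this
        have h6 : x = x * z := by
          calc x = σ x * z := h3
            _ = σ (σ x) * z * z := by rw [← h4]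
            _ = σ (σ x) := by rw [mul_assoc, hz2, mul_one]
            _ = x * z := h5
        have h7 : z = 1 := by
          have := mul_left_cancel (a := x) (b := z) (c := 1) (by rw [mul_one]; exact h6.symm)
          exact this
        calc σ x = σ x * z := by rw [h7, mul_one]
          _ = x := h3.symm
    rcases hfix x h2 with h0 | h0
    · rw [h0]; rfl
    · exact (QuotientGroup.eq_one_iff x).2 (memN.2 (Or.inr h0))
  have hn3 : (⇑f)^[3] = _root_.id := by
    funext x
    induction x using QuotientGroup.induction_on with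
    | H x =>
    show f (f (f (x : G ⧸ N))) = x
    rw [hfmk, hfmk, hfmk, hσ3]
  have key : ∀ x : G, x * σ x * σ (σ x) ∈ N := by
    intro x
    have h := hff.prod_pow_eq_one hn3 (x : G ⧸ N)
    have e : ((List.range 3).map (fun k => (⇑f)^[k] (x : G ⧸ N))).prod =
        (x : G ⧸ N) * (f x * f (f x)) := by
      simp [List.range_succ, mul_assoc]
    rw [e, hfmk, hfmk] at h
    have h2 : ((x * σ x * σ (σ x) : G) : G ⧸ N) = 1 := by
      rw [QuotientGroup.mk_mul, QuotientGroup.mk_mul, mul_assoc]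
      exact h
    exact (QuotientGroup.eq_one_iff _).1 h2
  refine ⟨key g, ?_⟩
  have k1 := key g
  have k2 := key g⁻¹
  simp only [map_inv] at k2
  set y := σ g with hy
  set t := σ y with ht
  obtain ⟨c₁, hc₁⟩ : ∃ c₁, c₁ = g * y * t := ⟨_, rfl⟩
  obtain ⟨c₂, hc₂⟩ : ∃ c₂, c₂ = g⁻¹ * y⁻¹ * t⁻¹ := ⟨_, rfl⟩
  rw [← hc₁] at k1
  rw [← hc₂] at k2
  have cent : ∀ c ∈ N, ∀ x, x * c = c * x := by
    intro c hc x
    rcases memN.1 hc with rfl | rfl
    · simp
    · exact hz x
  have h3 : t = y⁻¹ * g⁻¹ * c₁ := by rw [hc₁]; group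
  have h4 : g⁻¹ * y⁻¹ * g * y = c₁ * c₂ := by
    have : c₂ = c₁⁻¹ * (g⁻¹ * y⁻¹ * g * y) := by
      rw [hc₂, h3]
      have c1 := cent c₁⁻¹ (N.inv_mem k1)
      calc g⁻¹ * y⁻¹ * (y⁻¹ * g⁻¹ * c₁)⁻¹ = g⁻¹ * y⁻¹ * (c₁⁻¹ * (g * y)) := by group
        _ = g⁻¹ * y⁻¹ * c₁⁻¹ * g * y := by group
        _ = c₁⁻¹ * (g⁻¹ * y⁻¹) * g * y := by rw [c1]
        _ = _ := by group
    rw [this]; group
  have h5 : g⁻¹ * y⁻¹ * g * y ∈ N := by rw [h4]; exact N.mul_mem k1 k2
  have h6 : ⁅g, y⁆ = g⁻¹ * y⁻¹ * g * y := by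
    rw [commutatorElement_def]
    have := cent _ h5 (y * g)
    calc g * y * g⁻¹ * y⁻¹ = (y * g) * (g⁻¹ * y⁻¹ * g * y) * (y * g)⁻¹ := by group
      _ = (g⁻¹ * y⁻¹ * g * y) * (y * g) * (y * g)⁻¹ := by rw [this]
      _ = _ := by group
  rw [h6]
  exact h5

variable {S E : Type*} [Group S] [AddCommGroup E] [Module (ZMod 3) E]

namespace XD
variable {ρ : Representation (ZMod 3) S E} {b : S} {u s v : E} {X : Subgroup S}
  {w z q₁ q₂ q₃ : S} {e₁ e₂ e₃ a : E}

omit [AddCommGroup E] [Module (ZMod 3) E] in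
theorem b3conj {b : S} (hb : b ^ 3 = 1) (x : S) : b * (b * (b * x * b⁻¹) * b⁻¹) * b⁻¹ = x := by
  have e : b * b * b = 1 := by rw [← hb, pow_succ, pow_two]
  calc b * (b * (b * x * b⁻¹) * b⁻¹) * b⁻¹ = (b * b * b) * x * (b * b * b)⁻¹ := by group
    _ = x := by rw [e]; group

variable [Finite S] [Finite E]

theorem F12 (hX : XD ρ b u s v X) (Z : ZF ρ b w z q₁ q₂ q₃ e₁ e₂ e₃ a)
    (hq1 : q₁ ∈ X) (hq2 : q₂ ∈ X) (hzX : z ∈ X) (hwX : w ∈ X) {x : S} (hx : x ∈ X) :
    (x * (b * x * b⁻¹) * (b * (b * x * b⁻¹) * b⁻¹) = 1 ∨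
      x * (b * x * b⁻¹) * (b * (b * x * b⁻¹) * b⁻¹) = z) ∧
    (⁅x, b * x * b⁻¹⁆ = 1 ∨ ⁅x, b * x * b⁻¹⁆ = z) := by
  let σ : X →* X :=
    { toFun := fun g => ⟨b * g.1 * b⁻¹, hX.hXb _ g.2⟩
      map_one' := by ext; simp
      map_mul' := fun g k => by ext; simp only [Subgroup.coe_mul]; group }
  have hc := hX.z_central Z hq1 hq2 hzX hwX
  have zb := Z.zb hX.hf
  have := fpf_mod (G := X) (z := ⟨z, hzX⟩)
    (fun g => Subtype.ext (hc g.1 g.2)) (Subtype.ext Z.zz) σ
    (fun g => Subtype.ext (b3conj hX.hB.b3 g.1))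
    (Subtype.ext (by show b * z * b⁻¹ = z; rw [← zb]; group))
    (by
      intro g hg
      have h1 : b * g.1 * b⁻¹ = g.1 := congrArg Subtype.val hg
      have h2 : g.1 * b = b * g.1 := by
        calc g.1 * b = (b * g.1 * b⁻¹) * b := by rw [h1]
          _ = b * g.1 := by group
      rcases hX.cent_b Z hq1 hq2 hzX hwX g.2 h2 with h0 | h0
      · exact Or.inl (Subtype.ext h0)
      · exact Or.inr (Subtype.ext h0))
    ⟨x, hx⟩
  constructor
  · rcases this.1 with h0 | h0
    · exact Or.inl (congrArg Subtype.val h0)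
    · exact Or.inr (congrArg Subtype.val h0)
  · rcases this.2 with h0 | h0
    · exact Or.inl (congrArg Subtype.val h0)
    · exact Or.inr (congrArg Subtype.val h0)

/-- **Every square in `X` lies in `⟨z⟩`.** -/
theorem sq_Iz (hX : XD ρ b u s v X) (Z : ZF ρ b w z q₁ q₂ q₃ e₁ e₂ e₃ a)
    (hq1 : q₁ ∈ X) (hq2 : q₂ ∈ X) (hzX : z ∈ X) (hwX : w ∈ X) {x : S} (hx : x ∈ X) :
    x * x = 1 ∨ x * x = z := by
  classical
  by_contra hcon
  have hc := hX.z_central Z hq1 hq2 hzX hwX
  have hb3 := hX.hB.b3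
  have hF := fun {g : S} (hg : g ∈ X) => hX.F12 Z hq1 hq2 hzX hwX hg
  have zne : z ≠ 1 := by
    intro h0
    have := Z.z1
    rw [h0, r1] at this
    exact Z.F.ne (eq_neg_self_zero this)
  have L2 : ∀ g ∈ X, Commute (g * g) (b * g * b⁻¹) ∧ Commute (g * g) (b * (b * g * b⁻¹) * b⁻¹) := by
    intro g hg
    have hgy : Commute (g * g) (b * g * b⁻¹) := by
      set y := b * g * b⁻¹ with hy
      rcases (hF hg).2 with h0 | h0
      · have : Commute g y := by
          rw [commutatorElement_eq_one_iff_commute] at h0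
          exact h0
        exact this.mul_left this
      · have h0' : g * y * g⁻¹ * y⁻¹ = z := by
          rw [← commutatorElement_def]; exact h0
        have h1 : g * y = z * (y * g) := by
          calc g * y = (g * y * g⁻¹ * y⁻¹) * (y * g) := by group
            _ = z * (y * g) := by rw [h0']
        have hzy : y * z = z * y := hc y (hX.hXb g hg)
        have hzg : g * z = z * g := hc g hg
        show g * g * y = y * (g * g)
        calc g * g * y = g * (g * y) := by group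
          _ = g * (z * (y * g)) := by rw [h1]
          _ = (g * z) * (y * g) := by group
          _ = z * (g * y) * g := by rw [hzg]; group
          _ = z * (z * (y * g)) * g := by rw [h1]
          _ = (z * z) * (y * g * g) := by group
          _ = y * (g * g) := by rw [Z.zz]; group
    refine ⟨hgy, ?_⟩
    set y := b * g * b⁻¹ with hy
    set t := b * y * b⁻¹ with ht
    have hgg : Commute (g * g) g := by
      show g * g * g = g * (g * g)
      group
    have hzc : ∀ c, (c = 1 ∨ c = z) → Commute (g * g) c := by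
      rintro c (rfl | rfl)
      · exact Commute.one_right _
      · exact hc _ (X.mul_mem hg hg)
    have h1 := (hF hg).1
    rw [← hy, ← ht] at h1
    obtain ⟨c, hcc⟩ : ∃ c, c = g * y * t := ⟨_, rfl⟩
    rw [← hcc] at h1
    have h2 : t = y⁻¹ * g⁻¹ * c := by rw [hcc]; group
    rw [h2]
    exact (hgy.inv_right.mul_right hgg.inv_right).mul_right (hzc c h1)
  obtain ⟨m, hm⟩ := hX.ord hx
  have hP : ∃ j, 1 ≤ j ∧ (x ^ (2 ^ j) = 1 ∨ x ^ (2 ^ j) = z) := by
    refine ⟨m + 1, by omega, Or.inl ?_⟩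
    rw [pow_succ, pow_mul, hm, one_pow]
  set j₁ := Nat.find hP with hj₁
  have spec := Nat.find_spec hP
  rw [← hj₁] at spec
  have hj1 : j₁ ≠ 1 := by
    intro h1
    rw [h1] at spec
    simp only [pow_one, pow_two] at spec
    exact hcon spec.2
  obtain ⟨l, hl⟩ : ∃ l, j₁ = l + 2 := ⟨j₁ - 2, by have := spec.1; omega⟩
  have hmin := Nat.find_min hP (m := l + 1) (by omega)
  push Not at hmin
  have hmin' := hmin (by omega)
  set y := b * x * b⁻¹ with hy
  set t := b * y * b⁻¹ with ht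
  have hyX : y ∈ X := hX.hXb x hx
  have htX : t ∈ X := hX.hXb y hyX
  have ctx : b * t * b⁻¹ = x := b3conj hb3 x
  have A1 := L2 x hx
  have A2 := L2 y hyX
  have A3 := L2 t htX
  rw [← hy, ← ht] at A1
  rw [← ht, ctx] at A2
  rw [ctx] at A3
  have ctxy : b * x * b⁻¹ = y := rfl
  rw [ctxy] at A3
  have selfc : ∀ g : S, Commute (g * g) g := fun g => by
    show g * g * g = g * (g * g)
    group
  set n := 2 ^ l with hn
  set u' := (x * x) ^ n with hu'
  set v' := (y * y) ^ n with hv'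
  set r' := (t * t) ^ n with hr'
  have Cpow : ∀ g : S, b * ((g * g) ^ n) * b⁻¹ = ((b * g * b⁻¹) * (b * g * b⁻¹)) ^ n := by
    intro g
    rw [← conj_pow, conj_mul]
  have cu : b * u' * b⁻¹ = v' := Cpow x
  have cv : b * v' * b⁻¹ = r' := Cpow y
  have cr : b * r' * b⁻¹ = u' := by
    have := Cpow t
    rw [ctx] at this
    exact this
  have uX : u' ∈ X := X.pow_mem (X.mul_mem hx hx) n
  have vX : v' ∈ X := X.pow_mem (X.mul_mem hyX hyX) n
  have rX : r' ∈ X := X.pow_mem (X.mul_mem htX htX) n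
  have ux : Commute u' x := (selfc x).pow_left n
  have uy : Commute u' y := A1.1.pow_left n
  have ut : Commute u' t := A1.2.pow_left n
  have vy : Commute v' y := (selfc y).pow_left n
  have vt : Commute v' t := A2.1.pow_left n
  have vx : Commute v' x := A2.2.pow_left n
  have rt : Commute r' t := (selfc t).pow_left n
  have rx : Commute r' x := A3.1.pow_left n
  have ry : Commute r' y := A3.2.pow_left n
  have uv : Commute u' v' := (uy.mul_right uy).pow_right n
  have ur : Commute u' r' := (ut.mul_right ut).pow_right n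
  have vr : Commute v' r' := (vt.mul_right vt).pow_right n
  have hu1 : x ^ (2 ^ (l + 1)) = u' := by
    rw [hu', hn, pow_succ', pow_mul, pow_two]
  have hu2 : x ^ (2 ^ j₁) = u' * u' := by
    rw [hl, pow_succ, pow_mul, hu1, pow_two]
  have huuIz : u' * u' = 1 ∨ u' * u' = z := by
    rw [← hu2]; exact spec.2
  have conj_mul' : ∀ c d : S, b * (c * d) * b⁻¹ = (b * c * b⁻¹) * (b * d * b⁻¹) := by
    intro c d; group
  have bz : b * z * b⁻¹ = z := by rw [← Z.zb hX.hf]; group
  have bone : ∀ {c : S}, c = 1 → b * c * b⁻¹ = 1 := by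
    rintro c rfl; group
  have huu : u' * u' = 1 := by
    rcases huuIz with h0 | h0
    · exact h0
    · exfalso
      have vv : v' * v' = z := by
        rw [← cu, ← conj_mul', h0, bz]
      have rr : r' * r' = z := by
        rw [← cv, ← conj_mul', vv, bz]
      have h5 := (hF uX).1
      rw [cu, cv] at h5
      have h6 : (u' * v' * r') * (u' * v' * r') = 1 := by
        rcases h5 with h5 | h5
        · rw [h5, one_mul]
        · rw [h5, Z.zz]
      have h7 : (u' * v' * r') * (u' * v' * r') = (u' * u') * (v' * v') * (r' * r') := by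
        have e1 : (u' * v') * r' * (u' * v' * r') = (u' * v') * (r' * (u' * v')) * r' := by group
        have e2 : r' * (u' * v') = (u' * v') * r' := (ur.mul_left vr).eq.symm
        rw [e1, e2]
        have e3 : u' * v' * (u' * v') = (u' * u') * (v' * v') := by
          calc u' * v' * (u' * v') = u' * (v' * u') * v' := by group
            _ = u' * (u' * v') * v' := by rw [uv.eq.symm]
            _ = _ := by group
        calc u' * v' * (u' * v' * r') * r' = (u' * v' * (u' * v')) * (r' * r') := by group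
          _ = _ := by rw [e3]
      rw [h7, h0, vv, rr, Z.zz, one_mul] at h6
      exact zne h6
  have hvv : v' * v' = 1 := by
    rw [← cu, ← conj_mul', huu]; group
  have hrr : r' * r' = 1 := by
    rw [← cv, ← conj_mul', hvv]; group
  have hne1 : u' * v' ≠ 1 := by
    intro h0
    have e1 : v' = u' := by
      calc v' = (u' * u') * v' := by rw [huu, one_mul]
        _ = u' * (u' * v') := by group
        _ = u' := by rw [h0, mul_one]
    have e2 : u' * b = b * u' := by
      calc u' * b = v' * b := by rw [e1]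
        _ = b * u' := by rw [← cu]; group
    rcases hX.cent_b Z hq1 hq2 hzX hwX uX e2 with h1 | h1
    · rw [← hu1] at h1; exact hmin'.1 h1
    · rw [← hu1] at h1; exact hmin'.2 h1
  obtain ⟨f₁, f₂, f₃, G⟩ := exists_frame hX.hf hX.hB (q₁ := u' * v') (q₂ := v' * r') (q₃ := r' * u')
    (by
      calc u' * v' * (u' * v') = u' * (v' * u') * v' := by group
        _ = u' * (u' * v') * v' := by rw [uv.eq.symm]
        _ = (u' * u') * (v' * v') := by group
        _ = 1 := by rw [huu, hvv, one_mul])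
    (by
      calc u' * v' * (v' * r') = u' * (v' * v') * r' := by group
        _ = u' * r' := by rw [hvv, mul_one]
        _ = r' * u' := ur.eq)
    (by rw [conj_mul', cu, cv])
    (by rw [conj_mul', cv, cr])
    (by rw [conj_mul', cr, cu])
    hne1
  have hxp1 : x * (u' * v') = (u' * v') * x :=
    ((ux.mul_left vx).eq).symm
  have hxp2 : x * (v' * r') = (v' * r') * x :=
    ((vx.mul_left rx).eq).symm
  have := (hX.cent_V4 Z hq1 hq2 hzX hwX G (X.mul_mem uX vX) (X.mul_mem vX rX) (X.mul_mem rX uX) hx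
    hxp1 hxp2).2
  exact hcon (Or.inl this)

/-- Commutators lie in `⟨z⟩`. -/
theorem comm_Iz (hX : XD ρ b u s v X) (Z : ZF ρ b w z q₁ q₂ q₃ e₁ e₂ e₃ a)
    (hq1 : q₁ ∈ X) (hq2 : q₂ ∈ X) (hzX : z ∈ X) (hwX : w ∈ X) {x y : S} (hx : x ∈ X) (hy : y ∈ X) :
    ⁅x, y⁆ = 1 ∨ ⁅x, y⁆ = z := by
  have hc := hX.z_central Z hq1 hq2 hzX hwX
  have hs := fun {g : S} (hg : g ∈ X) => hX.sq_Iz Z hq1 hq2 hzX hwX hg
  -- squares are central of square one
  have c1 : ∀ c, (c = 1 ∨ c = z) → ∀ g ∈ X, g * c = c * g := by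
    rintro c (rfl | rfl) g hg
    · simp
    · exact hc g hg
  have c2 : ∀ c, (c = 1 ∨ c = z) → c * c = 1 := by
    rintro c (rfl | rfl)
    · simp
    · exact Z.zz
  have hxyX := X.mul_mem hx hy
  obtain ⟨c₁, hc₁, e₁'⟩ : ∃ c₁, (c₁ = 1 ∨ c₁ = z) ∧ x * x = c₁ := ⟨_, hs hx, rfl⟩
  obtain ⟨c₂, hc₂, e₂'⟩ : ∃ c₂, (c₂ = 1 ∨ c₂ = z) ∧ y * y = c₂ := ⟨_, hs hy, rfl⟩
  obtain ⟨c₃, hc₃, e₃'⟩ : ∃ c₃, (c₃ = 1 ∨ c₃ = z) ∧ x * y * (x * y) = c₃ := ⟨_, hs hxyX, rfl⟩
  have hxi : x⁻¹ = c₁ * x := by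
    symm
    apply eq_inv_of_mul_eq_one_left
    rw [mul_assoc, e₁', c2 c₁ hc₁]
  have hyi : y⁻¹ = c₂ * y := by
    symm
    apply eq_inv_of_mul_eq_one_left
    rw [mul_assoc, e₂', c2 c₂ hc₂]
  have e : ⁅x, y⁆ = c₁ * c₂ * c₃ := by
    rw [commutatorElement_def, hxi, hyi]
    calc x * y * (c₁ * x) * (c₂ * y) = (x * y * c₁) * x * (c₂ * y) := by group
      _ = c₁ * (x * y * x * c₂) * y := by rw [c1 c₁ hc₁ _ hxyX]; group
      _ = c₁ * (c₂ * (x * y * x)) * y := by rw [c1 c₂ hc₂ _ (X.mul_mem hxyX hx)]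
      _ = c₁ * c₂ * (x * y * (x * y)) := by group
      _ = c₁ * c₂ * c₃ := by rw [e₃']
  rw [e]
  have hzz := Z.zz
  rcases hc₁ with h1 | h1 <;> rcases hc₂ with h2 | h2 <;> rcases hc₃ with h3 | h3 <;>
    rw [h1, h2, h3] <;> simp [hzz]

/-- The four-group is not central in `X`. -/
theorem not_all_cent (hX : XD ρ b u s v X) (Z : ZF ρ b w z q₁ q₂ q₃ e₁ e₂ e₃ a) (hzX : z ∈ X) :
    ¬ ∀ x ∈ X, x * q₁ = q₁ * x ∧ x * q₂ = q₂ * x := by
  intro hall
  have F := Z.F
  have hle : X ≤ F.V4 := by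
    apply hX.le_of_comm
    intro x hx i
    exact hX.comm_V4 F (hall x hx).1 (hall x hx).2 i
  have hne1 := F.ne
  have hne2 := F.ne2
  have hne3 := F.ne3
  rcases (F.mem_V4).1 (hle hzX) with h0 | h0 | h0 | h0
  · have := Z.z1
    rw [h0, r1] at this
    exact hne1 (eq_neg_self_zero this)
  · have := Z.z1
    rw [h0, F.q11] at this
    exact hne1 (eq_neg_self_zero this)
  · have := Z.z2
    rw [h0, F.q22] at this
    exact hne2 (eq_neg_self_zero this)
  · have := Z.z3
    rw [h0, F.q33] at this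
    exact hne3 (eq_neg_self_zero this)

theorem z_not_V4 (Z : ZF ρ b w z q₁ q₂ q₃ e₁ e₂ e₃ a) : z ∉ Z.F.V4 := by
  intro hz
  have F := Z.F
  have hne1 := F.ne
  have hne2 := F.ne2
  have hne3 := F.ne3
  rcases (Frame.mem_V4 _).1 hz with h0 | h0 | h0 | h0
  · have := Z.z1
    rw [h0, r1] at this
    exact hne1 (eq_neg_self_zero this)
  · have := Z.z1
    rw [h0, F.q11] at this
    exact hne1 (eq_neg_self_zero this)
  · have := Z.z2
    rw [h0, F.q22] at this
    exact hne2 (eq_neg_self_zero this)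
  · have := Z.z3
    rw [h0, F.q33] at this
    exact hne3 (eq_neg_self_zero this)

/-- The centralizer of the four-group in `X`. -/
def CX (X : Subgroup S) (q₁ q₂ : S) : Subgroup S := X ⊓ Subgroup.centralizer ({q₁, q₂} : Set S)

omit [AddCommGroup E] [Module (ZMod 3) E] [Finite S] in
theorem mem_CX {X : Subgroup S} {q₁ q₂ x : S} :
    x ∈ CX X q₁ q₂ ↔ x ∈ X ∧ x * q₁ = q₁ * x ∧ x * q₂ = q₂ * x := by
  rw [CX, Subgroup.mem_inf, Subgroup.mem_centralizer_iff]
  constructor
  · rintro ⟨a, c⟩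
    exact ⟨a, (c q₁ (by simp)).symm, (c q₂ (by simp)).symm⟩
  · rintro ⟨a, c, d⟩
    refine ⟨a, ?_⟩
    rintro g (rfl | rfl)
    · exact c.symm
    · exact d.symm

omit [Finite E] in
theorem card_V4 (F : Frame ρ b q₁ q₂ q₃ e₁ e₂ e₃) : Nat.card F.V4 = 4 := by
  classical
  have hne2 := F.ne2
  have hne1 := F.ne
  have hne3 := F.ne3
  have h1 : q₁ ≠ 1 := by
    intro h0
    have := F.q12
    rw [h0, r1] at this
    exact hne2 (eq_neg_self_zero this)
  have h2 : q₂ ≠ 1 := by
    intro h0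
    have := F.q21
    rw [h0, r1] at this
    exact hne1 (eq_neg_self_zero this)
  have h3 : q₃ ≠ 1 := by
    intro h0
    have := F.q31
    rw [h0, r1] at this
    exact hne1 (eq_neg_self_zero this)
  have h12 : q₁ ≠ q₂ := by
    intro h0
    have := F.q11
    rw [h0, F.q21] at this
    exact hne1 (eq_neg_self_zero this.symm)
  have h13 : q₁ ≠ q₃ := by
    intro h0
    have := F.q11
    rw [h0, F.q31] at this
    exact hne1 (eq_neg_self_zero this.symm)
  have h23 : q₂ ≠ q₃ := by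
    intro h0
    have := F.q22
    rw [h0, F.q32] at this
    exact hne2 (eq_neg_self_zero this.symm)
  have hset : (F.V4 : Set S) = (({1, q₁, q₂, q₃} : Finset S) : Set S) := by
    ext x
    simp [F.mem_V4]
  have e : Nat.card F.V4 = ((F.V4 : Subgroup S) : Set S).ncard := Nat.card_coe_set_eq _
  rw [e, hset, Set.ncard_coe_finset]
  rw [Finset.card_insert_of_notMem, Finset.card_insert_of_notMem, Finset.card_insert_of_notMem,
    Finset.card_singleton]
  · simpa using h23
  · simp only [Finset.mem_insert, Finset.mem_singleton, not_or]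
    exact ⟨h12, h13⟩
  · simp only [Finset.mem_insert, Finset.mem_singleton, not_or]
    exact ⟨h1.symm, h2.symm, h3.symm⟩

section main
variable (hX : XD ρ b u s v X) (Z : ZF ρ b w z q₁ q₂ q₃ e₁ e₂ e₃ a)
    (hq1 : q₁ ∈ X) (hq2 : q₂ ∈ X) (hq3 : q₃ ∈ X) (hzX : z ∈ X) (hwX : w ∈ X)
include hX Z hq1 hq2 hq3 hzX hwX

theorem A_form {x : S} (hx : x ∈ CX X q₁ q₂) :
    (∃ t ∈ Z.F.V4, x = t ∨ x = t * z) ∧ x * x = 1 := by
  have h := mem_CX.1 hx
  exact hX.cent_V4 Z hq1 hq2 hzX hwX Z.F hq1 hq2 hq3 h.1 h.2.1 h.2.2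

theorem A_ea : Cfsg.IsElementaryAbelian 2 (CX X q₁ q₂) := by
  have hsq : ∀ a ∈ CX X q₁ q₂, a * a = 1 := fun a ha =>
    (XD.A_form hX Z hq1 hq2 hq3 hzX hwX ha).2
  refine ⟨⟨⟨fun a c => ?_⟩⟩, fun a ha => by rw [pow_two]; exact hsq a ha⟩
  apply Subtype.ext
  have h1 := hsq _ ((CX X q₁ q₂).mul_mem a.2 c.2)
  have h2 := hsq _ a.2
  have h3 := hsq _ c.2
  show (a : S) * c = c * a
  have e1 : (a : S)⁻¹ = a := inv_eq_of_mul_eq_one_left h2
  have e2 : (c : S)⁻¹ = c := inv_eq_of_mul_eq_one_left h3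
  have e3 : ((a : S) * c)⁻¹ = a * c := inv_eq_of_mul_eq_one_left h1
  rw [mul_inv_rev, e1, e2] at e3
  exact e3.symm

theorem V4_le_A : Z.F.V4 ≤ CX X q₁ q₂ := by
  have F := Z.F
  intro x hx
  rcases (F.mem_V4).1 hx with h0 | h0 | h0 | h0
  · rw [h0]; exact Subgroup.one_mem _
  · rw [h0]; exact mem_CX.2 ⟨hq1, rfl, F.m12.trans F.m21.symm⟩
  · rw [h0]; exact mem_CX.2 ⟨hq2, F.m21.trans F.m12.symm, rfl⟩
  · rw [h0]; exact mem_CX.2 ⟨hq3, F.m31.trans F.m13.symm, F.m32.trans F.m23.symm⟩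

theorem card_A : Nat.card (CX X q₁ q₂) = 8 := by
  classical
  have hle := XD.V4_le_A hX Z hq1 hq2 hq3 hzX hwX
  have hdvd : 4 ∣ Nat.card (CX X q₁ q₂) := by
    have := Subgroup.card_dvd_of_le hle
    rwa [card_V4] at this
  have hzA : z ∈ CX X q₁ q₂ := mem_CX.2 ⟨hzX, (Z.q1z hX.hf).symm, (Z.q2z hX.hf).symm⟩
  have hupper : Nat.card (CX X q₁ q₂) ≤ 8 := by
    let f : Z.F.V4 × Bool → CX X q₁ q₂ := fun p =>
      if p.2 then ⟨p.1.1 * z, (CX X q₁ q₂).mul_mem (hle p.1.2) hzA⟩ else ⟨p.1.1, hle p.1.2⟩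
    have hs : Function.Surjective f := by
      rintro ⟨x, hx⟩
      obtain ⟨⟨t, ht, h0⟩, -⟩ := XD.A_form hX Z hq1 hq2 hq3 hzX hwX hx
      rcases h0 with h0 | h0
      · exact ⟨(⟨t, ht⟩, false), Subtype.ext (by simp [f, h0])⟩
      · exact ⟨(⟨t, ht⟩, true), Subtype.ext (by simp [f, h0])⟩
    have := Nat.card_le_card_of_surjective f hs
    rw [Nat.card_prod, card_V4] at this
    simpa using this
  have hne4 : Nat.card (CX X q₁ q₂) ≠ 4 := by
    intro h4
    have hc : Nat.card (CX X q₁ q₂) ≤ Nat.card Z.F.V4 := by rw [h4, card_V4]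
    have heq := Subgroup.eq_of_le_of_card_ge hle hc
    rw [← heq] at hzA
    exact XD.z_not_V4 Z hzA
  obtain ⟨k, hk⟩ := hdvd
  have h0 : k ≠ 0 := by
    rintro rfl
    have : 0 < Nat.card (CX X q₁ q₂) := Nat.card_pos
    omega
  omega

theorem card_X_le : Nat.card X ≤ 4 * Nat.card (CX X q₁ q₂) := by
  classical
  have hAX : ∀ x ∈ CX X q₁ q₂, x ∈ X := fun x hx => (mem_CX.1 hx).1
  let f : X → Bool × Bool := fun x =>
    (decide (x.1 * q₁ * x.1⁻¹ = q₁), decide (x.1 * q₂ * x.1⁻¹ = q₂))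
  have hval : ∀ (x : X) (q : S), q ∈ X → x.1 * q * x.1⁻¹ = q ∨ x.1 * q * x.1⁻¹ = z * q := by
    intro x q hq
    rcases hX.comm_Iz Z hq1 hq2 hzX hwX x.2 hq with h0 | h0
    · left
      rw [commutatorElement_eq_one_iff_commute] at h0
      have e : x.1 * q = q * x.1 := h0
      rw [e]; group
    · right
      rw [commutatorElement_def] at h0
      rw [← h0]; group
  have hkey : ∀ x y : X, f x = f y → x.1⁻¹ * y.1 ∈ CX X q₁ q₂ := by
    intro x y hxy
    have h1 : decide (x.1 * q₁ * x.1⁻¹ = q₁) = decide (y.1 * q₁ * y.1⁻¹ = q₁) :=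
      congrArg Prod.fst hxy
    have h2 : decide (x.1 * q₂ * x.1⁻¹ = q₂) = decide (y.1 * q₂ * y.1⁻¹ = q₂) :=
      congrArg Prod.snd hxy
    have hsame : ∀ q, q ∈ X → decide (x.1 * q * x.1⁻¹ = q) = decide (y.1 * q * y.1⁻¹ = q) →
        (x.1⁻¹ * y.1) * q = q * (x.1⁻¹ * y.1) := by
      intro q hq hd
      have e : x.1 * q * x.1⁻¹ = y.1 * q * y.1⁻¹ := by
        by_cases hc : x.1 * q * x.1⁻¹ = q
        · have : y.1 * q * y.1⁻¹ = q := by
            have := hd
            simp only [hc, decide_true] at this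
            exact of_decide_eq_true this.symm
          rw [hc, this]
        · have h3 : y.1 * q * y.1⁻¹ ≠ q := by
            intro h4
            apply hc
            have := hd
            simp only [h4, decide_true] at this
            exact of_decide_eq_true this
          rcases hval x q hq with h5 | h5
          · exact absurd h5 hc
          · rcases hval y q hq with h6 | h6
            · exact absurd h6 h3
            · rw [h5, h6]
      calc (x.1⁻¹ * y.1) * q = x.1⁻¹ * (y.1 * q * y.1⁻¹) * y.1 := by group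
        _ = x.1⁻¹ * (x.1 * q * x.1⁻¹) * y.1 := by rw [e]
        _ = q * (x.1⁻¹ * y.1) := by group
    exact mem_CX.2 ⟨X.mul_mem (X.inv_mem x.2) y.2, hsame q₁ hq1 h1, hsame q₂ hq2 h2⟩
  let r : Bool × Bool → X := fun c => if h : ∃ x, f x = c then h.choose else 1
  have hr : ∀ x : X, f (r (f x)) = f x := by
    intro x
    have h : ∃ y, f y = f x := ⟨x, rfl⟩
    simp only [r, dif_pos h]
    exact h.choose_spec
  let g : X → (Bool × Bool) × CX X q₁ q₂ := fun x =>
    (f x, ⟨(r (f x)).1⁻¹ * x.1, hkey _ _ (hr x)⟩)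
  have hg : Function.Injective g := by
    intro x y hxy
    have h1 : f x = f y := congrArg Prod.fst hxy
    have h2 : (r (f x)).1⁻¹ * x.1 = (r (f y)).1⁻¹ * y.1 :=
      congrArg (fun p => (p.2 : S)) hxy
    rw [h1] at h2
    exact Subtype.ext (mul_left_cancel h2)
  have := Nat.card_le_card_of_injective g hg
  rw [Nat.card_prod, Nat.card_prod] at this
  simpa using this

theorem card_X_mod : Nat.card X % 3 = 2 := by
  classical
  have hb3 := hX.hB.b3
  have hbne : b ≠ 1 := by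
    intro h0
    have := Z.F.b1
    rw [h0, r1] at this
    have h1 := Z.F.indep (a₁ := 1) (a₂ := -1) (a₃ := 0) (y := 0) (map_zero _) (map_zero _)
      (by rw [← this]; simp)
    exact absurd h1.1 (by decide)
  have hord : orderOf b = 3 := orderOf_eq_prime hb3 hbne
  set B₀ := Subgroup.zpowers b with hB₀
  have hcard : Nat.card B₀ = 3 := by rw [hB₀, Nat.card_zpowers, hord]
  have hp : IsPGroup 3 B₀ := IsPGroup.of_card (n := 1) (by rw [hcard]; rfl)
  have hnorm : B₀ ≤ Subgroup.normalizer (X : Set S) := by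
    rw [hB₀, Subgroup.zpowers_le]
    exact norm_of_conj (fun x hx => hX.hXb x hx)
  letI act : MulAction B₀ X :=
    { smul := fun g x => ⟨g.1 * x.1 * g.1⁻¹, (Subgroup.mem_normalizer_iff.1 (hnorm g.2) x.1).1 x.2⟩
      one_smul := fun x => Subtype.ext (by show (1 : S) * x.1 * 1⁻¹ = x.1; group)
      mul_smul := fun g k x => Subtype.ext (by
        show (g.1 * k.1) * x.1 * (g.1 * k.1)⁻¹ = g.1 * (k.1 * x.1 * k.1⁻¹) * g.1⁻¹
        group) }
  have hsm : ∀ (g : B₀) (x : X), ((g • x : X) : S) = g.1 * x.1 * g.1⁻¹ := fun _ _ => rfl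
  have hmod := hp.card_modEq_card_fixedPoints X
  have hzb := Z.zb hX.hf
  have hfix : (MulAction.fixedPoints B₀ X : Set X) = {⟨1, X.one_mem⟩, ⟨z, hzX⟩} := by
    ext x
    constructor
    · intro hx
      have h1 : (⟨b, Subgroup.mem_zpowers b⟩ : B₀) • x = x := hx _
      have h2 : b * x.1 * b⁻¹ = x.1 := by
        have := congrArg Subtype.val h1
        rwa [hsm] at this
      have h3 : x.1 * b = b * x.1 := by
        calc x.1 * b = (b * x.1 * b⁻¹) * b := by rw [h2]
          _ = b * x.1 := by group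
      rcases hX.cent_b Z hq1 hq2 hzX hwX x.2 h3 with h0 | h0
      · left; exact Subtype.ext h0
      · right; exact Subtype.ext h0
    · have hall : ∀ (y : S), y ∈ X → y * b = b * y → ∀ g : B₀, g.1 * y * g.1⁻¹ = y := by
        intro y _ hc g
        obtain ⟨i, hi⟩ := Subgroup.mem_zpowers_iff.1 g.2
        rw [← hi]
        have : Commute y (b ^ i) := (show Commute y b from hc).zpow_right i
        rw [← this.eq]; group
      rintro (rfl | rfl)
      · intro g
        apply Subtype.ext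
        rw [hsm]; group
      · intro g
        apply Subtype.ext
        rw [hsm]
        exact hall z hzX hzb g
  have hz1 : (⟨1, X.one_mem⟩ : X) ≠ ⟨z, hzX⟩ := by
    intro h0
    have h1 : (1 : S) = z := congrArg Subtype.val h0
    have := Z.z1
    rw [← h1, r1] at this
    exact Z.F.ne (eq_neg_self_zero this)
  have h2 : Nat.card (MulAction.fixedPoints B₀ X) = 2 := by
    rw [Nat.card_coe_set_eq, hfix, Set.ncard_pair hz1]
  rw [h2] at hmod
  exact hmod

theorem card_X : Nat.card X = 32 := by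
  have h1 := XD.card_X_le hX Z hq1 hq2 hq3 hzX hwX
  have h2 := XD.card_A hX Z hq1 hq2 hq3 hzX hwX
  have h3 := XD.card_X_mod hX Z hq1 hq2 hq3 hzX hwX
  have hAX : CX X q₁ q₂ ≤ X := inf_le_left
  have h4 : 8 ∣ Nat.card X := by
    have := Subgroup.card_dvd_of_le hAX
    rwa [h2] at this
  rw [h2] at h1
  obtain ⟨k, hk⟩ := h4
  have hk4 : k ≤ 4 := by omega
  have hne : Nat.card X ≠ 8 := by
    intro h8
    have hc : Nat.card X ≤ Nat.card (CX X q₁ q₂) := by rw [h8, h2]
    have heq := Subgroup.eq_of_le_of_card_ge hAX hc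
    apply hX.not_all_cent Z hzX
    intro x hx
    rw [← heq] at hx
    exact (mem_CX.1 hx).2
  interval_cases k <;> omega

end main

end XD

end Cfsg.Agent.Lib.S4415
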