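import Cfsg.Agent.Lib.S4415.ThmX4

/-!
# S4415: `X` is extraspecial
-/

namespace Cfsg.Agent.Lib.S4415

open scoped commutatorElement

variable {S E : Type*} [Group S] [AddCommGroup E] [Module (ZMod 3) E]

namespace XD
variable {ρ : Representation (ZMod 3) S E} {b : S} {u s v : E} {X : Subgroup S}
  {w z q₁ q₂ q₃ : S} {e₁ e₂ e₃ a : E}

variable [Finite S] [Finite E]

variable (hX : XD ρ b u s v X) (Z : ZF ρ b w z q₁ q₂ q₃ e₁ e₂ e₃ a)
    (hq1 : q₁ ∈ X) (hq2 : q₂ ∈ X) (hq3 : q₃ ∈ X) (hzX : z ∈ X) (hwX : w ∈ X)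
include hX Z hq1 hq2 hq3 hzX hwX

theorem mem_center_iff (c : X) : c ∈ Subgroup.center X ↔ c.1 = 1 ∨ c.1 = z := by
  have hc := hX.z_central Z hq1 hq2 hzX hwX
  constructor
  · intro hcen
    have hcomm : ∀ y ∈ X, y * c.1 = c.1 * y := by
      intro y hy
      have := (Subgroup.mem_center_iff.1 hcen) ⟨y, hy⟩
      exact congrArg Subtype.val this
    have hA : c.1 ∈ CX X q₁ q₂ := mem_CX.2 ⟨c.2, (hcomm q₁ hq1).symm, (hcomm q₂ hq2).symm⟩
    obtain ⟨⟨t, ht, h0⟩, -⟩ := XD.A_form hX Z hq1 hq2 hq3 hzX hwX hA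
    have htc : ∀ y ∈ X, y * t = t * y := by
      intro y hy
      rcases h0 with h0 | h0
      · rw [← h0]; exact hcomm y hy
      · have e : t = c.1 * z := by rw [h0, mul_assoc, Z.zz, mul_one]
        rw [e]
        calc y * (c.1 * z) = (y * c.1) * z := by group
          _ = (c.1 * y) * z := by rw [hcomm y hy]
          _ = c.1 * (y * z) := by group
          _ = c.1 * (z * y) := by rw [hc y hy]
          _ = _ := by group
    have Zb : ∀ g : S, (∀ y ∈ X, y * g = g * y) → ∀ y ∈ X, y * (b * g * b⁻¹) = (b * g * b⁻¹) * y := by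
      intro g hg y hy
      have h1 := hg _ (hX.hXb' hy)
      calc y * (b * g * b⁻¹) = b * ((b⁻¹ * y * b) * g) * b⁻¹ := by group
        _ = b * (g * (b⁻¹ * y * b)) * b⁻¹ := by rw [h1]
        _ = (b * g * b⁻¹) * y := by group
    have F := Z.F
    have hnot := hX.not_all_cent Z hzX
    have ht1 : t = 1 := by
      rcases (F.mem_V4).1 ht with h | h | h | h
      · exact h
      · exfalso
        rw [h] at htc
        have h2 := Zb _ htc
        rw [F.cb1] at h2
        exact hnot (fun y hy => ⟨htc y hy, h2 y hy⟩)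
      · exfalso
        rw [h] at htc
        have h3 := Zb _ htc
        rw [F.cb2] at h3
        have h4 := Zb _ h3
        rw [F.cb3] at h4
        exact hnot (fun y hy => ⟨h4 y hy, htc y hy⟩)
      · exfalso
        rw [h] at htc
        have h3 := Zb _ htc
        rw [F.cb3] at h3
        have h4 := Zb _ h3
        rw [F.cb1] at h4
        exact hnot (fun y hy => ⟨h3 y hy, h4 y hy⟩)
    rw [ht1] at h0
    rcases h0 with h0 | h0
    · exact Or.inl h0
    · right; rw [h0, one_mul]
  · rintro (h0 | h0)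
    · have : c = 1 := Subtype.ext h0
      rw [this]; exact Subgroup.one_mem _
    · rw [Subgroup.mem_center_iff]
      intro g
      apply Subtype.ext
      show g.1 * c.1 = c.1 * g.1
      rw [h0]
      exact hc g.1 g.2

theorem card_center : Nat.card (Subgroup.center X) = 2 := by
  classical
  have hset : ((Subgroup.center X : Subgroup X) : Set X) = {⟨1, X.one_mem⟩, ⟨z, hzX⟩} := by
    ext c
    rw [SetLike.mem_coe, XD.mem_center_iff hX Z hq1 hq2 hq3 hzX hwX]
    constructor
    · rintro (h0 | h0)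
      · left; exact Subtype.ext h0
      · right; exact Subtype.ext h0
    · rintro (h0 | h0)
      · left; rw [h0]
      · right; rw [h0]
  have hz1 : (⟨1, X.one_mem⟩ : X) ≠ ⟨z, hzX⟩ := by
    intro h0
    have h1 : (1 : S) = z := congrArg Subtype.val h0
    have := Z.z1
    rw [← h1, r1] at this
    exact Z.F.ne (eq_neg_self_zero this)
  have e : Nat.card (Subgroup.center X) = ((Subgroup.center X : Subgroup X) : Set X).ncard :=
    Nat.card_coe_set_eq _
  rw [e, hset, Set.ncard_pair hz1]

theorem commutator_eq : commutator X = Subgroup.center X := by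
  apply le_antisymm
  · rw [commutator_def, Subgroup.commutator_le]
    intro x _ y _
    rw [XD.mem_center_iff hX Z hq1 hq2 hq3 hzX hwX]
    exact hX.comm_Iz Z hq1 hq2 hzX hwX x.2 y.2
  · intro c hc
    rw [XD.mem_center_iff hX Z hq1 hq2 hq3 hzX hwX] at hc
    rcases hc with h0 | h0
    · have : c = 1 := Subtype.ext h0
      rw [this]; exact Subgroup.one_mem _
    · have hnot := hX.not_all_cent Z hzX
      push Not at hnot
      obtain ⟨x, hx, hq⟩ := hnot
      have key : ∀ q (hqX : q ∈ X), x * q ≠ q * x → c ∈ commutator X := by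
        intro q hqX hne
        rcases hX.comm_Iz Z hq1 hq2 hzX hwX hx hqX with h1 | h1
        · exfalso
          rw [commutatorElement_eq_one_iff_commute] at h1
          exact hne h1
        · have e : c = ⁅(⟨x, hx⟩ : X), (⟨q, hqX⟩ : X)⁆ := Subtype.ext (by
            rw [h0, ← h1]; rfl)
          rw [e]
          exact Subgroup.commutator_mem_commutator (Subgroup.mem_top _) (Subgroup.mem_top _)
      by_cases h5 : x * q₁ = q₁ * x
      · exact key q₂ hq2 (hq h5)
      · exact key q₁ hq1 h5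

theorem extraspecial : Cfsg.IsExtraspecial 2 X := by
  have hp : IsPGroup 2 X := hX.hX2
  have hcomm := XD.commutator_eq hX Z hq1 hq2 hq3 hzX hwX
  refine ⟨⟨hp, ?_, hcomm⟩, XD.card_center hX Z hq1 hq2 hq3 hzX hwX⟩
  apply le_antisymm
  · rw [Cfsg.Agent.Lib.PGroup.Basic.frattini_le_iff hp]
    constructor
    · intro x
      rw [XD.mem_center_iff hX Z hq1 hq2 hq3 hzX hwX, pow_two]
      exact hX.sq_Iz Z hq1 hq2 hzX hwX x.2
    · intro x y
      rw [XD.mem_center_iff hX Z hq1 hq2 hq3 hzX hwX]
      exact hX.comm_Iz Z hq1 hq2 hzX hwX x.2 y.2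
  · rw [← hcomm]
    exact Cfsg.Agent.Lib.PGroup.Basic.commutator_le_frattini hp

end XD

end Cfsg.Agent.Lib.S4415
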