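import Cfsg.Agent.Lib.S4415.RTwo
import Cfsg.Agent.Lib.S4415.SetupQ
import Cfsg.Agent.Lib.S4415.SetupBD
import Cfsg.Agent.Lib.S4415.FinalV4
import Cfsg.Agent.Lib.S4415.FinalZF

/-!
# S4415: assembly of the pieces
-/

set_option autoImplicit false

namespace Cfsg.Agent.Lib.S4415

open Cfsg
open scoped commutatorElement

theorem main_top {S : Type*} [Group S] [Finite S]
    [Group.IsSolvable S] {E : Type*} [AddCommGroup E] [Module (ZMod 3) E] [Finite E] (ρ : Representation (ZMod 3) S E)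
    (hfaith : Function.Injective ρ) (hO3 : Cfsg.pCore 3 S = ⊥)
    (B : Subgroup S) (hB : Nat.card ↥B = 3) (b : S) (hb : Subgroup.zpowers b = B)
    (E₀ E₁ : Submodule (ZMod 3) E) (hE01 : E₀ ⊓ E₁ = ⊥) (hE01' : E₀ ⊔ E₁ = ⊤)
    (hE1 : ∀ v ∈ E₁, ρ b v = v) (hE0inv : ∀ v ∈ E₀, ρ b v ∈ E₀) (hE0 : Nat.card ↥E₀ = 27)
    (hind : ∃ v ∈ E₀, ρ b (ρ b v - v) - (ρ b v - v) ≠ 0)
    (Q : Subgroup S) (hQ : Cfsg.IsElementaryAbelian 2 Q) (hQ4 : Nat.card ↥Q = 4)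
    (hBQ : B ≤ Subgroup.normalizer (Q : Set S)) (hBQ' : ¬ B ≤ Subgroup.centralizer (Q : Set S))
    (P : Sylow 3 S) (hBZ : (Subgroup.center ↥(P : Subgroup S)).map (P : Subgroup S).subtype = B) :
    ((Cfsg.IsElementaryAbelian 2 ⁅Cfsg.pPrimeCore 3 S, B⁆ ∧ Nat.card ↥⁅Cfsg.pPrimeCore 3 S, B⁆ = 4) ∨
      (Cfsg.IsExtraspecial 2 ↥⁅Cfsg.pPrimeCore 3 S, B⁆ ∧ Nat.card ↥⁅Cfsg.pPrimeCore 3 S, B⁆ = 32 ∧
        ∃ A : Subgroup S, A ≤ ⁅Cfsg.pPrimeCore 3 S, B⁆ ∧ Cfsg.IsElementaryAbelian 2 A ∧ Nat.card ↥A = 8)) ∧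
    ∃ F₀ F₁ : Submodule (ZMod 3) E, F₀ ⊓ F₁ = ⊥ ∧ F₀ ⊔ F₁ = ⊤ ∧
      (∀ r ∈ ⁅Cfsg.pPrimeCore 3 S, B⁆, ∀ v ∈ F₁, ρ r v = v) ∧ (∀ r ∈ ⁅Cfsg.pPrimeCore 3 S, B⁆ ⊔ B, ∀ v ∈ F₀, ρ r v ∈ F₀) ∧
      (∀ r ∈ ⁅Cfsg.pPrimeCore 3 S, B⁆ ⊔ B, (∀ v ∈ F₀, ρ r v = v) → r = 1) ∧
      (∀ N : Submodule (ZMod 3) E, N ≤ F₀ → (∀ r ∈ ⁅Cfsg.pPrimeCore 3 S, B⁆ ⊔ B, ∀ v ∈ N, ρ r v ∈ N) → N = ⊥ ∨ N = F₀) := by
  classical
  subst hb
  obtain ⟨hb3, q₁, q₂, q₃, hq1ne, hq1sq, hm12, cb1, cb2, cb3⟩ :=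
    setup_Q _ hB b rfl Q hQ hQ4 hBQ hBQ'
  obtain ⟨u, s, v, hBD⟩ := setup_BD ρ b hb3 E₀ E₁ hE01' hE1 hE0inv hE0 hind
  obtain ⟨e₁, e₂, e₃, F⟩ := exists_frame hfaith hBD hq1sq hm12 cb1 cb2 cb3 hq1ne
  have hqK : q₁ ∈ Cfsg.pPrimeCore 3 S :=
    q_le_core _ hB b rfl P hBZ hq1sq hm12 cb1 cb2 cb3
  have h2 := r_two hfaith hBD F hqK
  have hKn : (Cfsg.pPrimeCore 3 S).Normal := Cfsg.Agent.Lib.Basic.PCore.pPrimeCore_normal 3 S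
  have hKcop : (Nat.card (Cfsg.pPrimeCore 3 S)).Coprime 3 :=
    Cfsg.Agent.Lib.Solvable.PSeries.pPrimeCore_coprime 3
  have hq2K : q₂ ∈ Cfsg.pPrimeCore 3 S := by rw [← cb1]; exact hKn.conj_mem _ hqK b
  have hq3K : q₃ ∈ Cfsg.pPrimeCore 3 S := by rw [← cb2]; exact hKn.conj_mem _ hq2K b
  have hmemc : ∀ x ∈ Cfsg.pPrimeCore 3 S, ∀ y : S, y * y = 1 → b * x * b⁻¹ = y →
      x * y ∈ (⁅Cfsg.pPrimeCore 3 S, Subgroup.zpowers b⁆ : Subgroup S) := by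
    intro x hx y hy hxy
    have h1 : x * y = ⁅x, b⁆ := by
      rw [commutatorElement_def]
      have hy' : y⁻¹ = y := inv_eq_of_mul_eq_one_left hy
      have : x * b * x⁻¹ * b⁻¹ = x * (b * x⁻¹ * b⁻¹) := by group
      rw [this, ← hy', ← hxy]
      group
    rw [h1]
    exact Subgroup.commutator_mem_commutator hx (Subgroup.mem_zpowers b)
  have hq3X := hmemc q₁ hqK q₂ F.sq2 cb1
  rw [hm12] at hq3X
  have hq1X := hmemc q₂ hq2K q₃ F.sq3 cb2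
  rw [F.m23] at hq1X
  have hq2X := hmemc q₃ hq3K q₁ F.sq1 cb3
  rw [F.m31] at hq2X
  have hXb : ∀ x ∈ (⁅Cfsg.pPrimeCore 3 S, Subgroup.zpowers b⁆ : Subgroup S),
      b * x * b⁻¹ ∈ (⁅Cfsg.pPrimeCore 3 S, Subgroup.zpowers b⁆ : Subgroup S) := by
    have hle : (⁅Cfsg.pPrimeCore 3 S, Subgroup.zpowers b⁆ : Subgroup S) ≤
        (⁅Cfsg.pPrimeCore 3 S, Subgroup.zpowers b⁆ : Subgroup S).comap (MulAut.conj b).toMonoidHom := by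
      rw [Subgroup.commutator_le]
      intro k hk c hc
      rw [Subgroup.mem_comap]
      have hcb : b * c * b⁻¹ = c := by
        obtain ⟨n, rfl⟩ := hc
        have : Commute b ((fun x : ℤ => b ^ x) n) := (Commute.refl b).zpow_right n
        rw [this.eq]; group
      have : (MulAut.conj b).toMonoidHom ⁅k, c⁆ = ⁅b * k * b⁻¹, c⁆ := by
        simp only [MulEquiv.toMonoidHom_eq_coe, MonoidHom.coe_coe, MulAut.conj_apply,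
          commutatorElement_def]
        conv_rhs => rw [← hcb]
        group
      rw [this]
      exact Subgroup.commutator_mem_commutator (hKn.conj_mem _ hk b) hc
    intro x hx
    exact hle hx
  have hNorm : Subgroup.zpowers b ≤ Subgroup.normalizer (Cfsg.pPrimeCore 3 S : Set S) := by
    rw [Subgroup.normalizer_eq_top_iff.2 hKn]; exact le_top
  have hcop : (Nat.card (Subgroup.zpowers b)).Coprime (Nat.card (Cfsg.pPrimeCore 3 S)) := by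
    rw [Nat.card_zpowers]
    exact Nat.Coprime.coprime_dvd_left (orderOf_dvd_of_pow_eq_one hb3) hKcop.symm
  have hgen := Cfsg.Agent.Lib.Coprime.Coset.commutator_commutator_eq hNorm hcop (Or.inr inferInstance)
  have hX : XD ρ b u s v (⁅Cfsg.pPrimeCore 3 S, Subgroup.zpowers b⁆ : Subgroup S) :=
    ⟨hfaith, hBD, h2, hXb, hgen.ge⟩
  rcases hX.main_alt F hq1X hq2X hq3X with h | ⟨t₁, t₂, t₃, f₁, f₂, f₃, a, z, w, ht1, ht2, ht3, hzX, hwX, Z⟩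
  · have := final_V4 hfaith F hb3
    rw [← h] at this
    exact this
  · have hVX : F.V4 ≤ (⁅Cfsg.pPrimeCore 3 S, Subgroup.zpowers b⁆ : Subgroup S) := by
      intro x hx
      rcases (F.mem_V4).1 hx with rfl | rfl | rfl | rfl
      · exact Subgroup.one_mem _
      · exact hq1X
      · exact hq2X
      · exact hq3X
    exact final_ZF hX Z (hVX ht1) (hVX ht2) (hVX ht3) hzX hwX

end Cfsg.Agent.Lib.S4415
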