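import Cfsg.Agent.Lib.S4415.Frames

/-!
# S4415: two commuting frames
-/

namespace Cfsg.Agent.Lib.S4415

variable {S E : Type*} [Group S] [AddCommGroup E] [Module (ZMod 3) E]

/-- Equality up to sign. -/
def Sg (x y : E) : Prop := y = x ∨ y = -x

theorem Sg.symm {x y : E} (h : Sg x y) : Sg y x := by
  rcases h with rfl | rfl
  · exact Or.inl rfl
  · exact Or.inr (neg_neg x).symm

theorem Sg.exists {x y : E} (h : Sg x y) : ∃ σ : ZMod 3, σ * σ = 1 ∧ y = σ • x := by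
  rcases h with rfl | rfl
  · exact ⟨1, by decide, by simp⟩
  · exact ⟨-1, by decide, by simp⟩

theorem Sg.of_eq {x y : E} {σ : ZMod 3} (h : σ * σ = 1) (e : y = σ • x) : Sg x y := by
  have h0 : ∀ σ : ZMod 3, σ * σ = 1 → σ = 1 ∨ σ = -1 := by decide
  rcases h0 σ h with rfl | rfl
  · left; simpa using e
  · right; simpa using e

theorem Sg.pos {ρ : Representation (ZMod 3) S E} {p : S} {x y : E} (h : Sg x y) (e : ρ p y = y) :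
    ρ p x = x := by
  rcases h with rfl | rfl
  · exact e
  · rw [map_neg] at e; exact neg_inj.1 e

theorem Sg.neg {ρ : Representation (ZMod 3) S E} {p : S} {x y : E} (h : Sg x y) (e : ρ p y = -y) :
    ρ p x = -x := by
  rcases h with rfl | rfl
  · exact e
  · rw [map_neg] at e; exact neg_inj.1 e

theorem fix_of_pow {ρ : Representation (ZMod 3) S E} (g : S) (v : E) (n m : ℕ)
    (hn : Nat.Coprime n (2 ^ m)) (h1 : ρ (g ^ n) v = v) (h2 : g ^ (2 ^ m) = 1) : ρ g v = v := by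
  by_cases hm : m = 0
  · subst hm
    have : g = 1 := by simpa using h2
    rw [this, r1]
  have hk : 1 < 2 ^ m := Nat.one_lt_two_pow hm
  obtain ⟨a, ha⟩ := Nat.exists_mul_mod_eq_one_of_coprime hn hk
  have e : g = (g ^ n) ^ a := by
    rw [← pow_mul, pow_eq_pow_mod (n * a) h2, ha.2, pow_one]
  have hpow : ∀ k : ℕ, ρ ((g ^ n) ^ k) v = v := by
    intro k
    induction k with
    | zero => simp [r1]
    | succ k ih => rw [pow_succ, rm, h1, ih]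
  rw [e]; exact hpow a

namespace Frame
variable {ρ : Representation (ZMod 3) S E} {b q₁ q₂ q₃ : S} {e₁ e₂ e₃ : E}

theorem m21 (F : Frame ρ b q₁ q₂ q₃ e₁ e₂ e₃) : q₂ * q₁ = q₃ := by
  calc q₂ * q₁ = (q₃ * q₁) * q₁ := by rw [F.m31]
    _ = q₃ := by rw [mul_assoc, F.sq1, mul_one]

theorem m13 (F : Frame ρ b q₁ q₂ q₃ e₁ e₂ e₃) : q₁ * q₃ = q₂ := by
  calc q₁ * q₃ = q₁ * (q₁ * q₂) := by rw [F.m12]
    _ = q₂ := by rw [← mul_assoc, F.sq1, one_mul]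

theorem m32 (F : Frame ρ b q₁ q₂ q₃ e₁ e₂ e₃) : q₃ * q₂ = q₁ := by
  calc q₃ * q₂ = (q₁ * q₂) * q₂ := by rw [F.m12]
    _ = q₁ := by rw [mul_assoc, F.sq2, mul_one]

theorem comm3 (F : Frame ρ b q₁ q₂ q₃ e₁ e₂ e₃) {p : S} (h1 : p * q₁ = q₁ * p) (h2 : p * q₂ = q₂ * p) :
    p * q₃ = q₃ * p := by
  rw [← F.m12, ← mul_assoc, h1, mul_assoc, h2, mul_assoc]

theorem eig1 (F : Frame ρ b q₁ q₂ q₃ e₁ e₂ e₃) {p : S} (h1 : p * q₁ = q₁ * p) (h2 : p * q₂ = q₂ * p) :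
    Sg e₁ (ρ p e₁) := by
  have a1 : ρ q₁ (ρ p e₁) = ρ p e₁ := by rw [← rm, ← h1, rm, F.q11]
  have a2 : ρ q₂ (ρ p e₁) = -ρ p e₁ := by rw [← rm, ← h2, rm, F.q21, map_neg]
  obtain ⟨α, e⟩ := F.line1 _ a1 a2
  have hne : ρ p e₁ ≠ 0 := fun h => F.ne ((r_zero_iff ρ p e₁).1 h)
  rcases zmod3_cases α with rfl | rfl | rfl
  · rw [zero_smul] at e; exact absurd e hne
  · left; simpa using e
  · right; simpa using e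

theorem eig2 (F : Frame ρ b q₁ q₂ q₃ e₁ e₂ e₃) {p : S} (h1 : p * q₁ = q₁ * p) (h2 : p * q₂ = q₂ * p) :
    Sg e₂ (ρ p e₂) := F.rot.eig1 h2 (F.comm3 h1 h2)

theorem eig3 (F : Frame ρ b q₁ q₂ q₃ e₁ e₂ e₃) {p : S} (h1 : p * q₁ = q₁ * p) (h2 : p * q₂ = q₂ * p) :
    Sg e₃ (ρ p e₃) := F.rot.rot.eig1 (F.comm3 h1 h2) h1

theorem Hinv (_F : Frame ρ b q₁ q₂ q₃ e₁ e₂ e₃) {p : S} (h1 : p * q₁ = q₁ * p) (h2 : p * q₂ = q₂ * p)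
    {y : E} (y1 : ρ q₁ y = y) (y2 : ρ q₂ y = y) : ρ q₁ (ρ p y) = ρ p y ∧ ρ q₂ (ρ p y) = ρ p y := by
  constructor
  · rw [← rm, ← h1, rm, y1]
  · rw [← rm, ← h2, rm, y2]

theorem bH (F : Frame ρ b q₁ q₂ q₃ e₁ e₂ e₃) {y : E} (y1 : ρ q₁ y = y) (y2 : ρ q₂ y = y) :
    ρ b⁻¹ y = y := by
  apply rinj ρ b
  rw [rinvr, F.hH y y1 y2]

theorem binv1 (F : Frame ρ b q₁ q₂ q₃ e₁ e₂ e₃) : ρ b⁻¹ e₂ = e₁ := by
  rw [← F.b1, rinvl]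
theorem binv2 (F : Frame ρ b q₁ q₂ q₃ e₁ e₂ e₃) : ρ b⁻¹ e₃ = e₂ := by
  rw [← F.b2, rinvl]
theorem binv3 (F : Frame ρ b q₁ q₂ q₃ e₁ e₂ e₃) : ρ b⁻¹ e₁ = e₃ := by
  rw [← F.b3, rinvl]

/-- Splitting an element commuting with the four-group. -/
theorem split (F : Frame ρ b q₁ q₂ q₃ e₁ e₂ e₃) (hf : Function.Injective ρ) {p : S}
    (h1 : p * q₁ = q₁ * p) (h2 : p * q₂ = q₂ * p) :
    ∃ t, (t = 1 ∨ t = q₁ ∨ t = q₂ ∨ t = q₃) ∧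
      (∃ c : ZMod 3, (c = 1 ∨ c = -1) ∧ ρ (p * t) e₁ = c • e₁ ∧ ρ (p * t) e₂ = c • e₂ ∧
        ρ (p * t) e₃ = c • e₃) ∧ (p * t) * b = b * (p * t) := by
  have h3 := F.comm3 h1 h2
  have key : ∀ t, (t = 1 ∨ t = q₁ ∨ t = q₂ ∨ t = q₃) → ∀ c : ZMod 3, (c = 1 ∨ c = -1) →
      ρ (p * t) e₁ = c • e₁ → ρ (p * t) e₂ = c • e₂ → ρ (p * t) e₃ = c • e₃ →
      (p * t) * b = b * (p * t) := by
    intro t ht c _ a1 a2 a3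
    have ct1 : t * q₁ = q₁ * t := by
      rcases ht with h | h | h | h <;> rw [h]
      · simp
      · rw [F.m21, F.m12]
      · rw [F.m31, F.m13]
    have ct2 : t * q₂ = q₂ * t := by
      rcases ht with h | h | h | h <;> rw [h]
      · simp
      · rw [F.m12, F.m21]
      · rw [F.m32, F.m23]
    have d1 : (p * t) * q₁ = q₁ * (p * t) := by
      rw [mul_assoc, ct1, ← mul_assoc, h1, mul_assoc]
    have d2 : (p * t) * q₂ = q₂ * (p * t) := by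
      rw [mul_assoc, ct2, ← mul_assoc, h2, mul_assoc]
    refine F.ext_of hf ?_ ?_ ?_ ?_
    · rw [rm ρ (p * t) b, rm ρ b (p * t), F.b1, a2, a1, map_smul, F.b1]
    · rw [rm ρ (p * t) b, rm ρ b (p * t), F.b2, a3, a2, map_smul, F.b2]
    · rw [rm ρ (p * t) b, rm ρ b (p * t), F.b3, a1, a3, map_smul, F.b3]
    · intro y y1 y2
      rw [rm ρ (p * t) b, rm ρ b (p * t), F.hH y y1 y2]
      have := F.Hinv d1 d2 y1 y2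
      rw [F.hH _ this.1 this.2]
  have s1 := F.eig1 h1 h2
  have s2 := F.eig2 h1 h2
  have s3 := F.eig3 h1 h2
  have finish : ∀ t, (t = 1 ∨ t = q₁ ∨ t = q₂ ∨ t = q₃) → ∀ c : ZMod 3, (c = 1 ∨ c = -1) →
      ρ (p * t) e₁ = c • e₁ → ρ (p * t) e₂ = c • e₂ → ρ (p * t) e₃ = c • e₃ →
      ∃ t, (t = 1 ∨ t = q₁ ∨ t = q₂ ∨ t = q₃) ∧
      (∃ c : ZMod 3, (c = 1 ∨ c = -1) ∧ ρ (p * t) e₁ = c • e₁ ∧ ρ (p * t) e₂ = c • e₂ ∧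
        ρ (p * t) e₃ = c • e₃) ∧ (p * t) * b = b * (p * t) :=
    fun t ht c hc a1 a2 a3 => ⟨t, ht, ⟨c, hc, a1, a2, a3⟩, key t ht c hc a1 a2 a3⟩
  rcases s1 with s1 | s1 <;> rcases s2 with s2 | s2 <;> rcases s3 with s3 | s3
  · refine finish 1 (by simp) 1 (by simp) ?_ ?_ ?_ <;> simp [rm, r1, s1, s2, s3]
  · refine finish q₃ (by simp) (-1) (by simp) ?_ ?_ ?_ <;> simp [rm, F.q31, F.q32, F.q33, s1, s2, s3]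
  · refine finish q₂ (by simp) (-1) (by simp) ?_ ?_ ?_ <;> simp [rm, F.q21, F.q22, F.q23, s1, s2, s3]
  · refine finish q₁ (by simp) 1 (by simp) ?_ ?_ ?_ <;> simp [rm, F.q11, F.q12, F.q13, s1, s2, s3]
  · refine finish q₁ (by simp) (-1) (by simp) ?_ ?_ ?_ <;> simp [rm, F.q11, F.q12, F.q13, s1, s2, s3]
  · refine finish q₂ (by simp) 1 (by simp) ?_ ?_ ?_ <;> simp [rm, F.q21, F.q22, F.q23, s1, s2, s3]
  · refine finish q₃ (by simp) 1 (by simp) ?_ ?_ ?_ <;> simp [rm, F.q31, F.q32, F.q33, s1, s2, s3]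
  · refine finish 1 (by simp) (-1) (by simp) ?_ ?_ ?_ <;> simp [rm, r1, s1, s2, s3]

end Frame

/-- The commuting relation of two triples. -/
structure Cm (q₁ q₂ q₃ p₁ p₂ p₃ : S) : Prop where
  c11 : q₁ * p₁ = p₁ * q₁
  c12 : q₁ * p₂ = p₂ * q₁
  c13 : q₁ * p₃ = p₃ * q₁
  c21 : q₂ * p₁ = p₁ * q₂
  c22 : q₂ * p₂ = p₂ * q₂
  c23 : q₂ * p₃ = p₃ * q₂
  c31 : q₃ * p₁ = p₁ * q₃
  c32 : q₃ * p₂ = p₂ * q₃
  c33 : q₃ * p₃ = p₃ * q₃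

namespace Cm
variable {q₁ q₂ q₃ p₁ p₂ p₃ : S}
theorem rotL (h : Cm q₁ q₂ q₃ p₁ p₂ p₃) : Cm q₂ q₃ q₁ p₁ p₂ p₃ :=
  ⟨h.c21, h.c22, h.c23, h.c31, h.c32, h.c33, h.c11, h.c12, h.c13⟩
theorem rotR (h : Cm q₁ q₂ q₃ p₁ p₂ p₃) : Cm q₁ q₂ q₃ p₂ p₃ p₁ :=
  ⟨h.c12, h.c13, h.c11, h.c22, h.c23, h.c21, h.c32, h.c33, h.c31⟩
theorem symm (h : Cm q₁ q₂ q₃ p₁ p₂ p₃) : Cm p₁ p₂ p₃ q₁ q₂ q₃ :=
  ⟨h.c11.symm, h.c21.symm, h.c31.symm, h.c12.symm, h.c22.symm, h.c32.symm, h.c13.symm, h.c23.symm,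
    h.c33.symm⟩
end Cm

section two
variable {ρ : Representation (ZMod 3) S E} {b b' q₁ q₂ q₃ p₁ p₂ p₃ : S} {e₁ e₂ e₃ f₁ f₂ f₃ : E}

/-- `e₁` has a type with respect to the second frame. -/
theorem ty (F : Frame ρ b q₁ q₂ q₃ e₁ e₂ e₃) (F' : Frame ρ b' p₁ p₂ p₃ f₁ f₂ f₃)
    (hc : Cm q₁ q₂ q₃ p₁ p₂ p₃) :
    (ρ p₁ e₁ = e₁ ∧ ρ p₂ e₁ = e₁) ∨ Sg e₁ f₁ ∨ Sg e₁ f₂ ∨ Sg e₁ f₃ := by
  have s1 := F.eig1 hc.c11.symm hc.c21.symm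
  have s2 := F.eig1 hc.c12.symm hc.c22.symm
  have conv : ∀ (f : E) (α : ZMod 3), e₁ = α • f → Sg e₁ f := by
    intro f α e
    rcases zmod3_cases α with rfl | rfl | rfl
    · rw [zero_smul] at e; exact absurd e F.ne
    · left; simpa using e.symm
    · right
      have : e₁ = -f := by simpa using e
      rw [this, neg_neg]
  rcases s1 with s1 | s1 <;> rcases s2 with s2 | s2
  · exact Or.inl ⟨s1, s2⟩
  · obtain ⟨α, e⟩ := F'.line1 _ s1 s2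
    exact Or.inr (Or.inl (conv _ _ e))
  · have s3 : ρ p₃ e₁ = -e₁ := by rw [← F'.m12, rm, s2, s1]
    obtain ⟨α, e⟩ := F'.line2 _ s2 s3
    exact Or.inr (Or.inr (Or.inl (conv _ _ e)))
  · have s3 : ρ p₃ e₁ = e₁ := by rw [← F'.m12, rm, s2, map_neg, s1, neg_neg]
    obtain ⟨α, e⟩ := F'.line3 _ s3 s1
    exact Or.inr (Or.inr (Or.inr (conv _ _ e)))

/-- `f=1`. -/
theorem nf1 (F : Frame ρ b q₁ q₂ q₃ e₁ e₂ e₃) (F' : Frame ρ b' p₁ p₂ p₃ f₁ f₂ f₃)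
    (hh : ∃ m : ℕ, (b⁻¹ * b') ^ (2 ^ m) = 1)
    (h11 : Sg e₁ f₁) (h2 : ρ p₁ e₂ = e₂ ∧ ρ p₂ e₂ = e₂) (h3 : ρ p₁ e₃ = e₃ ∧ ρ p₂ e₃ = e₃)
    (k2 : ρ q₁ f₂ = f₂ ∧ ρ q₂ f₂ = f₂) (k3 : ρ q₁ f₃ = f₃ ∧ ρ q₂ f₃ = f₃) : False := by
  obtain ⟨m, hm⟩ := hh
  obtain ⟨σ, hσ, e⟩ := h11.exists
  set g := b⁻¹ * b' with hg
  have g3 : ρ g e₃ = e₂ := by rw [rm, F'.hH _ h3.1 h3.2, F.binv2]
  have g2 : ρ g e₂ = e₁ := by rw [rm, F'.hH _ h2.1 h2.2, F.binv1]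
  have b1 : ρ b' e₁ = σ • f₂ := by
    have := F'.b1
    rw [e, map_smul] at this
    rw [← this, smul_smul, hσ, one_smul]
  have g1 : ρ g e₁ = σ • f₂ := by rw [rm, b1, map_smul, F.bH k2.1 k2.2]
  have gf2 : ρ g f₂ = f₃ := by rw [rm, F'.b2, F.bH k3.1 k3.2]
  have gf3 : ρ g f₃ = σ • e₃ := by rw [rm, F'.b3, e, map_smul, F.binv3]
  have h5 : ρ (g ^ 5) e₃ = e₃ := by
    have : g ^ 5 = g * g * g * g * g := by simp only [pow_succ, pow_zero, one_mul]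
    rw [this]
    simp only [rm ρ _ g, g3, g2, g1, map_smul, gf2, gf3, smul_smul, hσ, one_smul]
  have hcop : Nat.Coprime 5 (2 ^ m) := Nat.Coprime.pow_right _ (by decide)
  have := fix_of_pow (ρ := ρ) g e₃ 5 m hcop h5 hm
  rw [g3] at this
  have h0 := F.indep (a₁ := 0) (a₂ := 1) (a₃ := -1) (y := 0) (map_zero _) (map_zero _) (by
    rw [this]; simp)
  exact absurd h0.2.1 (by decide)

/-- `f=2`, orientation one. -/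
theorem nfO1 (F : Frame ρ b q₁ q₂ q₃ e₁ e₂ e₃) (F' : Frame ρ b' p₁ p₂ p₃ f₁ f₂ f₃)
    (hh : ∃ m : ℕ, (b⁻¹ * b') ^ (2 ^ m) = 1)
    (h11 : Sg e₁ f₁) (h22 : Sg e₂ f₂) (h3 : ρ p₁ e₃ = e₃ ∧ ρ p₂ e₃ = e₃)
    (k3 : ρ q₁ f₃ = f₃ ∧ ρ q₂ f₃ = f₃) : False := by
  obtain ⟨m, hm⟩ := hh
  obtain ⟨σ₁, hσ₁, e1⟩ := h11.exists
  obtain ⟨σ₂, hσ₂, e2⟩ := h22.exists
  set g := b⁻¹ * b' with hg
  have g3 : ρ g e₃ = e₂ := by rw [rm, F'.hH _ h3.1 h3.2, F.binv2]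
  have b2 : ρ b' e₂ = σ₂ • f₃ := by
    have := F'.b2
    rw [e2, map_smul] at this
    rw [← this, smul_smul, hσ₂, one_smul]
  have g2 : ρ g e₂ = σ₂ • f₃ := by rw [rm, b2, map_smul, F.bH k3.1 k3.2]
  have gf3 : ρ g f₃ = σ₁ • e₃ := by rw [rm, F'.b3, e1, map_smul, F.binv3]
  have h6 : ρ ((g ^ 2) ^ 3) e₃ = e₃ := by
    have : (g ^ 2) ^ 3 = g * g * g * g * g * g := by
      rw [← pow_mul]; simp only [Nat.reduceMul, pow_succ, pow_zero, one_mul]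
    rw [this]
    simp only [rm ρ _ g, g3, g2, map_smul, gf3, smul_smul]
    have : σ₂ * σ₁ * σ₂ * σ₁ = 1 := by
      calc σ₂ * σ₁ * σ₂ * σ₁ = (σ₁ * σ₁) * (σ₂ * σ₂) := by ring
        _ = 1 := by rw [hσ₁, hσ₂, one_mul]
    rw [this, one_smul]
  have hcop : Nat.Coprime 3 (2 ^ m) := Nat.Coprime.pow_right _ (by decide)
  have hm2 : (g ^ 2) ^ (2 ^ m) = 1 := by
    rw [← pow_mul, mul_comm, pow_mul, hm, one_pow]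
  have := fix_of_pow (ρ := ρ) (g ^ 2) e₃ 3 m hcop h6 hm2
  rw [pow_two, rm, g3, g2] at this
  -- `σ₂ • f₃ = e₃`
  have h4 := congrArg (ρ p₁) this
  rw [map_smul, F'.q13, h3.1, smul_neg, this] at h4
  exact F.ne3 (eq_neg_self_zero h4.symm)

/-- `f=0`. -/
theorem nf0 (hf : Function.Injective ρ) (F : Frame ρ b q₁ q₂ q₃ e₁ e₂ e₃)
    (F' : Frame ρ b' p₁ p₂ p₃ f₁ f₂ f₃) (hb3 : b ^ 3 = 1) (hb'3 : b' ^ 3 = 1)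
    (hc3 : (orderOf (b⁻¹ * b')).Coprime 3)
    (h1 : ρ p₁ e₁ = e₁ ∧ ρ p₂ e₁ = e₁) (h2 : ρ p₁ e₂ = e₂ ∧ ρ p₂ e₂ = e₂)
    (h3 : ρ p₁ e₃ = e₃ ∧ ρ p₂ e₃ = e₃) : b' = b := by
  apply eq_of_nn ρ hf hb'3 hb3
  · have : b'⁻¹ * b = (b⁻¹ * b')⁻¹ := by group
    rw [this, orderOf_inv]; exact hc3
  · intro v
    obtain ⟨a₁, a₂, a₃, y, rfl, y1, y2⟩ := F.dec v
    simp only [map_add, map_smul, F.b1, F.b2, F.b3, F.hH y y1 y2, map_sub, F'.hH _ h1.1 h1.2,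
      F'.hH _ h2.1 h2.2, F'.hH _ h3.1 h3.2]
    abel

/-- `f=3`, general part. -/
theorem triv_H (F : Frame ρ b q₁ q₂ q₃ e₁ e₂ e₃) (F' : Frame ρ b' p₁ p₂ p₃ f₁ f₂ f₃)
    (hc : Cm q₁ q₂ q₃ p₁ p₂ p₃)
    (s1 : ∃ a c d : ZMod 3, f₁ = a • e₁ + c • e₂ + d • e₃)
    (s2 : ∃ a c d : ZMod 3, f₂ = a • e₁ + c • e₂ + d • e₃)
    (s3 : ∃ a c d : ZMod 3, f₃ = a • e₁ + c • e₂ + d • e₃)
    {y : E} (y1 : ρ q₁ y = y) (y2 : ρ q₂ y = y) : ρ p₁ y = y := by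
  obtain ⟨a₁, c₁, d₁, e1⟩ := s1
  obtain ⟨a₂, c₂, d₂, e2⟩ := s2
  obtain ⟨a₃, c₃, d₃, e3⟩ := s3
  obtain ⟨β₁, β₂, β₃, y', hy, y'1, y'2⟩ := F'.dec y
  have hw := F.Hinv hc.c11.symm hc.c21.symm y1 y2
  have hsum : ρ p₁ y - y = β₂ • f₂ + β₃ • f₃ := by
    rw [hy]
    simp only [map_add, map_smul, F'.q11, F'.q12, F'.q13, y'1]
    have := smul3 (β₂ • f₂)
    have h4 := smul3 (β₃ • f₃)
    linear_combination (norm := module) (-1 : ZMod 3) • this + (-1 : ZMod 3) • h4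
  have hz : (-(β₂ * a₂ + β₃ * a₃)) • e₁ + (-(β₂ * c₂ + β₃ * c₃)) • e₂ +
      (-(β₂ * d₂ + β₃ * d₃)) • e₃ + (ρ p₁ y - y) = 0 := by
    rw [hsum, e2, e3]; module
  have := F.indep (by rw [map_sub, hw.1, y1]) (by rw [map_sub, hw.2, y2]) hz
  exact sub_eq_zero.1 this.2.2.2

theorem nf3plus (hf : Function.Injective ρ) (F : Frame ρ b q₁ q₂ q₃ e₁ e₂ e₃)
    (F' : Frame ρ b' p₁ p₂ p₃ f₁ f₂ f₃) (hc : Cm q₁ q₂ q₃ p₁ p₂ p₃)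
    (h1 : Sg e₁ f₁) (h2 : Sg e₂ f₂) (h3 : Sg e₃ f₃) : p₁ = q₁ ∧ p₂ = q₂ ∧ p₃ = q₃ := by
  obtain ⟨σ₁, _, e1⟩ := h1.exists
  obtain ⟨σ₂, _, e2⟩ := h2.exists
  obtain ⟨σ₃, _, e3⟩ := h3.exists
  have s1 : ∃ a c d : ZMod 3, f₁ = a • e₁ + c • e₂ + d • e₃ := ⟨σ₁, 0, 0, by rw [e1]; simp⟩
  have s2 : ∃ a c d : ZMod 3, f₂ = a • e₁ + c • e₂ + d • e₃ := ⟨0, σ₂, 0, by rw [e2]; simp⟩
  have s3 : ∃ a c d : ZMod 3, f₃ = a • e₁ + c • e₂ + d • e₃ := ⟨0, 0, σ₃, by rw [e3]; simp⟩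
  have t1 : p₁ = q₁ := by
    refine F.ext_of hf ?_ ?_ ?_ ?_
    · rw [F.q11]; exact h1.pos F'.q11
    · rw [F.q12]; exact h2.neg F'.q12
    · rw [F.q13]; exact h3.neg F'.q13
    · intro y y1 y2; rw [y1]; exact triv_H F F' hc s1 s2 s3 y1 y2
  have t2 : p₂ = q₂ := by
    refine F.ext_of hf ?_ ?_ ?_ ?_
    · rw [F.q21]; exact h1.neg F'.q21
    · rw [F.q22]; exact h2.pos F'.q22
    · rw [F.q23]; exact h3.neg F'.q23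
    · intro y y1 y2; rw [y2]
      exact triv_H F F'.rot hc.rotR s2 s3 s1 y1 y2
  refine ⟨t1, t2, ?_⟩
  rw [← F'.m12, t1, t2, F.m12]

theorem nf3minus (hf : Function.Injective ρ) (F : Frame ρ b q₁ q₂ q₃ e₁ e₂ e₃)
    (F' : Frame ρ b' p₁ p₂ p₃ f₁ f₂ f₃) (hc : Cm q₁ q₂ q₃ p₁ p₂ p₃)
    (h1 : Sg e₁ f₁) (h2 : Sg e₂ f₃) (h3 : Sg e₃ f₂) : p₁ = q₁ ∧ p₂ = q₃ ∧ p₃ = q₂ := by
  obtain ⟨σ₁, _, e1⟩ := h1.exists
  obtain ⟨σ₂, _, e2⟩ := h2.exists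
  obtain ⟨σ₃, _, e3⟩ := h3.exists
  have s1 : ∃ a c d : ZMod 3, f₁ = a • e₁ + c • e₂ + d • e₃ := ⟨σ₁, 0, 0, by rw [e1]; simp⟩
  have s3 : ∃ a c d : ZMod 3, f₃ = a • e₁ + c • e₂ + d • e₃ := ⟨0, σ₂, 0, by rw [e2]; simp⟩
  have s2 : ∃ a c d : ZMod 3, f₂ = a • e₁ + c • e₂ + d • e₃ := ⟨0, 0, σ₃, by rw [e3]; simp⟩
  have t1 : p₁ = q₁ := by
    refine F.ext_of hf ?_ ?_ ?_ ?_
    · rw [F.q11]; exact h1.pos F'.q11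
    · rw [F.q12]; exact h2.neg F'.q13
    · rw [F.q13]; exact h3.neg F'.q12
    · intro y y1 y2; rw [y1]; exact triv_H F F' hc s1 s2 s3 y1 y2
  have t2 : p₂ = q₃ := by
    refine F.ext_of hf ?_ ?_ ?_ ?_
    · rw [F.q31]; exact h1.neg F'.q21
    · rw [F.q32]; exact h2.neg F'.q23
    · rw [F.q33]; exact h3.pos F'.q22
    · intro y y1 y2; rw [F.h3 y1 y2]
      exact triv_H F F'.rot hc.rotR s2 s3 s1 y1 y2
  refine ⟨t1, t2, ?_⟩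
  rw [← F'.m12, t1, t2, F.m13]

end two

/-- The structure produced by the last shape. -/
structure ZF (ρ : Representation (ZMod 3) S E) (b h z q₁ q₂ q₃ : S) (e₁ e₂ e₃ a : E) : Prop where
  F : Frame ρ b q₁ q₂ q₃ e₁ e₂ e₃
  a1 : ρ q₁ a = a
  a2 : ρ q₂ a = a
  ane : a ≠ 0
  z1 : ρ z e₁ = -e₁
  z2 : ρ z e₂ = -e₂
  z3 : ρ z e₃ = -e₃
  za : ρ z a = -a
  zz : z * z = 1
  dec : ∀ x, ∃ (α₁ α₂ α₃ α₄ : ZMod 3) (y : E), x = α₁ • e₁ + α₂ • e₂ + α₃ • e₃ + α₄ • a + y ∧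
    ρ z y = y ∧ ρ q₁ y = y ∧ ρ q₂ y = y ∧ ρ h y = y
  h1 : Sg a (ρ h e₁)
  ha : Sg e₁ (ρ h a)
  h2 : Sg e₃ (ρ h e₂)
  h3 : Sg e₂ (ρ h e₃)

section o2
variable {ρ : Representation (ZMod 3) S E} {b b' q₁ q₂ q₃ p₁ p₂ p₃ : S} {e₁ e₂ e₃ f₁ f₂ f₃ : E}

/-- `f=2`, orientation two. -/
theorem nfO2 (F : Frame ρ b q₁ q₂ q₃ e₁ e₂ e₃) (F' : Frame ρ b' p₁ p₂ p₃ f₁ f₂ f₃)
    (hc : Cm q₁ q₂ q₃ p₁ p₂ p₃)
    (h12 : Sg e₁ f₂) (h21 : Sg e₂ f₁) (h3 : ρ p₁ e₃ = e₃ ∧ ρ p₂ e₃ = e₃)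
    (k3 : ρ q₁ f₃ = f₃ ∧ ρ q₂ f₃ = f₃) :
    ZF ρ b (b⁻¹ * b') (p₁ * q₁) q₁ q₂ q₃ e₁ e₂ e₃ f₃ := by
  obtain ⟨σ₂, hσ₂, e2⟩ := h12.exists
  obtain ⟨σ₁, hσ₁, e1⟩ := h21.exists
  have hσ₁0 : σ₁ ≠ 0 := by intro h; rw [h] at hσ₁; exact absurd hσ₁ (by decide)
  have hσ₂0 : σ₂ ≠ 0 := by intro h; rw [h] at hσ₂; exact absurd hσ₂ (by decide)
  have hp11 : ρ p₁ e₁ = -e₁ := h12.neg F'.q12
  have hp12 : ρ p₁ e₂ = e₂ := h21.pos F'.q11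
  have hbb1 : ρ b' e₁ = σ₂ • f₃ := by
    have := F'.b2
    rw [e2, map_smul] at this
    rw [← this, smul_smul, hσ₂, one_smul]
  have hbb2 : ρ b' e₂ = (σ₁ * σ₂) • e₁ := by
    have := F'.b1
    rw [e1, map_smul, e2] at this
    have h5 : ρ b' e₂ = σ₁ • (σ₁ • ρ b' e₂) := by rw [smul_smul, hσ₁, one_smul]
    rw [h5, this, smul_smul]
  have hbb3 : ρ b' e₃ = e₃ := F'.hH _ h3.1 h3.2
  have hbba : ρ b' f₃ = σ₁ • e₂ := by rw [F'.b3, e1]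
  have comm11 : p₁ * q₁ = q₁ * p₁ := hc.c11.symm
  refine ⟨F, k3.1, k3.2, F'.ne3, ?_, ?_, ?_, ?_, ?_, ?_, ?_, ?_, ?_, ?_⟩
  · rw [rm, F.q11, hp11]
  · rw [rm, F.q12, map_neg, hp12]
  · rw [rm, F.q13, map_neg, h3.1]
  · rw [rm, k3.1, F'.q13]
  · calc p₁ * q₁ * (p₁ * q₁) = p₁ * (q₁ * p₁) * q₁ := by group
      _ = p₁ * (p₁ * q₁) * q₁ := by rw [comm11]
      _ = (p₁ * p₁) * (q₁ * q₁) := by group
      _ = 1 := by rw [F.sq1, F'.sq1, one_mul]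
  · intro x
    obtain ⟨α₁, α₂, α₃, y, hx, y1, y2⟩ := F.dec x
    obtain ⟨β₁, β₂, β₃, y', hy, y'1, y'2⟩ := F'.dec y
    have hw1 := F.Hinv hc.c11.symm hc.c21.symm y1 y2
    have hw2 := F.Hinv hc.c12.symm hc.c22.symm y1 y2
    have hw3 := F.Hinv hc.c13.symm hc.c23.symm y1 y2
    have p1 := F'.proj1 β₁ β₂ β₃ y'1 y'2 y hy
    have p2 := F'.rot.proj1 β₂ β₃ β₁ y'2 (F'.h3 y'1 y'2) y (by rw [hy]; abel)
    have hβ₁ : β₁ = 0 := by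
      have a1 : ρ q₁ (β₁ • f₁) = β₁ • f₁ := by
        rw [← p1]; simp only [map_add, map_sub, y1, hw1.1, hw2.1, hw3.1]
      rw [e1, map_smul, map_smul, F.q12, smul_neg, smul_neg] at a1
      have : (β₁ * σ₁) • e₂ = 0 := by
        rw [← smul_smul]; exact eq_neg_self_zero a1.symm
      rcases smul_eq_zero.1 this with h0 | h0
      · rcases mul_eq_zero.1 h0 with h00 | h00
        · exact h00
        · exact absurd h00 hσ₁0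
      · exact absurd h0 F.ne2
    have hβ₂ : β₂ = 0 := by
      have a1 : ρ q₂ (β₂ • f₂) = β₂ • f₂ := by
        rw [← p2]; simp only [map_add, map_sub, y2, hw1.2, hw2.2, hw3.2]
      rw [e2, map_smul, map_smul, F.q21, smul_neg, smul_neg] at a1
      have : (β₂ * σ₂) • e₁ = 0 := by
        rw [← smul_smul]; exact eq_neg_self_zero a1.symm
      rcases smul_eq_zero.1 this with h0 | h0
      · rcases mul_eq_zero.1 h0 with h00 | h00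
        · exact h00
        · exact absurd h00 hσ₂0
      · exact absurd h0 F.ne
    have hy'' : y' = y - β₃ • f₃ := by rw [hy, hβ₁, hβ₂]; simp
    have y''1 : ρ q₁ y' = y' := by rw [hy'', map_sub, map_smul, y1, k3.1]
    have y''2 : ρ q₂ y' = y' := by rw [hy'', map_sub, map_smul, y2, k3.2]
    refine ⟨α₁, α₂, α₃, β₃, y', ?_, ?_, y''1, y''2, ?_⟩
    · rw [hx, hy'']; abel
    · rw [rm, y''1, y'1]
    · rw [rm, F'.hH _ y'1 y'2, F.bH y''1 y''2]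
  · exact Sg.of_eq hσ₂ (by rw [rm, hbb1, map_smul, F.bH k3.1 k3.2])
  · exact Sg.of_eq hσ₁ (by rw [rm, hbba, map_smul, F.binv1])
  · exact Sg.of_eq (σ := σ₁ * σ₂) (by
      calc σ₁ * σ₂ * (σ₁ * σ₂) = (σ₁ * σ₁) * (σ₂ * σ₂) := by ring
        _ = 1 := by rw [hσ₁, hσ₂, one_mul]) (by rw [rm, hbb2, map_smul, F.binv3])
  · exact Sg.of_eq (σ := 1) (by decide) (by rw [rm, hbb3, F.binv2, one_smul])

/-- The third alternative of the two-frame theorem. -/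
def Out (ρ : Representation (ZMod 3) S E) (b b' : S) (V Vp : Subgroup S) : Prop :=
  ∃ (t₁ t₂ t₃ : S) (e₁ e₂ e₃ a : E) (t q : S), t₁ ∈ V ∧ t₂ ∈ V ∧ t₃ ∈ V ∧ t ∈ Vp ∧ q ∈ V ∧
    ZF ρ b (b⁻¹ * b') (t * q) t₁ t₂ t₃ e₁ e₂ e₃ a

theorem no_sign {p : S} {x : E} (hx : x ≠ 0) (h1 : ρ p x = x) (h2 : ρ p x = -x) : False :=
  hx (eq_neg_self_zero (h1.symm.trans h2))

/-- Two-frame analysis when `e₁` and `f₁` are shared. -/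
theorem step3 (hf : Function.Injective ρ) (F : Frame ρ b q₁ q₂ q₃ e₁ e₂ e₃)
    (F' : Frame ρ b' p₁ p₂ p₃ f₁ f₂ f₃) (hc : Cm q₁ q₂ q₃ p₁ p₂ p₃)
    (hh : ∃ m : ℕ, (b⁻¹ * b') ^ (2 ^ m) = 1) {V Vp : Subgroup S}
    (hq1 : q₁ ∈ V) (hq2 : q₂ ∈ V) (hq3 : q₃ ∈ V) (hp1 : p₁ ∈ Vp) (hp3 : p₃ ∈ Vp)
    (h11 : Sg e₁ f₁) :
    (p₁ ∈ V ∧ p₂ ∈ V ∧ p₃ ∈ V) ∨ Out ρ b b' V Vp := by
  have t2 := ty F.rot F' hc.rotL
  have t3 := ty F.rot.rot F' hc.rotL.rotL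
  have u2 := ty F'.rot F hc.symm.rotL
  have u3 := ty F'.rot.rot F hc.symm.rotL.rotL
  have ne1 := F.ne
  have ne2 := F.ne2
  have ne3 := F.ne3
  have a1 : ρ p₁ e₁ = e₁ := h11.pos F'.q11
  have a1' : ρ p₂ e₁ = -e₁ := h11.neg F'.q21
  have fne1 := F'.ne
  have fne2 := F'.ne2
  have fne3 := F'.ne3
  have nf21 : ¬ Sg e₂ f₁ := fun h =>
    no_sign (p := q₁) fne1 (h11.symm.pos F.q11) (h.symm.neg F.q12)
  have nf31 : ¬ Sg e₃ f₁ := fun h =>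
    no_sign (p := q₁) fne1 (h11.symm.pos F.q11) (h.symm.neg F.q13)
  have e_f2 : ¬ Sg f₂ e₁ := fun h => no_sign (p := p₁) ne1 a1 (h.symm.neg F'.q12)
  have e_f3 : ¬ Sg f₃ e₁ := fun h => no_sign (p := p₁) ne1 a1 (h.symm.neg F'.q13)
  have mkOut : ∀ (t₁ t₂ t₃ : S) (e₁ e₂ e₃ a : E) (t q : S), t₁ ∈ V → t₂ ∈ V → t₃ ∈ V → t ∈ Vp → q ∈ V →
      ZF ρ b (b⁻¹ * b') (t * q) t₁ t₂ t₃ e₁ e₂ e₃ a → (p₁ ∈ V ∧ p₂ ∈ V ∧ p₃ ∈ V) ∨ Out ρ b b' V Vp :=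
    fun t₁ t₂ t₃ e₁ e₂ e₃ a t q a1 a2 a3 a4 a5 a6 =>
      Or.inr ⟨t₁, t₂, t₃, e₁, e₂, e₃, a, t, q, a1, a2, a3, a4, a5, a6⟩
  rcases t2 with t2 | t2 | t2 | t2 <;> rcases t3 with t3 | t3 | t3 | t3
  · -- (H,H)
    exfalso
    have k2 : ρ q₁ f₂ = f₂ ∧ ρ q₂ f₂ = f₂ := by
      rcases u2 with u2 | u2 | u2 | u2
      · exact u2
      · exact (e_f2 u2).elim
      · exact (no_sign (p := p₁) ne2 t2.1 (u2.symm.neg F'.q12)).elim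
      · exact (no_sign (p := p₁) ne3 t3.1 (u2.symm.neg F'.q12)).elim
    have k3 : ρ q₁ f₃ = f₃ ∧ ρ q₂ f₃ = f₃ := by
      rcases u3 with u3 | u3 | u3 | u3
      · exact u3
      · exact (e_f3 u3).elim
      · exact (no_sign (p := p₁) ne2 t2.1 (u3.symm.neg F'.q13)).elim
      · exact (no_sign (p := p₁) ne3 t3.1 (u3.symm.neg F'.q13)).elim
    exact nf1 F F' hh h11 t2 t3 k2 k3
  · exact (nf31 t3).elim
  · -- (H, e₃ ~ f₂)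
    have k3 : ρ q₁ f₃ = f₃ ∧ ρ q₂ f₃ = f₃ := by
      rcases u3 with u3 | u3 | u3 | u3
      · exact u3
      · exact (e_f3 u3).elim
      · exact (no_sign (p := p₁) ne2 t2.1 (u3.symm.neg F'.q13)).elim
      · exact (no_sign (p := p₂) ne3 (t3.pos F'.q22) (u3.symm.neg F'.q23)).elim
    exact mkOut _ _ _ _ _ _ _ _ _ hq3 hq1 hq2 hp1 hq3
      (nfO2 F.rot.rot F' hc.rotL.rotL t3 h11 t2 ⟨F.h3 k3.1 k3.2, k3.1⟩)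
  · -- (H, e₃ ~ f₃)
    exfalso
    have k2 : ρ q₁ f₂ = f₂ ∧ ρ q₂ f₂ = f₂ := by
      rcases u2 with u2 | u2 | u2 | u2
      · exact u2
      · exact (e_f2 u2).elim
      · exact (no_sign (p := p₁) ne2 t2.1 (u2.symm.neg F'.q12)).elim
      · exact (no_sign (p := p₃) ne3 (t3.pos F'.q33) (u2.symm.neg F'.q32)).elim
    exact nfO1 F.rot.rot F'.rot.rot hh t3 h11 ⟨F'.h3 t2.1 t2.2, t2.1⟩ ⟨F.h3 k2.1 k2.2, k2.1⟩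
  · exact (nf21 t2).elim
  · exact (nf21 t2).elim
  · exact (nf21 t2).elim
  · exact (nf21 t2).elim
  · -- (e₂ ~ f₂, H)
    exfalso
    have k3 : ρ q₁ f₃ = f₃ ∧ ρ q₂ f₃ = f₃ := by
      rcases u3 with u3 | u3 | u3 | u3
      · exact u3
      · exact (e_f3 u3).elim
      · exact (no_sign (p := p₂) ne2 (t2.pos F'.q22) (u3.symm.neg F'.q23)).elim
      · exact (no_sign (p := p₁) ne3 t3.1 (u3.symm.neg F'.q13)).elim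
    exact nfO1 F F' hh h11 t2 t3 k3
  · exact (nf31 t3).elim
  · exact (no_sign (p := q₂) fne2 (t2.symm.pos F.q22) (t3.symm.neg F.q23)).elim
  · obtain ⟨e1, e2, e3⟩ := nf3plus hf F F' hc h11 t2 t3
    exact Or.inl ⟨e1 ▸ hq1, e2 ▸ hq2, e3 ▸ hq3⟩
  · -- (e₂ ~ f₃, H)
    have k2 : ρ q₁ f₂ = f₂ ∧ ρ q₂ f₂ = f₂ := by
      rcases u2 with u2 | u2 | u2 | u2
      · exact u2
      · exact (e_f2 u2).elim
      · exact (no_sign (p := p₂) ne2 (u2.symm.pos F'.q22) (t2.neg F'.q23)).elim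
      · exact (no_sign (p := p₁) ne3 t3.1 (u2.symm.neg F'.q12)).elim
    exact mkOut _ _ _ _ _ _ _ _ _ hq1 hq2 hq3 hp3 hq1
      (nfO2 F F'.rot.rot hc.rotR.rotR h11 t2 ⟨F'.h3 t3.1 t3.2, t3.1⟩ k2)
  · exact (nf31 t3).elim
  · obtain ⟨e1, e2, e3⟩ := nf3minus hf F F' hc h11 t2 t3
    exact Or.inl ⟨e1 ▸ hq1, e2 ▸ hq3, e3 ▸ hq2⟩
  · exact (no_sign (p := q₂) fne3 (t2.symm.pos F.q22) (t3.symm.neg F.q23)).elim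

/-- **The two-frame theorem.** -/
theorem two_frames (hf : Function.Injective ρ) (F : Frame ρ b q₁ q₂ q₃ e₁ e₂ e₃)
    (F' : Frame ρ b' p₁ p₂ p₃ f₁ f₂ f₃) (hc : Cm q₁ q₂ q₃ p₁ p₂ p₃)
    (hb3 : b ^ 3 = 1) (hb'3 : b' ^ 3 = 1)
    (hh : ∃ m : ℕ, (b⁻¹ * b') ^ (2 ^ m) = 1) {V Vp : Subgroup S}
    (hq1 : q₁ ∈ V) (hq2 : q₂ ∈ V) (hq3 : q₃ ∈ V) (hp1 : p₁ ∈ Vp) (hp2 : p₂ ∈ Vp) (hp3 : p₃ ∈ Vp) :
    b' = b ∨ (p₁ ∈ V ∧ p₂ ∈ V ∧ p₃ ∈ V) ∨ Out ρ b b' V Vp := by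
  have hc3 : (orderOf (b⁻¹ * b')).Coprime 3 := by
    obtain ⟨m, hm⟩ := hh
    have h1 : orderOf (b⁻¹ * b') ∣ 2 ^ m := orderOf_dvd_of_pow_eq_one hm
    exact Nat.Coprime.coprime_dvd_left h1 (Nat.Coprime.pow_left _ (by decide))
  have r1' : ∀ {P1 P2 P3 : Prop}, (P1 ∧ P2 ∧ P3) → (P3 ∧ P1 ∧ P2) := fun ⟨a, c, d⟩ => ⟨d, a, c⟩
  have r2' : ∀ {P1 P2 P3 : Prop}, (P1 ∧ P2 ∧ P3) → (P2 ∧ P3 ∧ P1) := fun ⟨a, c, d⟩ => ⟨c, d, a⟩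
  rcases ty F F' hc with t1 | t1 | t1 | t1
  · rcases ty F.rot F' hc.rotL with t2 | t2 | t2 | t2
    · rcases ty F.rot.rot F' hc.rotL.rotL with t3 | t3 | t3 | t3
      · exact Or.inl (nf0 hf F F' hb3 hb'3 hc3 t1 t2 t3)
      · exact Or.inr (step3 hf F.rot.rot F' hc.rotL.rotL hh hq3 hq1 hq2 hp1 hp3 t3)
      · exact Or.inr ((step3 hf F.rot.rot F'.rot hc.rotL.rotL.rotR hh hq3 hq1 hq2 hp2 hp1 t3).imp_left r1')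
      · exact Or.inr ((step3 hf F.rot.rot F'.rot.rot hc.rotL.rotL.rotR.rotR hh hq3 hq1 hq2 hp3 hp2 t3).imp_left r2')
    · exact Or.inr (step3 hf F.rot F' hc.rotL hh hq2 hq3 hq1 hp1 hp3 t2)
    · exact Or.inr ((step3 hf F.rot F'.rot hc.rotL.rotR hh hq2 hq3 hq1 hp2 hp1 t2).imp_left r1')
    · exact Or.inr ((step3 hf F.rot F'.rot.rot hc.rotL.rotR.rotR hh hq2 hq3 hq1 hp3 hp2 t2).imp_left r2')
  · exact Or.inr (step3 hf F F' hc hh hq1 hq2 hq3 hp1 hp3 t1)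
  · exact Or.inr ((step3 hf F F'.rot hc.rotR hh hq1 hq2 hq3 hp2 hp1 t1).imp_left r1')
  · exact Or.inr ((step3 hf F F'.rot.rot hc.rotR.rotR hh hq1 hq2 hq3 hp3 hp2 t1).imp_left r2')

end o2

end Cfsg.Agent.Lib.S4415
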